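import Mathlib
import Cfsg.Agent.Lib.Lang.Chev
import Cfsg.Agent.Lib.ChevAut.RootCent
import Cfsg.Agent.Lib.RGD.Inst

/-!
# The highest root subgroup and the corner entry of an element of a Chevalley group
-/

set_option autoImplicit false

namespace CfsgLib.BGL

open Matrix Cfsg.Lie Cfsg.Lie.ChevalleyDatum CfsgLib.RGD CfsgLib.Chev CfsgLib.Weyl CfsgLib.ChevAut
  CfsgLib.Lang

variable {D : ChevalleyDatum} {K : Type*} [Field K]

/-- the highest root -/
def th (D : ChevalleyDatum) : ℕ := D.nroots - 1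

theorem th_lt (h0 : 0 < D.nroots) : th D < D.nroots := by unfold th; omega

/-- the coordinate of the lowest root -/
def eps (h0 : 0 < D.nroots) (v : D.Idx → K) : K := v (Sum.inr ⟨0, h0⟩)

/-- the corner entry -/
def ent (h0 : 0 < D.nroots) (g : GL D.Idx K) : K :=
  eps h0 ((g : Matrix D.Idx D.Idx K) *ᵥ eV D K (th D))

theorem eps_eV (h0 : 0 < D.nroots) (s : ℕ) : eps h0 (eV D K s) = if s = 0 then 1 else 0 := by
  rw [eps, eV_inr]; simp [eq_comm]

/-- ascent to a dominant root -/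
def asc (D : ChevalleyDatum) : ℕ → ℕ → ℕ
  | 0, s => s
  | n + 1, s => match (List.range D.rank).find? fun j => decide (D.cartan j s < 0) with
    | none => s
    | some j => asc D n (D.reflectRoot j s)

/-- `g` maps root vectors and root elements compatibly -/
def Mon [Good D] (g : GL D.Idx K) : Prop :=
  ∀ s < D.nroots, ∃ s' < D.nroots, ∃ l : K, l ≠ 0 ∧
    (g : Matrix D.Idx D.Idx K) *ᵥ eV D K s = l • eV D K s' ∧
    ∀ t, g * xU D K s t * g⁻¹ = xU D K s' (l * t)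

variable [Good D]

theorem neg_th (h0 : 0 < D.nroots) : D.neg (th D) = 0 := by
  rw [neg_eq (th_lt h0)]; unfold th; omega

theorem neg_zero' (h0 : 0 < D.nroots) : D.neg 0 = th D := by
  rw [neg_eq h0]; rfl

theorem pos_th (h0 : 0 < D.nroots) : D.IsPosRoot (th D) :=
  isPosRoot_iff.mpr ⟨by unfold th; omega, th_lt h0⟩

theorem ord_zero_neg (h0 : 0 < D.nroots) : ord D 0 < 0 :=
  (ord_neg_iff h0).mpr (isNegRoot_iff.mpr (by have := nroots_even (D := D); omega))

theorem eps_U (h0 : 0 < D.nroots) {u : GL D.Idx K} (hu : u ∈ D.posUnipotent K) (v : D.Idx → K) :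
    eps h0 ((u : Matrix D.Idx D.Idx K) *ᵥ v) = eps h0 v := by
  have : ∀ j, (u : Matrix D.Idx D.Idx K) (Sum.inr ⟨0, h0⟩) j = 
      (1 : Matrix D.Idx D.Idx K) (Sum.inr ⟨0, h0⟩) j := by
    intro j
    refine raises_of_mem_posUnipotent hu _ j ?_
    rcases j with j | j
    · exact (ord_zero_neg h0).le
    · rcases Nat.eq_zero_or_pos j with e | e
      · change ord D 0 ≤ ord D j
        rw [e]
      · exact (ord_lt_ord e j.2).le
  conv_rhs => rw [← one_mulVec v]
  simp only [eps, mulVec, dotProduct, this]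

theorem U_eth (h0 : 0 < D.nroots) {u : GL D.Idx K} (hu : u ∈ D.posUnipotent K) :
    (u : Matrix D.Idx D.Idx K) *ᵥ eV D K (th D) = eV D K (th D) := by
  funext i
  conv_rhs => rw [← one_mulVec (eV D K (th D))]
  rw [mulVec_eV_apply _ ⟨th D, th_lt h0⟩, mulVec_eV_apply _ ⟨th D, th_lt h0⟩]
  refine raises_of_mem_posUnipotent hu _ _ ?_
  rcases i with j | j
  · exact ((ord_pos_iff (th_lt h0)).mpr (pos_th h0)).le
  · change ord D j ≤ ord D (th D)
    rcases (show (j : ℕ) = th D ∨ j < th D by have := j.2; unfold th; omega) with e | e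
    · rw [e]
    · exact (ord_lt_ord e (th_lt h0)).le

theorem U_comm_th (h : RtOK D) (h0 : 0 < D.nroots) {u : GL D.Idx K} (hu : u ∈ D.posUnipotent K) (t : K) :
    u * xU D K (th D) t * u⁻¹ = xU D K (th D) t := by
  rw [← stSys_U h] at hu
  have := commute_of_mem_U (S := stSys h K) (r := ⟨th D, th_lt h0⟩) (commute_last h rfl) hu t
  rw [mul_inv_eq_iff_eq_mul]; exact this.symm.eq

theorem Mon.mul {g g' : GL D.Idx K} (h : Mon g) (h' : Mon g') : Mon (g * g') := by
  intro s hs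
  obtain ⟨s', hs', l, hl, e1, e2⟩ := h' s hs
  obtain ⟨s'', hs'', l', hl', e1', e2'⟩ := h s' hs'
  refine ⟨s'', hs'', l' * l, mul_ne_zero hl' hl, ?_, fun t => ?_⟩
  · rw [Units.val_mul, ← mulVec_mulVec, e1, mulVec_smul, e1', smul_smul, mul_comm]
  · rw [mul_assoc l', ← e2', ← e2]; group

theorem mon_nU {r : ℕ} (hr : r < D.nroots) : Mon (nU D K r 1) := fun s hs =>
  ⟨refl D r s, refl_lt hr hs, (eta D r s : ℤ), by rcases eta_eq hr hs with e | e <;> simp [e],
    by rw [nU_val, nMat_one_eV hr hs], fun t => by rw [nU_conj_xU hr hs one_ne_zero]; simp⟩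

theorem mon_of_mem_N (h : RtOK D) {n : GL D.Idx K} (hn : n ∈ (stSys h K).N) : Mon n := by
  obtain ⟨a, ha, L, rfl⟩ := (stSys h K).mem_N_iff.mp hn
  refine Mon.mul ?_ ?_
  · rw [stSys_H] at ha
    obtain ⟨χ, hχ, e⟩ := exists_char_of_mem_diagonalSubgroup ha
    refine fun s hs => ⟨s, hs, χ s, hχ.ne_zero hs, by rw [e, diagR_eV], fun t => ?_⟩
    rw [mul_inv_eq_iff_eq_mul]
    exact Units.ext (by rw [Units.val_mul, Units.val_mul, e, xU_val, xU_val, hχ.mul_x])
  · induction L with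
    | nil => exact fun s hs => ⟨s, hs, 1, one_ne_zero, by simp [StSys.nprod_nil], fun t => by
        simp [StSys.nprod_nil]⟩
    | cons i L ih =>
      rw [StSys.nprod_cons]
      exact (mon_nU (simple_lt i.2)).mul (ih ((stSys h K).N.mul_mem ((stSys h K).H_le_N ha)
        ((stSys h K).nprod_mem_N L)))

theorem exists_unu (h : RtOK D) {g : GL D.Idx K} (hg : g ∈ D.group K) :
    ∃ u ∈ D.posUnipotent K, ∃ n ∈ (stSys h K).N, ∃ u' ∈ D.posUnipotent K, g = u * n * u' := by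
  rw [← stSys_grp h] at hg
  obtain ⟨u, hu, n, hn, w, -, -, u', hu', e⟩ := (stSys_nondeg h).exists_bruhat hg
  exact ⟨u, stSys_U h (F := K) ▸ hu, n, hn, u',
    stSys_U h (F := K) ▸ (stSys h K).UU_le_U (fun r hr => hr.1) hu', e⟩

/-- the conjugate of the highest root subgroup by `g` -/
theorem exists_pair' (h : RtOK D) (h0 : 0 < D.nroots) {g : GL D.Idx K} (hg : g ∈ D.group K) :
    ∃ u ∈ D.posUnipotent K, ∃ n ∈ (stSys h K).N, ∃ u' ∈ D.posUnipotent K, g = u * n * u' ∧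
      ∃ s < D.nroots, ∃ l : K, l ≠ 0 ∧ ent h0 g = (if s = 0 then l else 0) ∧
      ∀ t, n * xU D K (th D) t * n⁻¹ = xU D K s (l * t) := by
  obtain ⟨u, hu, n, hn, u', hu', rfl⟩ := exists_unu h hg
  obtain ⟨s, hs, l, hl, e1, e2⟩ := mon_of_mem_N h hn _ (th_lt h0)
  refine ⟨u, hu, n, hn, u', hu', rfl, s, hs, l, hl, ?_, e2⟩
  rw [ent, Units.val_mul, Units.val_mul, ← mulVec_mulVec, ← mulVec_mulVec, eps_U h0 hu, U_eth h0 hu', e1]
  change l * eps h0 (eV D K s) = _
  rw [eps_eV]; split_ifs <;> simp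

theorem exists_pair (h : RtOK D) (h0 : 0 < D.nroots) {g : GL D.Idx K} (hg : g ∈ D.group K)
    (he : ent h0 g ≠ 0) : ∃ u ∈ D.posUnipotent K,
      ∀ t, g * xU D K (th D) t * g⁻¹ = u * xU D K 0 (ent h0 g * t) * u⁻¹ := by
  obtain ⟨u, hu, n, -, u', hu', rfl, s, -, l, -, e1, e2⟩ := exists_pair' h h0 hg
  by_cases hs : s = 0
  · subst hs
    rw [if_pos rfl] at e1
    refine ⟨u, hu, fun t => ?_⟩
    rw [e1, ← e2]
    conv_rhs => rw [← U_comm_th h h0 hu' t]
    group
  · exact absurd (e1.trans (if_neg hs)) he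

theorem commute_of_eps (h : RtOK D) (h0 : 0 < D.nroots) {y : GL D.Idx K} (hy : y ∈ D.group K)
    (he : ∀ v, eps h0 ((y : Matrix D.Idx D.Idx K) *ᵥ v) = eps h0 v) (t : K) :
    y * xU D K (th D) t * y⁻¹ = xU D K (th D) t := by
  obtain ⟨u, hu, n, hn, u', hu', rfl⟩ := exists_unu h hy
  obtain ⟨s, hs, l, hl, e1, e2⟩ := mon_of_mem_N h hn _ h0
  have e3 := he ((u'⁻¹ : GL D.Idx K) *ᵥ eV D K 0)
  rw [eps_U h0 (inv_mem hu'), mulVec_mulVec, ← Units.val_mul, mul_inv_cancel_right, Units.val_mul,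
    ← mulVec_mulVec, eps_U h0 hu, e1] at e3
  change l * eps h0 (eV D K s) = _ at e3
  rw [eps_eV, eps_eV, if_pos rfl] at e3
  have hs0 : s = 0 := by by_contra e; simp [e] at e3
  subst hs0
  rw [if_pos rfl, mul_one] at e3
  subst e3
  obtain ⟨w, hw, l', hl', e4⟩ := (stSys h K).exists_acts_of_mem_N hn
  have e5 := (e4 ⟨0, h0⟩ 1).symm.trans (e2 1)
  have hl0 : l' ⟨0, h0⟩ ≠ 0 := left_ne_zero_of_mul_eq_one (hl' _)
  have e6 : w ⟨0, h0⟩ = ⟨0, h0⟩ :=
    (stSys_nondeg h).root_eq_of_x_eq (s := ⟨0, h0⟩) (by simpa using hl0) e5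
  rw [e6] at e5
  have e7 : l' ⟨0, h0⟩ = 1 := by simpa using xU_injective h0 e5
  have e8 : (rootSys h).neg ⟨0, h0⟩ = ⟨th D, th_lt h0⟩ := Fin.ext (neg_zero' h0)
  have e9 := e4 ⟨th D, th_lt h0⟩ t
  have e10 := hl' ⟨0, h0⟩
  rw [e7, one_mul, e8] at e10
  rw [e10, one_mul, ← e8, (rootSys h).apply_neg hw, e6, e8] at e9
  change n * xU D K (th D) t * n⁻¹ = xU D K (th D) t at e9
  conv_rhs => rw [← U_comm_th h h0 hu t, ← e9, ← U_comm_th h h0 hu' t]
  group

/-! ### stable sets of roots -/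

theorem stable_asc {T : ℕ → Prop} (hT : ∀ i < D.rank, ∀ s < D.nroots, T s → T (D.reflectRoot i s))
    (n : ℕ) {s : ℕ} (hs : s < D.nroots) : T (asc D n s) ↔ T s := by
  induction n generalizing s with
  | zero => rfl
  | succ n ih =>
    rw [asc]
    split
    · rfl
    · rename_i j hj
      have hj' : j < D.rank := List.mem_range.mp (List.mem_of_find?_eq_some hj)
      rw [ih (reflectRoot_lt hj' hs)]
      refine ⟨fun e => ?_, hT j hj' s hs⟩
      have := hT j hj' _ (reflectRoot_lt hj' hs) e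
      rwa [← refl_simple hj' hs, ← refl_simple hj' (refl_lt (simple_lt hj') hs),
        refl_refl (simple_lt hj') hs] at this

omit [Good D] in
theorem all_of_simple (h : RtOK D) {T : ℕ → Prop}
    (hT : ∀ i < D.rank, ∀ s < D.nroots, T s → T (D.reflectRoot i s))
    (h1 : ∀ i < D.rank, T (D.simple i)) {r : ℕ} (hr : r < D.nroots) : T r := by
  obtain ⟨w, hw, i, e⟩ := (rootSys h).exists_eq_apply_simple ⟨r, hr⟩
  obtain ⟨L, rfl⟩ := (rootSys h).mem_W_iff.mp hw
  have : ∀ L : List (Fin D.rank), T ((rootSys h).wprod L ((rootSys h).simple i)) := by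
    intro L
    induction L with
    | nil => exact h1 i i.2
    | cons j L ih =>
      rw [RootSys.wprod_cons, Equiv.Perm.mul_apply, rootSys_s]
      exact hT j j.2 _ (Fin.is_lt _) ih
  have h2 := this L
  rwa [← e] at h2

/-- the certificate for the short roots -/
structure Base (D : ChevalleyDatum) (σ : ℕ) : Prop where
  pos : 0 < D.nroots
  lt : σ < D.nroots
  up : ∀ i < D.rank, asc D 30 (D.simple i) = th D ∨ asc D 30 (D.simple i) = σ
  pair : σ = th D ∨ D.pairing (th D) σ = 1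
  span : σ = th D ∨ ∃ a < D.nroots, ∃ c < D.nroots, asc D 30 a = th D ∧ a ≠ c ∧ a ≠ D.neg c ∧
    ∃ b a' : ℕ × ℤ, asc D 30 a'.1 = th D ∧ a'.1 < D.nroots ∧ b.2 * b.2 = 1 ∧ b.1 < D.nroots ∧
      (D.chainEntry c a = [b, a'] ∧ asc D 30 b.1 = σ ∨
      ∃ b' e : ℕ × ℤ, D.chainEntry c a = [b, b', a'] ∧ b'.1 < D.nroots ∧ b.1 ≠ a ∧ b'.1 ≠ a ∧
        D.chainEntry (D.neg a) b.1 = [e] ∧ D.chainEntry (D.neg a) b'.1 = [] ∧ e.2 * e.2 = 1 ∧
        e.1 < D.nroots ∧ asc D 30 e.1 = σ)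

theorem Base.all (h : RtOK D) {σ : ℕ} (hb : Base D σ) {T : ℕ → Prop}
    (hT : ∀ i < D.rank, ∀ s < D.nroots, T s → T (D.reflectRoot i s)) (h1 : T (th D)) (h2 : T σ)
    {r : ℕ} (hr : r < D.nroots) : T r := by
  refine all_of_simple h hT (fun i hi => (stable_asc hT 30 (simple_lt hi)).mp ?_) hr
  rcases hb.up i hi with e | e <;> rwa [e]

theorem nU_mem {M : Subgroup (GL D.Idx K)} (hM : ∀ r < D.nroots, xU D K r 1 ∈ M) {r : ℕ}
    (hr : r < D.nroots) : nU D K r 1 ∈ M := by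
  refine M.mul_mem (M.mul_mem (hM r hr) ?_) (hM r hr)
  rw [inv_one, ← xU_inv]
  exact M.inv_mem (hM _ (neg_lt hr))

theorem hU_mem {Y : Subgroup (GL D.Idx K)} {F : Subfield K} {r : ℕ} (h1 : ∀ t ∈ F, xU D K r t ∈ Y)
    (h2 : ∀ t ∈ F, xU D K (D.neg r) t ∈ Y) {c : K} (hc : c ∈ F) : hU D K r c ∈ Y := by
  have : ∀ c ∈ F, nU D K r c ∈ Y := fun c hc =>
    Y.mul_mem (Y.mul_mem (h1 c hc) (h2 _ (F.neg_mem (F.inv_mem hc)))) (h1 c hc)
  exact Y.mul_mem (this c hc) (this _ (F.neg_mem F.one_mem))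

theorem refl_mem {M Y : Subgroup (GL D.Idx K)} (hM : ∀ r < D.nroots, xU D K r 1 ∈ M)
    (hY : ∀ k ∈ M, ∀ y ∈ Y, k * y * k⁻¹ ∈ Y) {F : Subfield K} {r s : ℕ} (hr : r < D.nroots)
    (hs : s < D.nroots) (h1 : ∀ t ∈ F, xU D K s t ∈ Y) : ∀ t ∈ F, xU D K (refl D r s) t ∈ Y := by
  intro t ht
  have := hY _ (nU_mem hM hr) _ (h1 _ (F.mul_mem (intCast_mem F (eta D r s)) ht))
  rwa [nU_conj_xU hr hs one_ne_zero, _root_.one_zpow, mul_one, ← mul_assoc, ← Int.cast_mul,
    eta_mul_self hr hs, Int.cast_one, one_mul] at this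

/-- a subgroup normalized by the `x_r(1)` containing the highest root elements over a subfield -/
theorem Base.reach (h : RtOK D) {σ : ℕ} (hb : Base D σ) {M Y : Subgroup (GL D.Idx K)}
    (hM : ∀ r < D.nroots, xU D K r 1 ∈ M) (hY : ∀ k ∈ M, ∀ y ∈ Y, k * y * k⁻¹ ∈ Y) {F : Subfield K}
    (hF : ∃ s ∈ F, s ≠ 0 ∧ s ≠ -1) (h1 : ∀ t ∈ F, xU D K (th D) t ∈ Y) {r : ℕ} (hr : r < D.nroots) :
    ∀ t ∈ F, xU D K r t ∈ Y := by
  refine hb.all h (T := fun r => ∀ t ∈ F, xU D K r t ∈ Y) (fun i hi s hs e => ?_) h1 ?_ hr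
  · rw [← refl_simple hi hs]; exact refl_mem hM hY (simple_lt hi) hs e
  rcases hb.pair with e | e
  · rwa [e]
  have h2 := refl_mem hM hY (th_lt hb.pos) (th_lt hb.pos) h1
  rw [refl_self (th_lt hb.pos)] at h2
  have h3 : ∀ t ∈ F, t ≠ -1 → xU D K σ t ∈ Y := fun t ht ht' => by
    have hc : t + 1 ≠ 0 := fun e => ht' (eq_neg_of_add_eq_zero_left e)
    have h4 := hU_mem h1 h2 (F.add_mem ht F.one_mem)
    have h5 := Y.mul_mem h4 (hY _ (hM σ hb.lt) _ (Y.inv_mem h4))
    rwa [← mul_assoc, ← mul_assoc, hU_conj_xU (th_lt hb.pos) hc, e, xU_inv, ← xU_add, zpow_one, mul_one,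
      add_neg_cancel_right] at h5
  intro t ht
  by_cases ht' : t = -1
  · obtain ⟨s, hs, hs0, hs1⟩ := hF
    have := Y.mul_mem (h3 s hs hs1) (h3 (t - s) (F.sub_mem ht hs) fun e => hs0 (by
      rw [ht'] at e; linear_combination -e))
    rwa [← xU_add, add_sub_cancel] at this
  · exact h3 t ht ht'

/-- the orbit of the highest root vector spans -/
theorem Base.span_top (h : RtOK D) {σ : ℕ} (hb : Base D σ) {M : Subgroup (GL D.Idx K)}
    (hM : ∀ r < D.nroots, xU D K r 1 ∈ M) {S : Submodule K (D.Idx → K)}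
    (hS : ∀ k ∈ M, ∀ v ∈ S, (k : Matrix D.Idx D.Idx K) *ᵥ v ∈ S) (h1 : eV D K (th D) ∈ S)
    (v : D.Idx → K) : v ∈ S := by
  have hu : ∀ (e : ℤ) (v : D.Idx → K), e * e = 1 → ((e : K) * 1) • v ∈ S → v ∈ S := fun e v he hv => by
    have := S.smul_mem (e : K) hv
    rwa [smul_smul, mul_one, ← Int.cast_mul, he, Int.cast_one, one_smul] at this
  have hT : ∀ i < D.rank, ∀ s < D.nroots, eV D K s ∈ S → eV D K (D.reflectRoot i s) ∈ S := by
    intro i hi s hs e
    have := hS _ (nU_mem hM (simple_lt hi)) _ e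
    rw [nU_val, nMat_one_eV (simple_lt hi) hs, refl_simple hi hs] at this
    exact hu _ _ (eta_mul_self (simple_lt hi) hs) (by rwa [mul_one])
  have hx : ∀ r < D.nroots, ∀ v ∈ S, xR D K r 1 *ᵥ v ∈ S := fun r hr v hv => by
    have := hS _ (hM r hr) v hv
    rwa [xU_val, x_eq_xR] at this
  have hasc : ∀ s < D.nroots, asc D 30 s = th D → eV D K s ∈ S := fun s hs e =>
    (stable_asc hT 30 hs).mp (e ▸ h1)
  have h2 : eV D K σ ∈ S := by
    rcases hb.span with e | ⟨a, ha, c, hc, e1, e2, e3, b, a', e4, e5, e6, e7, hh⟩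
    · rwa [e]
    have h3 := S.sub_mem (hx c hc _ (hasc a ha e1)) (hasc a ha e1)
    rw [xR_eV_of_ne hc ha e2 e3, add_sub_cancel_left] at h3
    rcases hh with ⟨e8, e9⟩ | ⟨b', e, e8, e9, e10, e11, e12, e13, e14, e15, e16⟩
    · rw [chainSum_two e8] at h3
      have := hu _ _ e6 ((S.add_mem_iff_left (S.smul_mem _ (hasc _ e5 e4))).mp h3)
      exact e9 ▸ (stable_asc hT 30 e7).mpr this
    · rw [chainSum_three e8] at h3
      have h4 := (S.add_mem_iff_left (S.smul_mem _ (hasc _ e5 e4))).mp h3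
      have h5 := S.sub_mem (hx _ (neg_lt ha) _ h4) h4
      rw [mulVec_add, mulVec_smul, mulVec_smul, xR_eV (neg_lt ha) e7 (by rwa [neg_neg' ha]),
        xR_eV (neg_lt ha) e9 (by rwa [neg_neg' ha]), chainSum_one e12, chainSum_nil e13, add_zero,
        smul_add, add_right_comm, add_sub_cancel_left] at h5
      exact e16 ▸ (stable_asc hT 30 e15).mpr (hu _ _ e14 (hu _ _ e6 h5))
  have h3 : ∀ r < D.nroots, eV D K r ∈ S := fun r hr => hb.all h (T := fun r => eV D K r ∈ S) hT h1 h2 hr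
  refine vec_induction (P := (· ∈ S)) S.zero_mem (fun _ _ => S.add_mem) (fun c _ => S.smul_mem c)
    (fun i hi => ?_) h3 v
  have h4 := hx _ (simple_lt hi) _ (h3 _ (neg_lt (simple_lt hi)))
  rw [xR_eV_neg (simple_lt hi), one_smul, cV_simple hi] at h4
  have := S.sub_mem (S.add_mem h4 (S.smul_mem ((1 : K) ^ 2) (h3 _ (simple_lt hi))))
    (h3 _ (neg_lt (simple_lt hi)))
  rwa [sub_add_cancel, add_sub_cancel_left] at this

/-- if the corner entries are fixed by a field endomorphism then so are all entries -/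
theorem Base.glm_eq (h : RtOK D) {σ : ℕ} (hb : Base D σ) {M : Subgroup (GL D.Idx K)}
    (hMG : M ≤ D.group K) (hM : ∀ r < D.nroots, xU D K r 1 ∈ M) (φ : K →+* K)
    (he : ∀ g ∈ M, φ (ent hb.pos g) = ent hb.pos g) {g : GL D.Idx K} (hg : g ∈ M) :
    glm D φ g = g := by
  by_cases hF : ∃ s ∈ (⊤ : Subfield K), s ≠ 0 ∧ s ≠ -1
  swap
  · push Not at hF
    have : φ = RingHom.id K := RingHom.ext fun t => by
      by_cases e : t = 0
      · simp [e]
      · simp [hF t trivial e]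
    rw [this, glm_id]
  let M₀ : Subgroup (GL D.Idx K) := M ⊓ (glm D φ).eqLocus (MonoidHom.id _)
  have hM₀ : ∀ r < D.nroots, xU D K r 1 ∈ M₀ := fun r hr =>
    ⟨hM r hr, by change glm D φ _ = _; rw [glm_xU, map_one]; rfl⟩
  have k1 : ∀ m ∈ M, ∀ v, eps hb.pos ((glm D φ m : Matrix D.Idx D.Idx K) *ᵥ v) =
      eps hb.pos ((m : Matrix D.Idx D.Idx K) *ᵥ v) := by
    intro m hm v
    let S : Submodule K (D.Idx → K) :=
      { carrier := {v | ∀ k ∈ M₀, eps hb.pos ((glm D φ m * k : GL D.Idx K) *ᵥ v) =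
          eps hb.pos ((m * k : GL D.Idx K) *ᵥ v)}
        add_mem' := fun {a b} ha hb' k hk => by
          have h1 := ha k hk
          have h2 := hb' k hk
          simp only [eps, mulVec_add, Pi.add_apply] at h1 h2 ⊢
          rw [h1, h2]
        zero_mem' := fun k _ => by simp [eps]
        smul_mem' := fun c a ha k hk => by
          have h1 := ha k hk
          simp only [eps, mulVec_smul, Pi.smul_apply] at h1 ⊢
          rw [h1] }
    have := hb.span_top h hM₀ (S := S) (fun k hk v hv k' hk' => by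
      have := hv _ (M₀.mul_mem hk' hk)
      simp only [Units.val_mul, mulVec_mulVec, mul_assoc] at this ⊢
      exact this) (fun k hk => by
      have e1 := he _ (M.mul_mem hm hk.1)
      have e2 : glm D φ k = k := hk.2
      rw [← e2, ← map_mul]
      conv_rhs => rw [e2]
      refine Eq.trans ?_ e1
      rw [glm_val, ← comp_eV φ, ← comp_mulVec]
      rfl) v 1 M₀.one_mem
    simpa using this
  have k2 : ∀ m ∈ M, ∀ t, (m⁻¹ * glm D φ m) * xU D K (th D) t * (m⁻¹ * glm D φ m)⁻¹ = xU D K (th D) t := by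
    intro m hm
    refine commute_of_eps h hb.pos (mul_mem (inv_mem (hMG hm)) (glm_mem φ (hMG hm))) fun v => ?_
    rw [Units.val_mul, ← mulVec_mulVec, ← k1 _ (M.inv_mem hm), mulVec_mulVec, ← Units.val_mul,
      ← map_mul, inv_mul_cancel, map_one, Units.val_one, one_mulVec]
  set y := g⁻¹ * glm D φ g with hy
  let Y : Subgroup (GL D.Idx K) :=
    { carrier := {z | ∀ k ∈ M₀, Commute y (k * z * k⁻¹)}
      mul_mem' := fun {a b} ha hb' k hk => by
        have := (ha k hk).mul_right (hb' k hk)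
        rwa [show k * a * k⁻¹ * (k * b * k⁻¹) = k * (a * b) * k⁻¹ by group] at this
      one_mem' := fun k _ => by simp
      inv_mem' := fun {a} ha k hk => by
        have := (ha k hk).inv_right
        rwa [show (k * a * k⁻¹)⁻¹ = k * a⁻¹ * k⁻¹ by group] at this }
  have k3 := fun r hr => hb.reach h hM₀ (Y := Y) (fun k hk z hz k' hk' => by
    have := hz _ (M₀.mul_mem hk' hk)
    rwa [show k' * k * z * (k' * k)⁻¹ = k' * (k * z * k⁻¹) * k'⁻¹ by group] at this) hF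
    (fun t _ k hk => by
      have e1 := k2 _ (M.mul_mem hg hk.1) t
      have e2 : glm D φ k = k := hk.2
      rw [map_mul, e2] at e1
      change y * _ = _ * y
      conv_rhs => rw [← e1]
      rw [hy]; group) (r := r) hr
  have k4 : D.group K ≤ Subgroup.centralizer {y} := by
    rw [group_eq, Subgroup.closure_le]
    rintro _ ⟨r, hr, t, rfl⟩
    have := k3 r hr t trivial 1 M₀.one_mem
    rw [one_mul, inv_one, mul_one] at this
    exact Subgroup.mem_centralizer_singleton_iff.mpr this.symm.eq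
  have k5 := eq_one_of_central h (z := y) (mul_mem (inv_mem (hMG hg)) (glm_mem φ (hMG hg)))
    fun z hz => (Subgroup.mem_centralizer_singleton_iff.mp (k4 hz)).symm
  exact (inv_mul_eq_one.mp k5).symm

end CfsgLib.BGL
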