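import Mathlib
import Cfsg.Agent.Lib.Dickson.TwoTransv
import Cfsg.Agent.Lib.Dickson.Tau
import Cfsg.Agent.Lib.Chev.SL2Pres

/-!
# Finite subgroups of `SL(2, F)` containing an upper and a lower transvection
-/

set_option autoImplicit false

namespace CfsgLib.BGL

open MulAction Matrix CfsgLib.Dickson CfsgLib.Dickson.P1 CfsgLib.Chev
open scoped MatrixGroups

variable {F : Type*} [Field F]

theorem two_pgl (p : ℕ) [Fact p.Prime] [CharP F p]
    (G : Subgroup PGL(2, F)) [Finite G] {lam : F} (hlam : lam ≠ 0)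
    (hu : aff 1 lam one_ne_zero ∈ G) (hv : pm 1 0 1 1 (by simp) ∈ G) :
    (∃ K : Subfield F, Finite K ∧ lam ∈ K ∧
      (G = (pslMap K.subtype).range ∨ G = (pglMap K.subtype).range)) ∨
    (p = 2 ∧ ∀ c : F, pm 1 0 c 1 (by simp) ∈ G → c = 0 ∨ c = 1) ∨ (p = 3 ∧ Platonic G 5 60) := by
  have h := (mob_bar (F := F) p).subgroup G
  have hmem : ∀ (x : P1 F) (g : PGL(2, F)) (hg : g ∈ G), IsUnip x g → (⟨g, hg⟩ : G) ∈ h.U (emb x) :=
    fun x g hg hx => isUnip_coe.mp (isUnip_emb_iff.mpr hx)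
  have hne : ∀ (x : P1 F) (g : PGL(2, F)), g ∈ G → IsUnip x g → g ≠ 1 → h.U (emb x) ≠ ⊥ := by
    intro x g hg hx h1 e
    have := hmem x g hg hx
    rw [e, Subgroup.mem_bot] at this
    exact h1 (congrArg Subtype.val this)
  have hx := hne inf _ hu (isUnip_inf_iff.mpr ⟨lam, rfl⟩) (fun e => hlam (aff_eq_one_iff.mp e).2)
  have h0 := hne (pt 0) _ hv (isUnip_zero_lower 1) (fun e => one_ne_zero (pm_eq_one_iff.mp e).2.1)
  have hv1 : (pm 1 0 1 1 (by simp) : PGL(2, F)) • (inf : P1 F) = pt 1 :=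
    pm_smul_inf_eq_pt.mpr (by simp)
  have h0' := h.mem_orbit_of_U_ne_bot hx h0
  rcases h.irregular hx with h1 | ⟨h1, -⟩ | ⟨y, q, d, N, e, I⟩
  · exact absurd (hv1.symm.trans (smul_emb_eq_iff.mp (h1 ⟨_, hv⟩))) (pt_ne_inf 1)
  · have := h.prime_dvd_card_U hx
    rw [h1] at this
    refine Or.inr (Or.inl ⟨(Nat.prime_dvd_prime_iff_eq h.prime Nat.prime_two).mp this, fun c hc => ?_⟩)
    obtain ⟨g, hg⟩ := h0'
    have h2 : Nat.card (h.U (emb (pt 0))) = 2 := by
      refine Eq.trans ?_ ((h.card_U_smul g _).trans h1)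
      exact congrArg (fun z => Nat.card (h.U z)) hg.symm
    obtain ⟨z, -, hz⟩ := (Nat.card_eq_two_iff' (1 : h.U (emb (pt 0)))).mp h2
    by_contra hc'
    push Not at hc'
    have a1 := hz ⟨_, hmem _ _ hc (isUnip_zero_lower c)⟩ (fun e =>
      hc'.1 (pm_eq_one_iff.mp (congrArg (fun z => ((z : G) : PGL(2, F))) (congrArg Subtype.val e))).2.1)
    have a2 := hz ⟨_, hmem _ _ hv (isUnip_zero_lower 1)⟩ (fun e =>
      one_ne_zero (pm_eq_one_iff.mp (congrArg (fun z => ((z : G) : PGL(2, F)))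
        (congrArg Subtype.val e))).2.1)
    have a3 := congrArg (fun z => ((z : G) : PGL(2, F))) (congrArg Subtype.val (a1.trans a2.symm))
    obtain ⟨u, e1, -, e3, -⟩ := pm_eq_pm_iff.mp a3
    apply hc'.2
    rw [mul_one] at e1
    rw [e3, ← e1, one_mul]
  rcases I.cases with ⟨rfl, t, ht, htd, -⟩ | hc
  · left
    rw [← one_smul PGL(2, F) (inf : P1 F)] at I
    obtain ⟨K, hK1, -, hK3, hK4, hK5⟩ := I.exists_subfield 1 ht htd (by simpa using h0')
      (by simp only [one_smul]; exact ⟨⟨_, hv⟩, smul_emb_eq_iff.mpr hv1⟩)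
    simp only [one_smul, map_conj_one] at hK3 hK4 hK5
    refine ⟨K, hK1, ?_, ?_⟩
    · have h2 := h.orbit_inv _ ⟨_, hu⟩ _ h0'
      rw [hK3] at h2
      obtain ⟨z, -, hz⟩ := h2
      have hz' : P1.map K.subtype z = pt lam := by
        apply emb_injective
        refine hz.trans (smul_emb_eq_iff.mpr ?_)
        rw [aff_smul_pt]; simp
      rcases eq_inf_or z with rfl | ⟨w, rfl⟩
      · exact absurd hz' (inf_ne_pt _)
      · rw [map_pt, pt_inj] at hz'
        exact hz' ▸ w.2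
    · rcases ht with rfl | rfl
      · exact Or.inr (hK4 rfl)
      · exact Or.inl (hK5 rfl)
  · exact Or.inr (Or.inr (I.platonic hc))

theorem sq_eq_one_iff_of_field {x : F} (h : x ^ 2 = 1) : x = 1 ∨ x = -1 :=
  mul_self_eq_one_iff.mp (by rw [← sq, h])

theorem plat3 [CharP F 3] {G : Subgroup PGL(2, F)} (hG : Platonic G 5 60) {a b : F}
    (hu : aff 1 a one_ne_zero ∈ G) (hv : pm 1 0 b 1 (by simp) ∈ G) : (a * b) ^ 5 = a * b := by
  have h3 : (3 : F) = 0 := by exact_mod_cast CharP.cast_eq_zero F 3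
  have key : ∀ b : F, pm 1 0 b 1 (by simp) ∈ G → (2 + a * b) ^ 2 = 0 ∨ (2 + a * b) ^ 2 = 1 ∨
      ((2 + a * b) ^ 2) ^ 2 + 1 = 0 := by
    intro b hv
    have ht : tau (aff 1 a one_ne_zero * pm 1 0 b 1 (by simp)) = (2 + a * b) ^ 2 := by
      rw [aff, pm_mul, tau_pm]
      have : (1 * 1 + a * b) * (0 * 0 + 1 * 1) - (1 * 0 + a * 1) * (0 * 1 + 1 * b) = 1 := by ring
      rw [this]; ring
    have h1 : aff 1 a one_ne_zero * pm 1 0 b 1 (by simp) = 1 → (2 + a * b) ^ 2 = 1 := fun e => by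
      rw [← ht, e, tau_one]; linear_combination h3
    rcases hG.2 ⟨_, G.mul_mem hu hv⟩ with e | e | e
    · rcases pow_two_eq_one_iff.mp (congrArg Subtype.val e) with e | e
      · exact Or.inl (ht ▸ e)
      · exact Or.inr (Or.inl (h1 e))
    · rcases pow_three_eq_one_iff.mp (congrArg Subtype.val e) with e | e
      · exact Or.inr (Or.inl (ht ▸ e))
      · exact Or.inr (Or.inl (h1 e))
    · rcases pow_five_eq_one_iff.mp (congrArg Subtype.val e) with e | e
      · refine Or.inr (Or.inr ?_)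
        rw [ht] at e
        linear_combination e + (2 + a * b) ^ 2 * h3
      · exact Or.inr (Or.inl (h1 e))
  have hv' : pm 1 0 (-b) 1 (by simp) ∈ G := by
    have := G.inv_mem hv
    rw [pm_inv] at this
    convert this using 2; simp
  have k1 := key b hv
  have k2 := key (-b) hv'
  rw [mul_neg, ← sub_eq_add_neg] at k2
  generalize a * b = x at k1 k2 ⊢
  have c1 : ∀ y : F, y = 0 ∨ y = 1 ∨ y = -1 → y ^ 5 = y := by
    rintro y (rfl | rfl | rfl) <;> norm_num
  rcases k1 with e | e | e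
  · exact c1 x (Or.inr (Or.inl (by linear_combination (pow_eq_zero_iff two_ne_zero).mp e - h3)))
  · rcases sq_eq_one_iff_of_field e with e | e
    · exact c1 x (Or.inr (Or.inr (by linear_combination e)))
    · exact c1 x (Or.inl (by linear_combination e - h3))
  rcases k2 with e' | e' | e'
  · exact c1 x (Or.inr (Or.inr (by linear_combination h3 - (pow_eq_zero_iff two_ne_zero).mp e')))
  · rcases sq_eq_one_iff_of_field e' with e' | e'
    · exact c1 x (Or.inr (Or.inl (by linear_combination -e')))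
    · exact c1 x (Or.inl (by linear_combination h3 - e'))
  · have : x + x ^ 3 = 0 := by linear_combination e - e' - (21 * x + 5 * x ^ 3) * h3
    linear_combination (x ^ 2 - 1) * this

theorem pow_five_step [CharP F 3] {c : F} (h1 : c ^ 5 = c) (h2 : (c + 1) ^ 5 = c + 1) : c ^ 3 = c := by
  have h3 : (3 : F) = 0 := by exact_mod_cast CharP.cast_eq_zero F 3
  have e1 : c * (c - 1) * (c + 1) * (c ^ 2 + 1) = 0 := by linear_combination h1
  rcases mul_eq_zero.mp e1 with e | e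
  · linear_combination e
  · have : c + 1 = 0 := by
      have e2 : (c + 1) * 2 = 0 := by
        linear_combination -h2 + (c ^ 3 + 5 * c ^ 2 + 9 * c + 5) * e - (c + 1) * h3 - (c + 1) * h3 + (c + 1) * h3
      rcases mul_eq_zero.mp e2 with e3 | e3
      · exact e3
      · exact absurd (show (1 : F) = 0 by linear_combination h3 - e3) one_ne_zero
    linear_combination c * (c - 1) * this

theorem mem_of_slPGL_mem (p : ℕ) [hp : Fact p.Prime] [CharP F p] {Γ : Subgroup SL(2, F)} {g : SL(2, F)}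
    (hg : g ^ p = 1) (h : slPGL F g ∈ Γ.map (slPGL F)) : g ∈ Γ := by
  obtain ⟨k, hk, e⟩ := h
  rcases slPGL_eq_iff.mp e with e | e
  · exact e ▸ hk
  rcases hp.out.eq_two_or_odd' with h2 | h2
  · subst h2
    have : -g = g := by
      refine SL2.ext2 ?_ ?_ ?_ ?_ <;> rw [SL2.neg_ap, CharTwo.neg_eq]
    exact this ▸ e ▸ hk
  · have : g = k ^ (p + 1) := by
      rw [e, (Odd.add_one h2).neg_pow, pow_succ, hg, one_mul]
    exact this ▸ Γ.pow_mem hk _

theorem uu_pow (b : F) (n : ℕ) : SL2.uu b ^ n = SL2.uu (n * b) := by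
  induction n with
  | zero => simp [SL2.uu_zero]
  | succ n ih => rw [pow_succ, ih, ← SL2.uu_add]; push_cast; ring_nf

theorem ll_pow (b : F) (n : ℕ) : SL2.ll b ^ n = SL2.ll (n * b) := by
  induction n with
  | zero => simp [SL2.ll_zero]
  | succ n ih => rw [pow_succ, ih, ← SL2.ll_add]; push_cast; ring_nf

/-- A finite subgroup of `SL(2, F)` containing `slX γ` and `slY 1`. -/
theorem sl2_cases (p : ℕ) [Fact p.Prime] [CharP F p] (Γ : Subgroup SL(2, F)) [Finite Γ] {γ : F}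
    (hγ : γ ≠ 0) (hu : slX γ ∈ Γ) (hv : slY 1 ∈ Γ) :
    (∃ K : Subfield F, Finite K ∧ γ ∈ K ∧ (∀ c, slY c ∈ Γ → c ∈ K) ∧
      ∀ c ∈ K, slX c ∈ Γ ∧ slY c ∈ Γ) ∨
    (p = 2 ∧ ∀ c, slY c ∈ Γ → c ^ 2 = c) ∨ (p = 3 ∧ γ ^ 5 = γ ∧ ∀ c, slY c ∈ Γ → c ^ 3 = c) := by
  have : Finite (Γ.map (slPGL F)) := Finite.of_surjective _ ((slPGL F).subgroupMap_surjective Γ)
  have hX : ∀ c, slX c ∈ Γ ↔ aff 1 c one_ne_zero ∈ Γ.map (slPGL F) := fun c => by
    rw [← slPGL_uu]
    exact ⟨fun h => ⟨_, h, rfl⟩, mem_of_slPGL_mem p (by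
      rw [uu_pow, CharP.cast_eq_zero, zero_mul, SL2.uu_zero])⟩
  have hY : ∀ c, slY c ∈ Γ ↔ pm 1 0 c 1 (by simp) ∈ Γ.map (slPGL F) := fun c => by
    rw [← slPGL_ll]
    exact ⟨fun h => ⟨_, h, rfl⟩, mem_of_slPGL_mem p (by
      rw [ll_pow, CharP.cast_eq_zero, zero_mul, SL2.ll_zero])⟩
  rcases two_pgl p (Γ.map (slPGL F)) hγ ((hX γ).mp hu) ((hY 1).mp hv) with
    ⟨K, hK, h1, h2⟩ | ⟨h1, h2⟩ | ⟨rfl, h2⟩
  · have hle : Γ.map (slPGL F) ≤ (pglMap K.subtype).range := by
      rcases h2 with e | e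
      · exact e ▸ range_pslMap_le_range_pglMap _
      · exact e.le
    have hge : (pslMap K.subtype).range ≤ Γ.map (slPGL F) := by
      rcases h2 with e | e
      · exact e.ge
      · exact e ▸ range_pslMap_le_range_pglMap _
    refine Or.inl ⟨K, hK, h1, fun c hc => ?_, fun c hc => ⟨(hX c).mpr (hge ?_), (hY c).mpr (hge ?_)⟩⟩
    · obtain ⟨g, hg⟩ := hle ((hY c).mp hc)
      obtain ⟨a, b, c', d, hd, rfl⟩ := exists_pm g
      rw [map_pm, pm_eq_pm_iff] at hg
      obtain ⟨u, e1, -, e3, -⟩ := hg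
      have : c = (c' / a : K) := by
        have ha : (a : F) ≠ 0 := fun e => by simp [e] at e1
        push_cast
        rw [eq_div_iff ha, e3]
        change u * c' * a = c'
        change 1 = u * a at e1
        linear_combination -(c' : F) * e1
      exact this ▸ (c' / a).2
    · refine ⟨(SL2.uu ⟨c, hc⟩ : SL(2, K)), ?_⟩
      rw [pslMap_apply, pslPGL_mk, slPGL_uu, map_aff]; exact aff_congr (map_one _) rfl
    · refine ⟨(SL2.ll ⟨c, hc⟩ : SL(2, K)), ?_⟩
      rw [pslMap_apply, pslPGL_mk, slPGL_ll, map_pm]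
      exact pm_congr (map_one _) (map_zero _) rfl (map_one _)
  · refine Or.inr (Or.inl ⟨h1, fun c hc => ?_⟩)
    rcases h2 c ((hY c).mp hc) with rfl | rfl <;> simp
  · have k : ∀ c, slY c ∈ Γ → (γ * c) ^ 5 = γ * c := fun c hc =>
      plat3 h2 ((hX γ).mp hu) ((hY c).mp hc)
    have k1 : γ ^ 5 = γ := by simpa using k 1 hv
    have k2 : ∀ c, slY c ∈ Γ → c ^ 5 = c := fun c hc =>
      mul_left_cancel₀ hγ (by rw [← k c hc, mul_pow, k1])
    refine Or.inr (Or.inr ⟨rfl, k1, fun c hc => pow_five_step (k2 c hc) (k2 _ ?_)⟩)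
    have e : slY (c + 1) = slY c * slY 1 := SL2.ll_add c 1
    exact e ▸ Γ.mul_mem hc hv

end CfsgLib.BGL
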