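import Mathlib
import Cfsg.Agent.Lib.BGL.Basic
import Cfsg.Agent.Lib.BGL.SL2

/-!
# Finite subgroups meeting `SL₂` of the highest root modulo a normalized unipotent group
-/

set_option autoImplicit false

namespace CfsgLib.BGL

open Matrix Cfsg.Lie Cfsg.Lie.ChevalleyDatum CfsgLib.RGD CfsgLib.Chev CfsgLib.Weyl CfsgLib.ChevAut
  CfsgLib.Lang
open scoped MatrixGroups

variable {D : ChevalleyDatum} {K : Type*} [Field K]

section Abstract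

variable {A G : Type*} [Group A] [Group G]

/-- elements of `A` whose image lies in `R M` -/
def gam (φ : A →* G) (R M : Subgroup G) (hR : ∀ g, ∀ ρ ∈ R, φ g * ρ * (φ g)⁻¹ ∈ R) : Subgroup A where
  carrier := {g | ∃ ρ ∈ R, ρ * φ g ∈ M}
  mul_mem' := by
    rintro a b ⟨ρ, h1, h2⟩ ⟨ρ', h3, h4⟩
    refine ⟨ρ * (φ a * ρ' * (φ a)⁻¹), R.mul_mem h1 (hR a _ h3), ?_⟩
    convert M.mul_mem h2 h4 using 1
    rw [map_mul]; group
  one_mem' := ⟨1, R.one_mem, by simp⟩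
  inv_mem' := by
    rintro a ⟨ρ, h1, h2⟩
    refine ⟨φ a⁻¹ * ρ⁻¹ * (φ a⁻¹)⁻¹, hR _ _ (R.inv_mem h1), ?_⟩
    convert M.inv_mem h2 using 1
    rw [map_inv]; group

theorem finite_gam (φ : A →* G) (R M : Subgroup G) (hR : ∀ g, ∀ ρ ∈ R, φ g * ρ * (φ g)⁻¹ ∈ R) [Finite M]
    (hZ : {g | φ g ∈ R}.Finite) : Finite (gam φ R M hR) := by
  have : {g | ∃ ρ ∈ R, ρ * φ g ∈ M}.Finite := by
    have h1 : {g | ∃ ρ ∈ R, ρ * φ g ∈ M} ⊆ ⋃ m ∈ (M : Set G), {g | ∃ ρ ∈ R, ρ * φ g = m} := by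
      rintro g ⟨ρ, h1, h2⟩
      exact Set.mem_biUnion h2 ⟨ρ, h1, rfl⟩
    refine ((Set.toFinite (M : Set G)).biUnion fun m _ => ?_).subset h1
    rcases Set.eq_empty_or_nonempty {g | ∃ ρ ∈ R, ρ * φ g = m} with e | ⟨g₀, ρ₀, h2, h3⟩
    · rw [e]; exact Set.finite_empty
    refine (hZ.image (· * g₀)).subset ?_
    rintro g ⟨ρ, h4, h5⟩
    refine ⟨g * g₀⁻¹, ?_, by simp⟩
    have : φ (g * g₀⁻¹) = ρ⁻¹ * ρ₀ := by
      rw [map_mul, map_inv, eq_inv_mul_of_mul_eq h5, eq_inv_mul_of_mul_eq h3]; group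
    change φ _ ∈ R
    rw [this]; exact R.mul_mem (R.inv_mem h4) h2
  exact this

theorem sl_eq_YXY (g : SL(2, K)) (hc : g 0 1 ≠ 0) :
    g = slY ((g 1 1 - 1) / g 0 1) * slX (g 0 1) * slY ((g 0 0 - 1) / g 0 1) := by
  have := SL2.det_eq g
  change g = SL2.ll _ * SL2.uu _ * SL2.ll _
  refine SL2.ext2 ?_ ?_ ?_ ?_ <;> simp only [SL2.mul_ap, SL2.uu_00, SL2.uu_01, SL2.uu_10, SL2.uu_11,
    SL2.ll_00, SL2.ll_01, SL2.ll_10, SL2.ll_11] <;> field_simp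
  · ring
  · ring
  · linear_combination -this
  · ring

theorem eq_pm_one {Z : SL(2, K) → Prop} (hZ : ∀ g k, Z g → Z (k * g * k⁻¹))
    (k1 : ∀ g, Z g → g 0 1 = 0) {g : SL(2, K)} (hg : Z g) : g = 1 ∨ g = -1 := by
  have a1 := k1 g hg
  have a2 := k1 _ (hZ g SL2.ww hg)
  have a4 := k1 _ (hZ g (SL2.uu 1) hg)
  simp only [SL2.mul_ap, SL2.inv_01, SL2.inv_11, SL2.ww_00, SL2.ww_01, SL2.uu_00,
    SL2.uu_01] at a2 a4
  have a2 : g 1 0 = 0 := by linear_combination -a2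
  have a3 := SL2.det_eq g
  rw [a1, zero_mul, sub_zero] at a3
  have a5 : g 1 1 = g 0 0 := by linear_combination a4 + a2 - a1
  rw [a5] at a3
  rcases mul_self_eq_one_iff.mp a3 with e | e
  · exact Or.inl (SL2.ext2 e a1 a2 (a5.trans e))
  · refine Or.inr (SL2.ext2 ?_ ?_ ?_ ?_) <;> simp [a1, a2, a5, e]

end Abstract

variable [Good D]

theorem sl2Hom_slY0 (h0 : 0 < D.nroots) (t : K) : sl2Hom K h0 (slY t) = xU D K (th D) t := by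
  rw [sl2Hom_slY, neg_zero' h0]

theorem conj_sl2Hom (h0 : 0 < D.nroots) {R : Subgroup (GL D.Idx K)}
    (h1 : ∀ t, ∀ ρ ∈ R, xU D K 0 t * ρ * (xU D K 0 t)⁻¹ ∈ R)
    (h2 : ∀ t, ∀ ρ ∈ R, xU D K (th D) t * ρ * (xU D K (th D) t)⁻¹ ∈ R) (g : SL(2, K)) :
    ∀ ρ ∈ R, sl2Hom K h0 g * ρ * (sl2Hom K h0 g)⁻¹ ∈ R := by
  let T : Submonoid SL(2, K) :=
    { carrier := {g | ∀ ρ ∈ R, sl2Hom K h0 g * ρ * (sl2Hom K h0 g)⁻¹ ∈ R}
      mul_mem' := fun {a b} ha hb ρ hρ => by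
        convert ha _ (hb ρ hρ) using 1
        rw [map_mul]; group
      one_mem' := fun ρ hρ => by simpa using hρ }
  have hX : ∀ t, slX t ∈ T := fun t ρ hρ => by rw [sl2Hom_slX]; exact h1 t ρ hρ
  have hY : ∀ t, slY t ∈ T := fun t ρ hρ => by rw [sl2Hom_slY0]; exact h2 t ρ hρ
  exact sl_induction (M := T) hX (slW_eq (F := K) ▸ T.mul_mem (T.mul_mem (hX 1) (hY _)) (hX 1)) g

theorem finite_inter (h : RtOK D) (h0 : 0 < D.nroots) {R : Subgroup (GL D.Idx K)}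
    (hR : ∀ g, ∀ ρ ∈ R, sl2Hom K h0 g * ρ * (sl2Hom K h0 g)⁻¹ ∈ R) {n : GL D.Idx K}
    (hn : n ∈ (stSys h K).N) (h1 : n * xU D K (th D) 1 * n⁻¹ ∈ D.posUnipotent K)
    (h2 : ∀ ρ ∈ R, n * ρ * n⁻¹ ∈ D.posUnipotent K) : {g : SL(2, K) | sl2Hom K h0 g ∈ R}.Finite := by
  obtain ⟨w, hw, l, hl, e⟩ := (stSys h K).exists_acts_of_mem_N hn
  rw [← stSys_U h] at h1 h2
  have e8 : (rootSys h).neg ⟨0, h0⟩ = ⟨th D, th_lt h0⟩ := Fin.ext (neg_zero' h0)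
  have hl0 : ∀ s, l s ≠ 0 := fun s => left_ne_zero_of_mul_eq_one (hl s)
  have hp : (rootSys h).Pos (w ⟨th D, th_lt h0⟩) :=
    (stSys_nondeg h).pos_of_x_mem_B (t := l ⟨th D, th_lt h0⟩ * 1) (by simpa using hl0 _)
      ((stSys h K).U_le_B (e ⟨th D, th_lt h0⟩ 1 ▸ h1))
  have hZ : ∀ g k, sl2Hom K h0 g ∈ R → sl2Hom K h0 (k * g * k⁻¹) ∈ R := fun g k hg => by
    rw [map_mul, map_mul, map_inv]; exact hR k _ hg
  have k1 : ∀ g, sl2Hom K h0 g ∈ R → g 0 1 = 0 := by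
    intro g hg
    by_contra hc
    have e1 := sl_eq_YXY g hc
    have e2 := h2 _ hg
    rw [e1, map_mul, map_mul, sl2Hom_slY0, sl2Hom_slY0, sl2Hom_slX] at e2
    have e3 : ∀ t, n * xU D K (th D) t * n⁻¹ ∈ (stSys h K).U := fun t =>
      (e ⟨th D, th_lt h0⟩ t).symm ▸ (stSys h K).x_mem_U hp _
    have e4 := (stSys h K).U.mul_mem ((stSys h K).U.mul_mem
      ((stSys h K).U.inv_mem (e3 ((g 1 1 - 1) / g 0 1))) e2) ((stSys h K).U.inv_mem (e3 ((g 0 0 - 1) / g 0 1)))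
    have e5 : n * xU D K 0 (g 0 1) * n⁻¹ ∈ (stSys h K).U := by convert e4 using 1; group
    have e6 := (stSys_nondeg h).pos_of_x_mem_B (mul_ne_zero (hl0 _) hc)
      ((stSys h K).U_le_B (e ⟨0, h0⟩ (g 0 1) ▸ e5))
    rw [← e8, (rootSys h).apply_neg hw, RootSys.pos_neg_iff] at hp
    exact (rootSys h).not_neg_of_pos e6 hp
  exact (Set.toFinite ({1, -1} : Set SL(2, K))).subset fun g hg =>
    eq_pm_one (Z := fun g => sl2Hom K h0 g ∈ R) hZ k1 hg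

theorem gamma_cases (h : RtOK D) (h0 : 0 < D.nroots) (p : ℕ) [Fact p.Prime] [CharP K p]
    {R M : Subgroup (GL D.Idx K)} [Finite M]
    (h1 : ∀ t, ∀ ρ ∈ R, xU D K 0 t * ρ * (xU D K 0 t)⁻¹ ∈ R)
    (h2 : ∀ t, ∀ ρ ∈ R, xU D K (th D) t * ρ * (xU D K (th D) t)⁻¹ ∈ R) {n : GL D.Idx K}
    (hn : n ∈ (stSys h K).N) (h3 : n * xU D K (th D) 1 * n⁻¹ ∈ D.posUnipotent K)
    (h4 : ∀ ρ ∈ R, n * ρ * n⁻¹ ∈ D.posUnipotent K) {γ : K} (hγ : γ ≠ 0) (hu : xU D K 0 γ ∈ M)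
    (hv : xU D K (th D) 1 ∈ M) :
    (∃ F : Subfield K, Finite F ∧ γ ∈ F ∧ (∀ c, (∃ ρ ∈ R, ρ * xU D K (th D) c ∈ M) → c ∈ F) ∧
      (∀ c ∈ F, ∃ ρ ∈ R, ρ * xU D K (th D) c ∈ M) ∧ ∀ c ∈ F, ∃ ρ ∈ R, ρ * hU D K 0 c ∈ M) ∨
    (p = 2 ∧ ∀ c, (∃ ρ ∈ R, ρ * xU D K (th D) c ∈ M) → c ^ 2 = c) ∨
    (p = 3 ∧ γ ^ 5 = γ ∧ ∀ c, (∃ ρ ∈ R, ρ * xU D K (th D) c ∈ M) → c ^ 3 = c) := by
  have hR := conj_sl2Hom h0 h1 h2
  have := finite_gam (sl2Hom K h0) R M hR (finite_inter h h0 hR hn h3 h4)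
  have hY : ∀ c, slY c ∈ gam (sl2Hom K h0) R M hR ↔ ∃ ρ ∈ R, ρ * xU D K (th D) c ∈ M := fun c => by
    rw [← sl2Hom_slY0 h0]; rfl
  rcases sl2_cases p (gam (sl2Hom K h0) R M hR) hγ ⟨1, R.one_mem, by rwa [one_mul, sl2Hom_slX]⟩
    ((hY 1).mpr ⟨1, R.one_mem, by rwa [one_mul]⟩) with ⟨F, a1, a2, a3, a4⟩ | ⟨a1, a2⟩ | ⟨a1, a2, a3⟩
  · refine Or.inl ⟨F, a1, a2, fun c hc => a3 c ((hY c).mpr hc), fun c hc => (hY c).mp (a4 c hc).2,
      fun c hc => ?_⟩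
    have k : ∀ c ∈ F, slX c * slY (-c⁻¹) * slX c ∈ gam (sl2Hom K h0) R M hR := fun c hc =>
      mul_mem (mul_mem (a4 c hc).1 (a4 _ (F.neg_mem (F.inv_mem hc))).2) (a4 c hc).1
    obtain ⟨ρ, b1, b2⟩ := mul_mem (k c hc) (k _ (F.neg_mem F.one_mem))
    refine ⟨ρ, b1, ?_⟩
    simpa only [map_mul, sl2Hom_slX, sl2Hom_slY, hU, nU] using b2
  · exact Or.inr (Or.inl ⟨a1, fun c hc => a2 c ((hY c).mpr hc)⟩)
  · exact Or.inr (Or.inr ⟨a1, a2, fun c hc => a3 c ((hY c).mpr hc)⟩)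

theorem pair_cases (h : RtOK D) (h0 : 0 < D.nroots) (p : ℕ) [Fact p.Prime] [CharP K p]
    {M : Subgroup (GL D.Idx K)} [Finite M] {γ : K} (hγ : γ ≠ 0) (hu : xU D K 0 γ ∈ M)
    (hv : xU D K (th D) 1 ∈ M) :
    (∃ F : Subfield K, Finite F ∧ γ ∈ F ∧ ∀ c, xU D K (th D) c ∈ M ↔ c ∈ F) ∨
    (p = 2 ∧ ∀ c, xU D K (th D) c ∈ M → c ^ 2 = c) ∨
    (p = 3 ∧ γ ^ 5 = γ ∧ ∀ c, xU D K (th D) c ∈ M → c ^ 3 = c) := by
  have e : ∀ z : GL D.Idx K, (∃ ρ ∈ (⊥ : Subgroup (GL D.Idx K)), ρ * z ∈ M) ↔ z ∈ M := by simp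
  have := gamma_cases h h0 p (R := ⊥) (by simp) (by simp) (n := 1) (one_mem _)
    (by simpa using xU_mem_posUnipotent (pos_th h0) 1) (by simp) hγ hu hv
  simp only [e] at this
  rcases this with ⟨F, a1, a2, a3, a4, -⟩ | a | a
  · exact Or.inl ⟨F, a1, a2, fun c => ⟨a3 c, a4 c⟩⟩
  · exact Or.inr (Or.inl a)
  · exact Or.inr (Or.inr a)

/-! ### groups generated by a list of root subgroups -/

variable (D K) in
/-- the group generated by the root subgroups of a list of roots -/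
def RR (L : List ℕ) : Subgroup (GL D.Idx K) := Subgroup.closure {g | ∃ s ∈ L, ∃ t, g = xU D K s t}

theorem xU_mem_RR {L : List ℕ} {s : ℕ} (hs : s ∈ L) (t : K) : xU D K s t ∈ RR D K L :=
  Subgroup.subset_closure ⟨s, hs, t, rfl⟩

theorem RR_le {L : List ℕ} {Y : Subgroup (GL D.Idx K)} (h : ∀ s ∈ L, ∀ t, xU D K s t ∈ Y) :
    RR D K L ≤ Y := by
  rw [RR, Subgroup.closure_le]
  rintro _ ⟨s, hs, t, rfl⟩
  exact h s hs t

theorem mem_RR_one {s : ℕ} {g : GL D.Idx K} (hg : g ∈ RR D K [s]) : ∃ t, g = xU D K s t :=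
  mem_rootSubgroup_iff.mp (RR_le (fun r hr t => by
    rw [List.mem_singleton.mp hr]; exact mem_rootSubgroup_iff.mpr ⟨t, rfl⟩) hg)

theorem conj_xU {r s : ℕ} (hr : r < D.nroots) (hs : s < D.nroots) (h : s ≠ D.neg r) (t u : K) :
    xU D K r t * xU D K s u * (xU D K r t)⁻¹ = xU D K s u * wordU D K (D.commWord K r s (-t) u) := by
  rw [← xU_comm hr hs h, xU_inv r (-t), neg_neg, ← xU_inv r t]; group

theorem conj_xU_nil {r s : ℕ} (hr : r < D.nroots) (hs : s < D.nroots) (h : s ≠ D.neg r)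
    (e : D.commTerms r s = []) (t u : K) :
    xU D K r t * xU D K s u * (xU D K r t)⁻¹ = xU D K s u := by
  rw [conj_xU hr hs h, commWord, e]; simp [wordU]

theorem conj_xU_one {r s k : ℕ} {c : ℤ} (hr : r < D.nroots) (hs : s < D.nroots) (h : s ≠ D.neg r)
    (e : D.commTerms r s = [(k, c, 1, 1)]) (t u : K) :
    xU D K r t * xU D K s u * (xU D K r t)⁻¹ = xU D K s u * xU D K k (c * t * u) := by
  rw [conj_xU hr hs h, commWord, e]; simp [wordU]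

theorem word_mem_RR {L : List ℕ} {r s : ℕ} (h : ∀ c ∈ D.commTerms r s, c.1 ∈ L) (t u : K) :
    wordU D K (D.commWord K r s t u) ∈ RR D K L := by
  refine Subgroup.list_prod_mem _ fun x hx => ?_
  simp only [commWord, List.map_map, List.mem_map] at hx
  obtain ⟨c, hc, rfl⟩ := hx
  exact xU_mem_RR (h c hc) _

/-- `x_r` normalizes the group of the list `L` -/
def NormChk (D : ChevalleyDatum) (r : ℕ) (L : List ℕ) : Prop :=
  ∀ s ∈ L, s < D.nroots ∧ s ≠ D.neg r ∧ ∀ c ∈ D.commTerms r s, c.1 ∈ L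

instance (D : ChevalleyDatum) (r : ℕ) (L : List ℕ) : Decidable (NormChk D r L) := by
  unfold NormChk; infer_instance

theorem conj_mem_RR_of {L L' : List ℕ} {g : GL D.Idx K}
    (h : ∀ s ∈ L, ∀ t, g * xU D K s t * g⁻¹ ∈ RR D K L') {ρ : GL D.Idx K} (hρ : ρ ∈ RR D K L) :
    g * ρ * g⁻¹ ∈ RR D K L' :=
  RR_le (Y := (RR D K L').comap (MulAut.conj g).toMonoidHom) h hρ

theorem NormChk.conj {r : ℕ} {L : List ℕ} (hr : r < D.nroots) (h : NormChk D r L) (t : K) :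
    ∀ ρ ∈ RR D K L, xU D K r t * ρ * (xU D K r t)⁻¹ ∈ RR D K L := fun _ =>
  conj_mem_RR_of fun s hs u => by
    rw [conj_xU hr (h s hs).1 (h s hs).2.1]
    exact mul_mem (xU_mem_RR hs u) (word_mem_RR (h s hs).2.2 _ _)

variable (D K) in
/-- elements normalizing the group of `L` and centralizing `x_δ` modulo it -/
def St (L : List ℕ) (δ : ℕ) : Subgroup (GL D.Idx K) where
  carrier := {g | (∀ ρ ∈ RR D K L, g * ρ * g⁻¹ ∈ RR D K L ∧ g⁻¹ * ρ * g ∈ RR D K L) ∧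
    ∀ t, (xU D K δ t)⁻¹ * (g * xU D K δ t * g⁻¹) ∈ RR D K L}
  mul_mem' := by
    rintro a b ⟨h1, h2⟩ ⟨h3, h4⟩
    refine ⟨fun ρ hρ => ⟨?_, ?_⟩, fun t => ?_⟩
    · convert (h1 _ (h3 ρ hρ).1).1 using 1; group
    · convert (h3 _ (h1 ρ hρ).2).2 using 1; group
    · convert mul_mem (h2 t) (h1 _ (h4 t)).1 using 1; group
  one_mem' := ⟨fun ρ hρ => by simpa using hρ, fun t => by simp⟩
  inv_mem' := by
    rintro a ⟨h1, h2⟩
    refine ⟨fun ρ hρ => by simpa using (h1 ρ hρ).symm, fun t => ?_⟩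
    convert inv_mem (h1 _ (h2 t)).2 using 1; group

theorem St.exists {L : List ℕ} {δ : ℕ} {g ρ : GL D.Idx K} (hg : g ∈ St D K L δ) (hρ : ρ ∈ RR D K L)
    (t : K) : ∃ ρ' ∈ RR D K L, g * (xU D K δ t * ρ) * g⁻¹ = xU D K δ t * ρ' :=
  ⟨_, mul_mem (hg.2 t) (hg.1 ρ hρ).1, by group⟩

theorem xU_mem_St {L : List ℕ} {r δ : ℕ} (hr : r < D.nroots) (hδ : δ < D.nroots) (h : NormChk D r L)
    (h1 : δ ≠ D.neg r) (h2 : ∀ c ∈ D.commTerms r δ, c.1 ∈ L) (t : K) : xU D K r t ∈ St D K L δ := by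
  refine ⟨fun ρ hρ => ⟨h.conj hr t ρ hρ, ?_⟩, fun u => ?_⟩
  · have := h.conj hr (-t) ρ hρ
    rwa [← xU_inv, inv_inv] at this
  · rw [conj_xU hr hδ h1, inv_mul_cancel_left]; exact word_mem_RR h2 _ _

theorem lt_of_mem_commTerms (h : RtOK D) {r s : ℕ} (hr : D.IsPosRoot r) (hs : D.IsPosRoot s)
    {c : ℕ × ℤ × ℕ × ℕ} (hc : c ∈ D.commTerms r s) : s < c.1 ∧ c.1 < D.nroots := by
  have hr' := (isPosRoot_iff.mp hr).2
  have hs' := (isPosRoot_iff.mp hs).2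
  obtain ⟨hk, e⟩ := isSum_of_mem_commTerms h ⟨r, hr'⟩ ⟨s, hs'⟩ hc
  exact ⟨rootSys_lt_of_isSum h e.symm ((rootSys_pos_iff h _).mpr hs) ((rootSys_pos_iff h _).mpr hr), hk⟩

theorem ne_neg_of_isPos {r s : ℕ} (hr : D.IsPosRoot r) (hs : D.IsPosRoot s) : s ≠ D.neg r := fun e =>
  not_isNegRoot_of_isPosRoot hs (e ▸ (isNegRoot_neg_iff (isPosRoot_iff.mp hr).2).mpr hr)

theorem U_le_St (h : RtOK D) {L : List ℕ} {δ : ℕ} (hδ : D.IsPosRoot δ)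
    (hL : ∀ k, k ∈ L ↔ δ < k ∧ k < D.nroots) : D.posUnipotent K ≤ St D K L δ := by
  rw [posUnipotent_eq, Subgroup.closure_le]
  rintro _ ⟨r, t, hr, rfl⟩
  have hp : ∀ s ∈ L, D.IsPosRoot s := fun s hs => isPosRoot_iff.mpr
    ⟨(isPosRoot_iff.mp hδ).1.trans ((hL s).mp hs).1.le, ((hL s).mp hs).2⟩
  refine xU_mem_St (isPosRoot_iff.mp hr).2 (isPosRoot_iff.mp hδ).2 (fun s hs => ⟨((hL s).mp hs).2,
    ne_neg_of_isPos hr (hp s hs), fun c hc => ?_⟩) (ne_neg_of_isPos hr hδ)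
    (fun c hc => (hL _).mpr (lt_of_mem_commTerms h hr hδ hc)) t
  have := lt_of_mem_commTerms h hr (hp s hs) hc
  exact (hL _).mpr ⟨((hL s).mp hs).1.trans this.1, this.2⟩

/-- extraction of a coordinate by a commutator -/
theorem extract (h : RtOK D) (h0 : 0 < D.nroots) {M : Subgroup (GL D.Idx K)} {L : List ℕ} {r s : ℕ}
    {c : ℤ} (hr : D.IsPosRoot r) (hs : D.IsPosRoot s) (hM : xU D K r 1 ∈ M)
    (e : D.commTerms r s = [(th D, c, 1, 1)])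
    (hL : ∀ k ∈ L, D.IsPosRoot k ∧ D.commTerms r k = []) {t : K} {ρ : GL D.Idx K} (hρ : ρ ∈ RR D K L)
    (hm : xU D K s t * ρ ∈ M) : xU D K (th D) (c * t) ∈ M := by
  have hr' := (isPosRoot_iff.mp hr).2
  have e1 : xU D K r 1 * ρ * (xU D K r 1)⁻¹ = ρ := by
    have := RR_le (Y := Subgroup.centralizer {xU D K r 1}) (fun k hk t => by
      rw [Subgroup.mem_centralizer_singleton_iff, eq_comm, ← mul_inv_eq_iff_eq_mul]
      exact conj_xU_nil hr' (isPosRoot_iff.mp (hL k hk).1).2 (ne_neg_of_isPos hr (hL k hk).1)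
        (hL k hk).2 _ _) hρ
    rw [mul_inv_eq_iff_eq_mul]; exact (Subgroup.mem_centralizer_singleton_iff.mp this).symm
  have e2 := conj_xU_one (K := K) hr' (isPosRoot_iff.mp hs).2 (ne_neg_of_isPos hr hs) e 1 t
  have e3 := U_comm_th h h0 (inv_mem (RR_le (fun k hk t => xU_mem_posUnipotent (hL k hk).1 t) hρ))
    (c * 1 * t)
  have := mul_mem (inv_mem hm) (mul_mem (mul_mem hM hm) (inv_mem hM))
  rw [show xU D K r 1 * (xU D K s t * ρ) * (xU D K r 1)⁻¹ = (xU D K r 1 * xU D K s t * (xU D K r 1)⁻¹) *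
    (xU D K r 1 * ρ * (xU D K r 1)⁻¹) by group, e1, e2] at this
  rw [← mul_one (c : K), ← e3]
  convert this using 1; group

end CfsgLib.BGL
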