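import Mathlib
import Cfsg.Agent.Lib.BGL.Gamma

/-!
# The prime fields of order two and three, for root systems whose long root geometry has lines
-/

set_option autoImplicit false

namespace CfsgLib.BGL

open Matrix Cfsg.Lie Cfsg.Lie.ChevalleyDatum CfsgLib.RGD CfsgLib.Chev CfsgLib.Weyl CfsgLib.ChevAut
  CfsgLib.Lang

variable {D : ChevalleyDatum} {K : Type*} [Field K]

/-- the certificate for the three highest roots -/
structure Line (D : ChevalleyDatum) (i η : ℕ) (e₁ e₂ e₃ e₄ : ℤ) : Prop where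
  big : D.nroots / 2 + 3 ≤ D.nroots
  hi : i < D.rank
  lt : D.simple i < D.nroots - 3
  pη : D.nroots / 2 ≤ η ∧ η < D.nroots
  u : e₁ * e₁ = 1 ∧ e₂ % 2 = 1 ∧ e₃ * e₃ = 1 ∧ e₄ * e₄ = 1
  c1 : D.commTerms (D.simple i) (D.nroots - 2) = [(th D, e₁, 1, 1)]
  c1' : D.commTerms (D.simple i) (th D) = []
  c2 : D.commTerms η (D.nroots - 3) = [(th D, e₂, 1, 1)]
  c2' : D.commTerms η (D.nroots - 2) = [] ∧ D.commTerms η (th D) = []
  c3 : D.commTerms 0 (D.nroots - 2) = [(D.neg (D.simple i), e₃, 1, 1)]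
  c4 : D.commTerms (D.neg (D.simple i)) (th D) = [(D.nroots - 2, e₄, 1, 1)]
  c5 : D.commTerms (D.neg (D.simple i)) 0 = [] ∧ D.commTerms (D.neg (D.simple i)) (D.nroots - 2) = [] ∧
    D.commTerms (D.neg (D.simple i)) (D.nroots - 3) = []
  n1 : NormChk D 0 [D.neg (D.simple i), D.nroots - 2] ∧ NormChk D (th D) [D.neg (D.simple i), D.nroots - 2]
  r1 : D.reflectRoot i (th D) = D.nroots - 2 ∧ D.reflectRoot i (D.nroots - 2) = th D
  p1 : D.cartan i (th D) = 1 ∧ D.pairing 0 (D.nroots - 3) = -1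

/-- the conjugate subgroup `u⁻¹ M u` -/
def cj {G : Type*} [Group G] (M : Subgroup G) (u : G) : Subgroup G := M.comap (MulAut.conj u).toMonoidHom

theorem mem_cj {G : Type*} [Group G] {M : Subgroup G} {u z : G} : z ∈ cj M u ↔ u * z * u⁻¹ ∈ M := Iff.rfl

instance finite_cj {G : Type*} [Group G] (M : Subgroup G) [Finite M] (u : G) : Finite (cj M u) :=
  Finite.of_injective (fun z : cj M u => (⟨u * z * u⁻¹, z.2⟩ : M)) fun a b e => by
    have := congrArg Subtype.val e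
    exact Subtype.ext (by simpa using this)

theorem mem_of_pow_five {c : K} (h : c ^ 3 = c) : c ^ 5 = c := by linear_combination (c ^ 2 + 1) * h

theorem mem_of_sq_eq (F : Subfield K) {c : K} (h : c ^ 2 = c) : c ∈ F := by
  rcases mul_eq_zero.mp (show c * (c - 1) = 0 by linear_combination h) with e | e
  · exact e ▸ F.zero_mem
  · exact sub_eq_zero.mp e ▸ F.one_mem

theorem mem_of_cube_eq (F : Subfield K) {c : K} (h : c ^ 3 = c) : c ∈ F := by
  rcases mul_eq_zero.mp (show c * (c ^ 2 - 1) = 0 by linear_combination h) with e | e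
  · exact e ▸ F.zero_mem
  · rcases sq_eq_one_iff_of_field (sub_eq_zero.mp e) with e | e
    · exact e ▸ F.one_mem
    · exact e ▸ F.neg_mem F.one_mem

variable [Good D]

theorem xU_unit_mem {M : Subgroup (GL D.Idx K)} {r : ℕ} {e : ℤ} (he : e * e = 1) {t : K}
    (h : xU D K r (e * t) ∈ M) : xU D K r t ∈ M := by
  rcases mul_self_eq_one_iff.mp he with rfl | rfl
  · simpa using h
  · have := inv_mem h
    rw [xU_inv] at this
    simpa using this

namespace Line

variable {i η : ℕ} {e₁ e₂ e₃ e₄ : ℤ} (hl : Line D i η e₁ e₂ e₃ e₄)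
include hl

omit [Good D] in
theorem pos : 0 < D.nroots := by have := hl.big; omega

theorem pos2 : D.IsPosRoot (D.nroots - 2) := isPosRoot_iff.mpr (by have := hl.big; omega)

theorem pos3 : D.IsPosRoot (D.nroots - 3) := isPosRoot_iff.mpr (by have := hl.big; omega)

theorem U_le1 (h : RtOK D) : D.posUnipotent K ≤ St D K [th D] (D.nroots - 2) :=
  U_le_St h hl.pos2 fun k => by have := hl.big; simp only [List.mem_singleton, th]; omega

theorem U_le2 (h : RtOK D) : D.posUnipotent K ≤ St D K [D.nroots - 2, th D] (D.nroots - 3) :=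
  U_le_St h hl.pos3 fun k => by
    have := hl.big; simp only [List.mem_cons, List.not_mem_nil, or_false, th]; omega

theorem lt2 : D.nroots - 2 < D.nroots := (isPosRoot_iff.mp hl.pos2).2

theorem ne_th : th D ≠ D.neg (D.neg (D.simple i)) := by
  rw [neg_neg' (simple_lt hl.hi)]; have := hl.lt; unfold th; omega

theorem L1 (h : RtOK D) {M : Subgroup (GL D.Idx K)} (hM : ∀ r < D.nroots, xU D K r 1 ∈ M)
    {u : GL D.Idx K} (hu : u ∈ D.posUnipotent K) {t c : K}
    (hm : xU D K (D.nroots - 2) t * xU D K (th D) c ∈ cj M u) : xU D K (th D) t ∈ M := by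
  obtain ⟨ρ, h1, h2⟩ := St.exists (hl.U_le1 h hu) (xU_mem_RR (List.mem_singleton_self _) c) t
  rw [mem_cj, h2] at hm
  exact xU_unit_mem hl.u.1 (extract h hl.pos (isPosRoot_simple hl.hi) hl.pos2 (hM _ (simple_lt hl.hi))
    hl.c1 (fun k hk => by rw [List.mem_singleton.mp hk]; exact ⟨pos_th hl.pos, hl.c1'⟩) h1 hm)

theorem L2 (h : RtOK D) {M : Subgroup (GL D.Idx K)} (hM : ∀ r < D.nroots, xU D K r 1 ∈ M)
    {u : GL D.Idx K} (hu : u ∈ D.posUnipotent K) {γ : K} (h1 : xU D K 0 γ ∈ cj M u)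
    (h2 : xU D K (D.nroots - 2) 1 ∈ cj M u) : xU D K (th D) γ ∈ M := by
  have h3 : xU D K (th D) 1 ∈ cj M u := by
    rw [mem_cj, U_comm_th h hl.pos hu]; exact hM _ (th_lt hl.pos)
  have h4 := mul_mem (inv_mem h2) (mul_mem (mul_mem h1 h2) (inv_mem h1))
  rw [conj_xU_one hl.pos hl.lt2 (by rw [neg_zero' hl.pos]; have := hl.big; unfold th; omega) hl.c3,
    inv_mul_cancel_left, mul_one] at h4
  have h5 := xU_unit_mem hl.u.2.2.1 h4
  have h6 := mul_mem (inv_mem h3) (mul_mem (mul_mem h5 h3) (inv_mem h5))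
  rw [conj_xU_one (neg_lt (simple_lt hl.hi)) (th_lt hl.pos) hl.ne_th hl.c4, inv_mul_cancel_left,
    mul_one] at h6
  refine hl.L1 h hM hu (c := 0) ?_
  rw [xU_zero, mul_one]
  exact xU_unit_mem hl.u.2.2.2 h6

theorem setup (h : RtOK D) {M : Subgroup (GL D.Idx K)} (hMG : M ≤ D.group K)
    (hM : ∀ r < D.nroots, xU D K r 1 ∈ M) {g : GL D.Idx K} (hg : g ∈ M) (he : ent hl.pos g ≠ 0) :
    ∃ u ∈ D.posUnipotent K, xU D K 0 (ent hl.pos g) ∈ cj M u ∧
      (∀ t, xU D K (th D) t ∈ cj M u ↔ xU D K (th D) t ∈ M) ∧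
      ∃ c, xU D K (D.nroots - 2) 1 * xU D K (th D) c ∈ cj M u := by
  obtain ⟨u, hu, e⟩ := exists_pair h hl.pos (hMG hg) he
  refine ⟨u, hu, ?_, fun t => by rw [mem_cj, U_comm_th h hl.pos hu], ?_⟩
  · rw [mem_cj, ← mul_one (ent _ g), ← e]
    exact mul_mem (mul_mem hg (hM _ (th_lt hl.pos))) (inv_mem hg)
  · obtain ⟨ρ, h1, h2⟩ := St.exists (hl.U_le1 h (inv_mem hu)) (one_mem _) 1
    obtain ⟨c, rfl⟩ := mem_RR_one h1
    refine ⟨c, ?_⟩
    rw [mem_cj, ← h2]
    simpa [mul_assoc] using hM _ hl.lt2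

theorem two (h : RtOK D) [CharP K 2] {M : Subgroup (GL D.Idx K)} [Finite M] (hMG : M ≤ D.group K)
    (hM : ∀ r < D.nroots, xU D K r 1 ∈ M) {F : Subfield K} (hF : ∀ t, xU D K (th D) t ∈ M ↔ t ∈ F)
    {g : GL D.Idx K} (hg : g ∈ M) : ent hl.pos g ∈ F := by
  by_cases he : ent hl.pos g = 0
  · exact he ▸ F.zero_mem
  obtain ⟨u, hu, h1, h2, c, h3⟩ := hl.setup h hMG hM hg he
  have k1 : c ∈ F → ent hl.pos g ∈ F := fun hc =>
    (hF _).mp (hl.L2 h hM hu h1 ((mul_mem_cancel_right ((h2 c).mpr ((hF c).mpr hc))).mp h3))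
  have hα := simple_lt hl.hi
  have hn : ∀ s < D.nroots, D.IsPosRoot (refl D (D.simple i) s) → ∀ t,
      nU D K (D.simple i) 1 * xU D K s t * (nU D K (D.simple i) 1)⁻¹ ∈ D.posUnipotent K :=
    fun s hs hp t => by rw [nU_conj_xU hα hs one_ne_zero]; exact xU_mem_posUnipotent hp _
  have hc : ∃ ρ ∈ RR D K [D.neg (D.simple i), D.nroots - 2], ρ * xU D K (th D) c ∈ cj M u :=
    ⟨_, xU_mem_RR (by simp) 1, h3⟩
  rcases gamma_cases h hl.pos 2 (M := cj M u) (hl.n1.1.conj hl.pos) (hl.n1.2.conj (th_lt hl.pos))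
    (n := nU D K (D.simple i) 1) ((stSys h K).n_one_mem_N ⟨_, hα⟩)
    (hn _ (th_lt hl.pos) (by rw [refl_simple hl.hi (th_lt hl.pos), hl.r1.1]; exact hl.pos2) 1)
    (fun ρ hρ => RR_le (Y := cj (D.posUnipotent K) (nU D K (D.simple i) 1)) (fun s hs t => by
      simp only [List.mem_cons, List.not_mem_nil, or_false] at hs
      rcases hs with rfl | rfl
      · exact hn _ (neg_lt hα) (by
          rw [refl_neg_right hα hα, refl_self hα, neg_neg' hα]; exact isPosRoot_simple hl.hi) t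
      · exact hn _ hl.lt2 (by rw [refl_simple hl.hi hl.lt2, hl.r1.2]; exact pos_th hl.pos) t) hρ)
    he h1 ((h2 1).mpr (hM _ (th_lt hl.pos))) with ⟨F', -, -, a3, -, a5⟩ | ⟨-, a⟩ | ⟨a, -⟩
  · by_cases hc0 : c = 0
    · exact k1 (hc0 ▸ F.zero_mem)
    obtain ⟨ρ, b1, b2⟩ := a5 c (a3 c hc)
    have b3 : ρ ∈ St D K [D.nroots - 2, th D] (D.nroots - 3) := by
      refine RR_le (fun s hs t => ?_) b1
      simp only [List.mem_cons, List.not_mem_nil, or_false] at hs
      rcases hs with rfl | rfl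
      · have := hl.lt
        refine xU_mem_St (neg_lt hα) (by omega) (fun s hs => ?_) (by rw [neg_neg' hα]; omega)
          (by simp [hl.c5.2.2]) t
        simp only [List.mem_cons, List.not_mem_nil, or_false] at hs
        rcases hs with rfl | rfl
        · exact ⟨hl.lt2, by rw [neg_neg' hα]; omega, by simp [hl.c5.2.1]⟩
        · exact ⟨th_lt hl.pos, hl.ne_th, by simp [hl.c4]⟩
      · exact hl.U_le2 h (xU_mem_posUnipotent hl.pos2 t)
    obtain ⟨v, b4, b5⟩ := St.exists (hl.U_le2 h (inv_mem hu)) (one_mem _) 1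
    have b6 : xU D K (D.nroots - 3) 1 * v ∈ cj M u := by
      rw [mem_cj, ← b5]
      simpa [mul_assoc] using hM _ (isPosRoot_iff.mp hl.pos3).2
    have b7 : hU D K 0 c * v * (hU D K 0 c)⁻¹ ∈ RR D K [D.nroots - 2, th D] :=
      conj_mem_RR_of (fun s hs t => by rw [hU_conj_xU hl.pos hc0]; exact xU_mem_RR hs _) b4
    obtain ⟨v', b8, b9⟩ := St.exists b3 b7 c⁻¹
    obtain ⟨v'', b10, b11⟩ := St.exists (hl.U_le2 h hu) b8 c⁻¹
    have b12 := mul_mem (mul_mem b2 b6) (inv_mem b2)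
    have b13 := hU_conj_xU (D := D) hl.pos hc0 (D.nroots - 3) 1
    rw [hl.p1.2, _root_.zpow_neg_one, mul_one] at b13
    rw [show ρ * hU D K 0 c * (xU D K (D.nroots - 3) 1 * v) * (ρ * hU D K 0 c)⁻¹ =
      ρ * ((hU D K 0 c * xU D K (D.nroots - 3) 1 * (hU D K 0 c)⁻¹) * (hU D K 0 c * v * (hU D K 0 c)⁻¹)) *
        ρ⁻¹ by group, b13, b9, mem_cj, b11] at b12
    have b14 := (hF _).mp (extract h hl.pos (isPosRoot_iff.mpr hl.pη) hl.pos3 (hM _ hl.pη.2) hl.c2
      (fun k hk => by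
        simp only [List.mem_cons, List.not_mem_nil, or_false] at hk
        rcases hk with rfl | rfl
        · exact ⟨hl.pos2, hl.c2'.1⟩
        · exact ⟨pos_th hl.pos, hl.c2'.2⟩) b10 b12)
    have b15 : (e₂ : K) = 1 := by
      rw [← Int.mul_ediv_add_emod e₂ 2, hl.u.2.1]
      push_cast
      rw [CharTwo.two_eq_zero]; simp
    rw [b15, one_mul] at b14
    exact k1 (by simpa using F.inv_mem b14)
  · exact k1 (mem_of_sq_eq F (a c hc))
  · exact absurd a (by decide)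

theorem three (h : RtOK D) [CharP K 3] {M : Subgroup (GL D.Idx K)} [Finite M] (hMG : M ≤ D.group K)
    (hM : ∀ r < D.nroots, xU D K r 1 ∈ M) {F : Subfield K} (hF : ∀ t, xU D K (th D) t ∈ M ↔ t ∈ F)
    (hF3 : ∀ t ∈ F, t ^ 3 = t) {g : GL D.Idx K} (hg : g ∈ M) : ent hl.pos g ∈ F := by
  by_cases he : ent hl.pos g = 0
  · exact he ▸ F.zero_mem
  obtain ⟨u, hu, h1, h2, c, h3⟩ := hl.setup h hMG hM hg he
  have : Fact (Nat.Prime 3) := ⟨Nat.prime_three⟩
  set γ := ent hl.pos g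
  have hα := simple_lt hl.hi
  have k5 : ∀ (M' : Subgroup (GL D.Idx K)) [Finite M'] (a : K), a ≠ 0 → xU D K 0 a ∈ M' →
      xU D K (th D) 1 ∈ M' → (∀ b, xU D K (th D) b ∈ M' → b ∈ F) → a ^ 5 = a := by
    intro M' _ a ha b1 b2 b3
    rcases pair_cases h hl.pos 3 ha b1 b2 with ⟨F', -, a2, a3⟩ | ⟨a, -⟩ | ⟨-, a, -⟩
    · exact mem_of_pow_five (hF3 _ (b3 _ ((a3 _).mpr a2)))
    · exact absurd a (by decide)
    · exact a
  have k1 := k5 _ γ he h1 ((h2 1).mpr (hM _ (th_lt hl.pos))) fun b hb => (hF b).mp ((h2 b).mp hb)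
  have k2 : ∀ a, xU D K (D.nroots - 2) 1 * xU D K (th D) a ∈ cj M u → a ^ 5 = a := by
    intro a ha
    by_cases ha0 : a = 0
    · simp [ha0]
    have e4 : (e₄ : K) * e₄ = 1 := by exact_mod_cast congrArg (Int.cast : ℤ → K) hl.u.2.2.2
    let y := xU D K (D.neg (D.simple i)) (e₄ * a⁻¹) * hU D K (D.simple i) a
    have c0 : ∀ b, y * xU D K (th D) b * y⁻¹ = xU D K (D.nroots - 2) b * xU D K (th D) (a * b) := by
      intro b
      have e1 := hU_conj_xU (D := D) hα ha0 (th D) b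
      rw [pairing_simple hl.hi, hl.p1.1, zpow_one] at e1
      have e2 := conj_xU_one (neg_lt hα) (th_lt hl.pos) hl.ne_th hl.c4 ((e₄ : K) * a⁻¹) (a * b)
      rw [← mul_assoc (e₄ : K), e4, one_mul, inv_mul_cancel_left₀ ha0] at e2
      have e3 := U_comm_th h hl.pos (xU_mem_posUnipotent (F := K) hl.pos2 b) (a * b)
      rw [mul_inv_eq_iff_eq_mul] at e3
      rw [e3, ← e2, ← e1]
      simp only [y]; group
    have c1 : y * xU D K 0 (a * γ) * y⁻¹ = xU D K 0 γ := by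
      have e1 := hU_conj_xU (D := D) hα ha0 0 (a * γ)
      rw [← neg_th hl.pos, pairing_neg_right _ (th_lt hl.pos), pairing_simple hl.hi, hl.p1.1,
        _root_.zpow_neg_one, inv_mul_cancel_left₀ ha0, neg_th hl.pos] at e1
      have e2 := conj_xU_nil (neg_lt hα) hl.pos (by
        rw [neg_neg' hα]; have := half_le_simple hl.hi; have := hl.big; omega) hl.c5.1 ((e₄ : K) * a⁻¹) γ
      rw [← e2, ← e1]
      simp only [y]; group
    have := k5 (cj (cj M u) y) (a * γ) (mul_ne_zero ha0 he) (by rwa [mem_cj, c1])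
      (by rwa [mem_cj, c0, mul_one]) fun b hb => (hF b).mp (hl.L1 h hM hu (by rwa [mem_cj, c0] at hb))
    rw [mul_pow, k1] at this
    exact mul_right_cancel₀ he this
  have k3 := pow_five_step (k2 c h3) (k2 (c + 1) (by
    rw [xU_add, ← mul_assoc]; exact mul_mem h3 ((h2 1).mpr (hM _ (th_lt hl.pos)))))
  exact (hF _).mp (hl.L2 h hM hu h1
    ((mul_mem_cancel_right ((h2 c).mpr ((hF c).mpr (mem_of_cube_eq F k3)))).mp h3))

end Line

end CfsgLib.BGL
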