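import Mathlib
import Cfsg.Agent.Lib.BGL.Line
import Cfsg.Agent.Lib.RGD.Simple

/-!
# The prime fields of order two and three in type `B₂`
-/

set_option autoImplicit false

namespace CfsgLib.BGL

open Matrix Cfsg.Lie Cfsg.Lie.ChevalleyDatum CfsgLib.RGD CfsgLib.Chev CfsgLib.Weyl CfsgLib.ChevAut
  CfsgLib.Lang

variable {K : Type*} [Field K]

theorem conj_xU_two {D : ChevalleyDatum} [Good D] {r s k k' : ℕ} {c c' : ℤ} (hr : r < D.nroots)
    (hs : s < D.nroots) (h : s ≠ D.neg r) (e : D.commTerms r s = [(k, c, 1, 1), (k', c', 2, 1)])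
    (t u : K) : xU D K r t * xU D K s u * (xU D K r t)⁻¹ =
      xU D K s u * (xU D K k (c * t * u) * xU D K k' (c' * t ^ 2 * u)) := by
  rw [conj_xU hr hs h, commWord, e]; simp [wordU]

namespace B2

local notation "X" => xU chevB2 K

theorem comm {r s : ℕ} (hr : r < chevB2.nroots) (hs : s < chevB2.nroots) (h : s ≠ chevB2.neg r)
    (e : chevB2.commTerms r s = []) (t u : K) : X r t * X s u = X s u * X r t := by
  rw [← mul_inv_eq_iff_eq_mul]; exact conj_xU_nil hr hs h e t u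

theorem c46 (t u : K) : X 6 u * X 4 t = X 4 t * X 6 u :=
  comm (by decide) (by decide) (by decide) (by decide) u t

theorem c47 (t u : K) : X 7 u * X 4 t = X 4 t * X 7 u :=
  comm (by decide) (by decide) (by decide) (by decide) u t

theorem c67 (t u : K) : X 7 u * X 6 t = X 6 t * X 7 u :=
  comm (by decide) (by decide) (by decide) (by decide) u t

/-- coordinates on the abelian unipotent radical -/
def q (a b c : K) : GL chevB2.Idx K := X 4 a * X 6 b * X 7 c

theorem q_mul (a b c a' b' c' : K) : q a b c * q a' b' c' = q (a + a') (b + b') (c + c') := by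
  simp only [q, xU_add]
  have e1 := c46 a' b
  have e2 := c47 a' c
  have e3 := c67 b' c
  calc _ = X 4 a * X 6 b * (X 7 c * X 4 a') * X 6 b' * X 7 c' := by group
    _ = X 4 a * (X 6 b * X 4 a') * (X 7 c * X 6 b') * X 7 c' := by rw [e2]; group
    _ = _ := by rw [e1, e3]; group

theorem q4 (a : K) : X 4 a = q a 0 0 := by simp [q, xU_zero]
theorem q6 (a : K) : X 6 a = q 0 a 0 := by simp [q, xU_zero]
theorem q7 (a : K) : X 7 a = q 0 0 a := by simp [q, xU_zero]

theorem q_inv (a b c : K) : (q a b c)⁻¹ = q (-a) (-b) (-c) := by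
  rw [inv_eq_iff_mul_eq_one, q_mul]; simp [q, xU_zero]

theorem q_congr {a b c a' b' c' : K} (h1 : a = a') (h2 : b = b') (h3 : c = c') : q a b c = q a' b' c' := by
  rw [h1, h2, h3]

theorem conj_q (g : GL chevB2.Idx K) (a b c : K) :
    g * q a b c * g⁻¹ = (g * X 4 a * g⁻¹) * (g * X 6 b * g⁻¹) * (g * X 7 c * g⁻¹) := by
  rw [q]; group

theorem conj5 (t a b c : K) :
    X 5 t * q a b c * (X 5 t)⁻¹ = q a (b - t * a) (c - t ^ 2 * a + 2 * t * b) := by
  rw [conj_q, conj_xU_two (k := 6) (k' := 7) (c := -1) (c' := -1) (by decide) (by decide) (by decide)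
    (by decide), conj_xU_one (k := 7) (c := 2) (by decide) (by decide) (by decide) (by decide),
    conj_xU_nil (by decide) (by decide) (by decide) (by decide)]
  simp only [q4, q6, q7, q_mul]
  exact q_congr (by ring) (by push_cast; ring) (by push_cast; ring)

theorem conj2 (t a b c : K) :
    X 2 t * q a b c * (X 2 t)⁻¹ = q (a - 2 * t * b - t ^ 2 * c) (b + t * c) c := by
  rw [conj_q, conj_xU_two (s := 7) (k := 6) (k' := 4) (c := 1) (c' := -1) (by decide) (by decide)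
    (by decide) (by decide), conj_xU_one (s := 6) (k := 4) (c := -2) (by decide) (by decide) (by decide)
    (by decide), conj_xU_nil (by decide) (by decide) (by decide) (by decide)]
  simp only [q4, q6, q7, q_mul]
  exact q_congr (by push_cast; ring) (by push_cast; ring) (by ring)

theorem conjh {l : K} (hl : l ≠ 0) (a b c : K) :
    hU chevB2 K 0 l * q a b c * (hU chevB2 K 0 l)⁻¹ = q a (l⁻¹ * b) (l⁻¹ ^ 2 * c) := by
  rw [conj_q, hU_conj_xU (by decide) hl, hU_conj_xU (by decide) hl, hU_conj_xU (by decide) hl,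
    show chevB2.pairing 0 4 = 0 by decide, show chevB2.pairing 0 6 = -1 by decide,
    show chevB2.pairing 0 7 = -2 by decide, q]
  simp

theorem exists_q {L : List ℕ} (hL : ∀ s ∈ L, s = 4 ∨ s = 6 ∨ s = 7) {g : GL chevB2.Idx K}
    (hg : g ∈ RR chevB2 K L) : ∃ a b c, g = q a b c := by
  let Y : Subgroup (GL chevB2.Idx K) :=
    { carrier := {g | ∃ a b c, g = q a b c}
      mul_mem' := by rintro _ _ ⟨a, b, c, rfl⟩ ⟨a', b', c', rfl⟩; exact ⟨_, _, _, q_mul ..⟩
      one_mem' := ⟨0, 0, 0, by simp [q, xU_zero]⟩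
      inv_mem' := by rintro _ ⟨a, b, c, rfl⟩; exact ⟨_, _, _, q_inv ..⟩ }
  refine RR_le (Y := Y) (fun s hs t => ?_) hg
  rcases hL s hs with rfl | rfl | rfl
  · exact ⟨_, _, _, q4 t⟩
  · exact ⟨_, _, _, q6 t⟩
  · exact ⟨_, _, _, q7 t⟩

theorem conj_qq (a b c a' b' c' : K) : q a b c * q a' b' c' * (q a b c)⁻¹ = q a' b' c' := by
  rw [q_inv, q_mul, q_mul]; exact q_congr (by ring) (by ring) (by ring)

theorem exists_R {g : GL chevB2.Idx K} (hg : g ∈ RR chevB2 K [4, 6, 2]) :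
    ∃ t a b, g = X 2 t * q a b 0 := by
  let Y : Subgroup (GL chevB2.Idx K) :=
    { carrier := {g | ∃ t a b, g = X 2 t * q a b 0}
      mul_mem' := by
        rintro _ _ ⟨t, a, b, rfl⟩ ⟨t', a', b', rfl⟩
        refine ⟨t + t', a - 2 * (-t') * b - (-t') ^ 2 * 0 + a', b + -t' * 0 + b', ?_⟩
        rw [← add_zero (0 : K), ← q_mul, add_zero, ← conj2, xU_add, ← xU_inv]; group
      one_mem' := ⟨0, 0, 0, by simp [q, xU_zero]⟩
      inv_mem' := by
        rintro _ ⟨t, a, b, rfl⟩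
        refine ⟨-t, -a - 2 * t * (-b) - t ^ 2 * (-0), -b + t * (-0), ?_⟩
        have e := conj2 t (-a) (-b) (-0)
        rw [← q_inv, neg_zero] at e
        rw [neg_zero, ← e, ← xU_inv]; group }
  refine RR_le (Y := Y) (fun s hs t => ?_) hg
  simp only [List.mem_cons, List.not_mem_nil, or_false] at hs
  rcases hs with rfl | rfl | rfl
  · exact ⟨0, _, _, by rw [q4, xU_zero, one_mul]⟩
  · exact ⟨0, _, _, by rw [q6, xU_zero, one_mul]⟩
  · exact ⟨t, 0, 0, by simp [q, xU_zero]⟩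

variable {M : Subgroup (GL chevB2.Idx K)} {F : Subfield K}

theorem n_conj {i s s' : ℕ} (hi : i < chevB2.rank) (hs : s < chevB2.nroots)
    (e : chevB2.reflectRoot i s = s') : ∃ c : ℤ, c * c = 1 ∧ ∀ t : K,
      nU chevB2 K (chevB2.simple i) 1 * X s t * (nU chevB2 K (chevB2.simple i) 1)⁻¹ = X s' (c * t) :=
  ⟨_, eta_mul_self (simple_lt hi) hs, fun t => by
    rw [nU_conj_xU (simple_lt hi) hs one_ne_zero, refl_simple hi hs, e]; simp⟩

theorem mem_of_q3 [CharP K 3] (hM : ∀ r < chevB2.nroots, ∀ t ∈ F, X r t ∈ M)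
    (hF : ∀ t, X 7 t ∈ M → t ∈ F) {a b c : K} (h : q a b c ∈ M) : a ∈ F ∧ b ∈ F ∧ c ∈ F := by
  have h3 : (3 : K) = 0 := by exact_mod_cast CharP.cast_eq_zero K 3
  have h5 := hM 5 (by decide) 1 F.one_mem
  have k : ∀ a b c, q a b c ∈ M → q 0 (-a) (2 * b - a) ∈ M := fun a b c h => by
    have := mul_mem (mul_mem (mul_mem h5 h) (inv_mem h5)) (inv_mem h)
    rw [conj5, q_inv, q_mul] at this
    convert this using 1
    exact q_congr (by ring) (by ring) (by ring)
  have k2 : ∀ b c, q 0 b c ∈ M → b ∈ F := fun b c h => by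
    have := k _ _ _ h
    rw [neg_zero, ← q7] at this
    have := F.neg_mem (hF _ this)
    convert this using 1
    linear_combination b * h3
  have ha : a ∈ F := by simpa using F.neg_mem (k2 _ _ (k _ _ _ h))
  have h1 := mul_mem h (inv_mem (hM 4 (by decide) a ha))
  rw [q4, q_inv, q_mul, add_neg_cancel, neg_zero, add_zero, add_zero] at h1
  have hb := k2 _ _ h1
  have h2 := mul_mem h1 (inv_mem (hM 6 (by decide) b hb))
  rw [q6, q_inv, q_mul, add_neg_cancel, add_neg_cancel, neg_zero, add_zero, ← q7] at h2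
  exact ⟨ha, hb, hF c h2⟩

theorem lb (p : ℕ) [CharP K p] (hp : p = 2 ∨ p = 3) [Finite M]
    (hM : ∀ r < chevB2.nroots, ∀ t ∈ F, X r t ∈ M) (hF : ∀ t, X 7 t ∈ M → t ∈ F)
    (hFp : ∀ t ∈ F, t ^ p = t) {s a b c γ : K} (hγ : γ ≠ 0)
    (h : X 0 γ ∈ cj M (X 5 s * q a b c)) : s ∈ F := by
  have : Fact p.Prime := ⟨by rcases hp with rfl | rfl <;> norm_num⟩
  by_cases hs0 : s = 0
  · exact hs0 ▸ F.zero_mem
  have k0 : ∀ a' b' c', q a' b' c' ∈ cj M (X 5 s * q a b c) ↔
      q a' (b' - s * a') (c' - s ^ 2 * a' + 2 * s * b') ∈ M := fun a' b' c' => by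
    rw [mem_cj, ← conj5]
    conv_rhs => rw [← conj_qq a b c a' b' c']
    exact iff_of_eq (congrArg (· ∈ M) (by group))
  have k1 : ∀ a' b' c', q a' b' c' ∈ M →
      q a' (b' + s * a') (c' - s ^ 2 * a' - 2 * s * b') ∈ cj M (X 5 s * q a b c) := fun a' b' c' e => by
    rw [k0]; convert e using 1; exact q_congr rfl (by ring) (by ring)
  have m4 := k1 1 0 0 (q4 (1 : K) ▸ hM 4 (by decide) 1 F.one_mem)
  have m6 := k1 0 1 0 (q6 (1 : K) ▸ hM 6 (by decide) 1 F.one_mem)
  have m7 := k1 0 0 1 (q7 (1 : K) ▸ hM 7 (by decide) 1 F.one_mem)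
  have hR : ∀ a' b' c', q a' b' c' ∈ cj M (X 5 s * q a b c) →
      ∃ ρ ∈ RR chevB2 K [4, 6, 2], ρ * X (th chevB2) c' ∈ cj M (X 5 s * q a b c) := fun a' b' c' e =>
    ⟨_, mul_mem (xU_mem_RR (by simp) a') (xU_mem_RR (by simp) b'), e⟩
  have hn : ∀ s < chevB2.nroots, chevB2.IsPosRoot (chevB2.reflectRoot 0 s) → ∀ t,
      nU chevB2 K (chevB2.simple 0) 1 * X s t * (nU chevB2 K (chevB2.simple 0) 1)⁻¹ ∈
        chevB2.posUnipotent K := fun s hs hp t => by
    obtain ⟨c, -, e⟩ := n_conj (K := K) (i := 0) (by decide) hs rfl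
    rw [e]; exact xU_mem_posUnipotent hp _
  rcases gamma_cases rtOKB2 (by decide) p (M := cj M (X 5 s * q a b c))
    (NormChk.conj (L := [4, 6, 2]) (by decide) (by decide))
    (NormChk.conj (by decide) (by decide))
    (n := nU chevB2 K (chevB2.simple 0) 1) ((stSys rtOKB2 K).n_one_mem_N ⟨_, by decide⟩)
    (hn _ (by decide) (isPosRoot_iff.mpr (by decide)) 1)
    (fun ρ hρ => RR_le (Y := cj (chevB2.posUnipotent K) (nU chevB2 K (chevB2.simple 0) 1)) (fun s hs t => by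
      simp only [List.mem_cons, List.not_mem_nil, or_false] at hs
      rcases hs with rfl | rfl | rfl <;> exact hn _ (by decide) (isPosRoot_iff.mpr (by decide)) t) hρ)
    hγ h (by
      have := m7
      simp only [mul_zero, add_zero, sub_zero] at this
      rwa [← q7] at this) with ⟨F', -, -, a3, -, a5⟩ | ⟨rfl, a⟩ | ⟨rfl, -, a⟩
  · have k2 : ∀ l ∈ F', l ≠ 0 → ∃ t, ∀ a' b' c', q a' b' c' ∈ cj M (X 5 s * q a b c) →
        q (a' - 2 * t * (l⁻¹ * b') - t ^ 2 * (l⁻¹ ^ 2 * c')) (l⁻¹ * b' + t * (l⁻¹ ^ 2 * c'))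
          (l⁻¹ ^ 2 * c') ∈ cj M (X 5 s * q a b c) := by
      intro l hl hl0
      obtain ⟨ρ, b1, b2⟩ := a5 l hl
      obtain ⟨t, x, y, rfl⟩ := exists_R b1
      refine ⟨t, fun a' b' c' e => ?_⟩
      rw [← conj2, ← conj_qq x y 0 a' _ _, ← conjh hl0]
      convert mul_mem (mul_mem b2 e) (inv_mem b2) using 1; group
    rcases hp with rfl | rfl
    · have h2 : (2 : K) = 0 := CharTwo.two_eq_zero
      obtain ⟨t, e⟩ := k2 _ (a3 _ (hR _ _ _ m4)) (by simpa using hs0)
      have e1 := (k0 _ _ _).mp (e _ _ _ m6)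
      have e2 : X 6 (s ^ 2)⁻¹ ∈ M := by
        rw [q6]; convert e1 using 1
        refine q_congr ?_ ?_ ?_ <;> simp [h2, CharTwo.neg_eq]
      obtain ⟨ε, e3, e4⟩ := n_conj (K := K) (i := 1) (s := 6) (s' := 5) (by decide) (by decide) (by decide)
      have e5 := nU_mem (M := M) (fun r hr => hM r hr 1 F.one_mem) (r := chevB2.simple 1) (by decide)
      have e6 := mul_mem (mul_mem e5 e2) (inv_mem e5)
      rw [e4] at e6
      have e7 := xU_unit_mem e3 e6
      have e8 := hM 4 (by decide) 1 F.one_mem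
      have e9 := mul_mem (mul_mem (mul_mem (mul_mem e7 e8) (inv_mem e7)) (inv_mem e8)) e2
      rw [q4, conj5, q_inv, q_mul, q6, q_mul] at e9
      have e10 : ((s ^ 2)⁻¹) ^ 2 ∈ F := hF _ (by
        rw [q7]; convert e9 using 1
        exact q_congr (by ring) (by ring) (by linear_combination ((s ^ 2)⁻¹) ^ 2 * h2))
      have e11 := hFp _ (F.inv_mem e10)
      rw [← inv_pow, inv_inv] at e11
      refine mem_of_sq_eq F (sub_eq_zero.mp (pow_eq_zero_iff (n := 2 ^ 2) (by norm_num) |>.mp ?_))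
      rw [sub_pow_char_pow]; linear_combination e11
    · have h3 : (3 : K) = 0 := by exact_mod_cast CharP.cast_eq_zero K 3
      have e0 : s ∈ F' := by
        convert a3 _ (hR _ _ _ m6) using 1
        linear_combination s * h3
      obtain ⟨t, e⟩ := k2 _ e0 hs0
      obtain ⟨x1, x2, x3⟩ := mem_of_q3 hM hF ((k0 _ _ _).mp (e _ _ _ m4))
      obtain ⟨y1, y2, y3⟩ := mem_of_q3 hM hF ((k0 _ _ _).mp (e _ _ _ m6))
      obtain ⟨z1, z2, z3⟩ := mem_of_q3 hM hF ((k0 _ _ _).mp (e _ _ _ m7))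
      have e1 := F.add_mem (F.sub_mem (F.mul_mem x1 (F.sub_mem (F.mul_mem y2 z3) (F.mul_mem y3 z2)))
        (F.mul_mem x2 (F.sub_mem (F.mul_mem y1 z3) (F.mul_mem y3 z1))))
        (F.mul_mem x3 (F.sub_mem (F.mul_mem y1 z2) (F.mul_mem y2 z1)))
      have e2 : s⁻¹ ^ 3 ∈ F := by convert e1 using 1; ring
      have e3 := hFp _ (F.inv_mem e2)
      rw [← inv_pow, inv_inv] at e3
      refine mem_of_cube_eq F (sub_eq_zero.mp (pow_eq_zero_iff (n := 3) (by norm_num) |>.mp ?_))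
      rw [sub_pow_char]; linear_combination e3
  · have e1 := a _ (hR _ _ _ m4)
    refine mem_of_sq_eq F (sub_eq_zero.mp (pow_eq_zero_iff (n := 2) (by norm_num) |>.mp ?_))
    have h2 : (2 : K) = 0 := CharTwo.two_eq_zero
    rw [sub_pow_char]; linear_combination e1 + (s ^ 2 * s ^ 2 * s * 0 - s ^ 2) * h2
  · have e1 := a _ (hR _ _ _ m6)
    have h3 : (3 : K) = 0 := by exact_mod_cast CharP.cast_eq_zero K 3
    exact mem_of_cube_eq F (by linear_combination e1 + (3 * s ^ 3 - s) * h3)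

theorem ent_mem (p : ℕ) [CharP K p] (hp : p = 2 ∨ p = 3) [Finite M] (hMG : M ≤ chevB2.group K)
    (hM : ∀ r < chevB2.nroots, ∀ t ∈ F, X r t ∈ M) (hF : ∀ t, X 7 t ∈ M → t ∈ F)
    (hFp : ∀ t ∈ F, t ^ p = t) (h0 : 0 < chevB2.nroots) {g : GL chevB2.Idx K} (hg : g ∈ M) :
    ent h0 g ∈ F := by
  by_cases he : ent h0 g = 0
  · exact he ▸ F.zero_mem
  obtain ⟨u, hu, e⟩ := exists_pair rtOKB2 h0 (hMG hg) he
  have h1 := mul_mem (mul_mem hg (hM _ (th_lt h0) 1 F.one_mem)) (inv_mem hg)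
  rw [e, mul_one] at h1
  set γ := ent h0 g
  rw [← stSys_U rtOKB2] at hu
  obtain ⟨s, y, hy, rfl⟩ := (stSys rtOKB2 K).exists_x_mul (rootSys rtOKB2).closed_pos (fun _ h => h)
    ⟨5, by decide⟩ hu
  obtain ⟨a, b, c, rfl⟩ := exists_q (L := [4, 6, 7]) (by simp) ((stSys rtOKB2 K).UU_le_iff.mpr
    (fun r hr t => xU_mem_RR (by
      have h2 := isPosRoot_iff.mp ((rootSys_pos_iff rtOKB2 r).mp hr.1)
      have h3 : (r : ℕ) ≠ 5 := fun e => hr.2 (Fin.ext e)
      change 4 ≤ (r : ℕ) ∧ (r : ℕ) < 8 at h2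
      simp only [List.mem_cons, List.not_mem_nil, or_false]; omega) t) hy)
  have hs := hM 5 (by decide) s (lb p hp hM hF hFp he h1)
  have c40 := comm (r := 4) (s := 0) (by decide) (by decide) (by decide) (by decide) a γ
  have h2 : X 6 b * X 7 c * X 0 γ * (X 6 b * X 7 c)⁻¹ ∈ M := by
    have := mul_mem (mul_mem (inv_mem hs) h1) hs
    convert this using 1
    rw [q, ← c46, mul_assoc (X 6 b) (X 4 a), ← c47]
    change _ = (X 5 s)⁻¹ * (X 5 s * (X 6 b * (X 7 c * X 4 a)) * X 0 γ *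
      (X 5 s * (X 6 b * (X 7 c * X 4 a)))⁻¹) * X 5 s
    conv_lhs => rw [← mul_inv_cancel_right (X 0 γ) (X 4 a), ← c40]
    group
  obtain ⟨ε, e3, e4⟩ := n_conj (K := K) (i := 1) (s := 6) (s' := 5) (by decide) (by decide) (by decide)
  obtain ⟨ε', -, e4'⟩ := n_conj (K := K) (i := 1) (s := 7) (s' := 7) (by decide) (by decide) (by decide)
  obtain ⟨ε'', e3'', e4''⟩ := n_conj (K := K) (i := 1) (s := 0) (s' := 0) (by decide) (by decide) (by decide)
  have e5 := nU_mem (M := M) (fun r hr => hM r hr 1 F.one_mem) (r := chevB2.simple 1) (by decide)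
  have hu1 : ∀ e : ℤ, e * e = 1 → (e : K) ≠ 0 := fun e he h => by
    have : (e : K) * e = 1 := by exact_mod_cast congrArg (Int.cast : ℤ → K) he
    simp [h] at this
  have hb : b ∈ F := by
    have := lb p hp hM hF hFp (s := ε * b) (a := 0) (b := 0) (c := ε' * c)
      (mul_ne_zero (hu1 _ e3'') he) (by
        rw [mem_cj, ← q7, ← e4, ← e4', ← e4'']
        convert mul_mem (mul_mem e5 h2) (inv_mem e5) using 1; group)
    have h3 := F.mul_mem (F.inv_mem (intCast_mem F ε)) this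
    rwa [inv_mul_cancel_left₀ (hu1 _ e3)] at h3
  have h3 : X 7 c * X 0 γ * (X 7 c)⁻¹ ∈ M := by
    have hb' := hM 6 (by decide) b hb
    convert mul_mem (mul_mem (inv_mem hb') h2) hb' using 1; group
  have h4 := hM 1 (by decide) 1 F.one_mem
  have d1 := conj_xU_two (D := chevB2) (r := 1) (s := 7) (k := 5) (k' := 3) (c := -1) (c' := 1)
    (by decide) (by decide) (by decide) (by decide) (1 : K) c
  have d2 := conj_xU_nil (D := chevB2) (r := 1) (s := 0) (by decide) (by decide) (by decide)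
    (by decide) (1 : K) γ
  have d3 := conj_xU_nil (D := chevB2) (r := 3) (s := 0) (by decide) (by decide) (by decide)
    (by decide) (((1 : ℤ) : K) * 1 ^ 2 * c) γ
  have d4 := comm (r := 5) (s := 7) (by decide) (by decide) (by decide) (by decide)
    (((-1 : ℤ) : K) * 1 * c) c
  have hc := lb p hp hM hF hFp (s := ((-1 : ℤ) : K) * 1 * c) (a := 0) (b := 0) (c := c) he (by
    rw [mem_cj, ← q7, d4, ← d3]
    have := mul_mem (mul_mem h4 h3) (inv_mem h4)
    rw [show X 1 1 * (X 7 c * X 0 γ * (X 7 c)⁻¹) * (X 1 1)⁻¹ = (X 1 1 * X 7 c * (X 1 1)⁻¹) *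
      (X 1 1 * X 0 γ * (X 1 1)⁻¹) * (X 1 1 * X 7 c * (X 1 1)⁻¹)⁻¹ by group, d1, d2] at this
    convert this using 1; group)
  have h5 := hM 7 (by decide) c (by simpa using F.neg_mem hc)
  have h6 : X 0 γ ∈ M := by convert mul_mem (mul_mem (inv_mem h5) h3) h5 using 1; group
  have h7 := nU_mem (M := M) (fun r hr => hM r hr 1 F.one_mem) (r := 0) h0
  have h8 := mul_mem (mul_mem h7 h6) (inv_mem h7)
  rw [nU_conj_xU h0 h0 one_ne_zero, refl_self h0, _root_.one_zpow, mul_one] at h8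
  exact hF _ (xU_unit_mem (eta_mul_self h0 h0) h8)

end B2

end CfsgLib.BGL
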