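import Mathlib
import Cfsg.Agent.Lib.BGL.Line
import Cfsg.Agent.Lib.RGD.Simple

/-!
# Certificates for the highest roots
-/

set_option autoImplicit false
set_option Elab.async false

namespace CfsgLib.BGL

open Matrix Cfsg.Lie Cfsg.Lie.ChevalleyDatum CfsgLib.RGD CfsgLib.Chev CfsgLib.Weyl CfsgLib.ChevAut
  CfsgLib.Lang

theorem baseG2 : Base chevG2 9 :=
  ⟨by decide, by decide, by decide +kernel, Or.inr (by decide +kernel), Or.inr ⟨6, by decide, 7, by decide,
    by decide +kernel, by decide, by decide, (8, -1), (10, 1), by decide +kernel, by decide, by decide,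
    by decide, Or.inr ⟨(9, 1), (7, 1), by decide +kernel⟩⟩⟩

theorem baseB2 : Base chevB2 6 :=
  ⟨by decide, by decide, by decide +kernel, Or.inr (by decide +kernel), Or.inr ⟨4, by decide, 5, by decide,
    by decide +kernel, by decide, by decide, (6, -1), (7, -1), by decide +kernel, by decide, by decide,
    by decide, Or.inl (by decide +kernel)⟩⟩

theorem baseF4 : Base chevF4 44 :=
  ⟨by decide, by decide, by decide +kernel, Or.inr (by decide +kernel), Or.inr ⟨24, by decide, 28,
    by decide, by decide +kernel, by decide, by decide +kernel, (29, -1), (32, -1), by decide +kernel,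
    by decide, by decide, by decide, Or.inl (by decide +kernel)⟩⟩

theorem baseD4 : Base chevD4 (th chevD4) :=
  ⟨by decide, by decide, by decide +kernel, Or.inl rfl, Or.inl rfl⟩

theorem baseE6 : Base chevE6 (th chevE6) :=
  ⟨by decide, by decide, by decide +kernel, Or.inl rfl, Or.inl rfl⟩

theorem baseE7 : Base chevE7 (th chevE7) :=
  ⟨by decide, by decide, by decide +kernel, Or.inl rfl, Or.inl rfl⟩

theorem baseE8 : Base chevE8 (th chevE8) :=
  ⟨by decide, by decide, by decide +kernel, Or.inl rfl, Or.inl rfl⟩

theorem lineG2 : Line chevG2 1 8 1 3 (-1) 1 := by constructor <;> decide +kernel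
theorem lineD4 : Line chevD4 1 15 1 (-1) (-1) 1 := by constructor <;> decide +kernel
theorem lineF4 : Line chevF4 3 26 1 1 (-1) 1 := by constructor <;> decide +kernel
theorem lineE6 : Line chevE6 1 47 1 (-1) (-1) 1 := by constructor <;> decide +kernel
theorem lineE7 : Line chevE7 0 94 1 (-1) (-1) 1 := by constructor <;> decide +kernel
theorem lineE8 : Line chevE8 7 122 1 1 (-1) 1 := by constructor <;> decide +kernel

end CfsgLib.BGL
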