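import Mathlib
import Cfsg.Agent.Lib.BGL.B2
import Cfsg.Agent.Lib.BGL.Cert
import Cfsg.Agent.Lib.Lang.Fin

/-!
# Finite subgroups of a Chevalley group containing the group over the prime field
-/

set_option autoImplicit false

namespace CfsgLib.BGL

open Matrix Cfsg.Lie Cfsg.Lie.ChevalleyDatum CfsgLib.RGD CfsgLib.Chev CfsgLib.Weyl CfsgLib.ChevAut
  CfsgLib.Lang

variable {D : ChevalleyDatum} {K : Type*} [Field K]

theorem exists_base (hm : D ∈ [chevG2, chevB2, chevD4, chevF4, chevE6, chevE7, chevE8]) :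
    ∃ σ, Base D σ := by
  simp only [List.mem_cons, List.not_mem_nil, or_false] at hm
  rcases hm with rfl | rfl | rfl | rfl | rfl | rfl | rfl
  exacts [⟨_, baseG2⟩, ⟨_, baseB2⟩, ⟨_, baseD4⟩, ⟨_, baseF4⟩, ⟨_, baseE6⟩, ⟨_, baseE7⟩, ⟨_, baseE8⟩]

theorem exists_line (hm : D ∈ [chevG2, chevB2, chevD4, chevF4, chevE6, chevE7, chevE8]) :
    D = chevB2 ∨ ∃ i η e₁ e₂ e₃ e₄, Line D i η e₁ e₂ e₃ e₄ := by
  simp only [List.mem_cons, List.not_mem_nil, or_false] at hm
  rcases hm with rfl | rfl | rfl | rfl | rfl | rfl | rfl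
  exacts [Or.inr ⟨_, _, _, _, _, _, lineG2⟩, Or.inl rfl, Or.inr ⟨_, _, _, _, _, _, lineD4⟩,
    Or.inr ⟨_, _, _, _, _, _, lineF4⟩, Or.inr ⟨_, _, _, _, _, _, lineE6⟩,
    Or.inr ⟨_, _, _, _, _, _, lineE7⟩, Or.inr ⟨_, _, _, _, _, _, lineE8⟩]

theorem exists_field [Good D] (h : RtOK D) (h0 : 0 < D.nroots) (p : ℕ) [Fact p.Prime] [CharP K p]
    {M : Subgroup (GL D.Idx K)} [Finite M] (hM : ∀ r < D.nroots, xU D K r 1 ∈ M) :
    ∃ F : Subfield K, Finite F ∧ ∀ c, xU D K (th D) c ∈ M ↔ c ∈ F := by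
  have k : ∀ n : ℕ, (n = 2 ∨ n = 3) → p = n → (∀ c, xU D K (th D) c ∈ M → c ^ n = c) →
      ∃ F : Subfield K, Finite F ∧ ∀ c, xU D K (th D) c ∈ M ↔ c ∈ F := by
    rintro n hn rfl hc
    have : Finite (ZMod.castHom (dvd_refl p) K).fieldRange :=
      Finite.of_surjective _ (ZMod.castHom (dvd_refl p) K).rangeRestrict_surjective
    refine ⟨(ZMod.castHom (dvd_refl p) K).fieldRange, this, fun c => ⟨fun e => ?_, ?_⟩⟩
    · rcases hn with rfl | rfl
      · exact mem_of_sq_eq _ (hc c e)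
      · exact mem_of_cube_eq _ (hc c e)
    · rintro ⟨a, rfl⟩
      obtain ⟨n, rfl⟩ := ZMod.natCast_zmod_surjective a
      rw [map_natCast]
      induction n with
      | zero => rw [Nat.cast_zero, xU_zero]; exact one_mem _
      | succ n ih => rw [Nat.cast_succ, xU_add]; exact mul_mem ih (hM _ (th_lt h0))
  rcases pair_cases h h0 p one_ne_zero (hM 0 h0) (hM _ (th_lt h0)) with ⟨F, a1, -, a3⟩ | ⟨a, b⟩ | ⟨a, -, b⟩
  · exact ⟨F, a1, a3⟩
  · exact k 2 (Or.inl rfl) a b
  · exact k 3 (Or.inr rfl) a b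

theorem exists_frob_sub (p : ℕ) [Fact p.Prime] [CharP K p] (F : Subfield K) [Finite F] :
    ∃ φ : K →+* K, ∀ x, φ x = x ^ Nat.card F := by
  have := Fintype.ofFinite F
  obtain ⟨n, -, hn⟩ := FiniteField.card F p
  exact ⟨iterateFrobenius K p n, fun x => by rw [iterateFrobenius_def, Nat.card_eq_fintype_card, hn]⟩

/-- A finite subgroup of a Chevalley group containing all `x_r(1)` lies between the Chevalley group over a
finite subfield and the matrices over that subfield. -/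
theorem overgroup [Good D] (hm : D ∈ [chevG2, chevB2, chevD4, chevF4, chevE6, chevE7, chevE8]) (p : ℕ)
    [Fact p.Prime] [CharP K p] {M : Subgroup (GL D.Idx K)} [Finite M] (hMG : M ≤ D.group K)
    (hM : ∀ r < D.nroots, xU D K r 1 ∈ M) :
    ∃ F : Subfield K, Finite F ∧ (∀ c, xU D K (th D) c ∈ M → c ∈ F) ∧
      (∀ r, ∀ c ∈ F, xU D K r c ∈ M) ∧
      ∀ g ∈ M, ∀ i j, (g : Matrix D.Idx D.Idx K) i j ^ Nat.card F = (g : Matrix D.Idx D.Idx K) i j := by
  have h := rtOK_of_mem hm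
  obtain ⟨σ, hb⟩ := exists_base hm
  obtain ⟨F, hF, h1⟩ := exists_field h hb.pos p hM
  have h2 : ∀ r < D.nroots, ∀ c ∈ F, xU D K r c ∈ M := by
    intro r hr
    by_cases hs : ∃ s ∈ F, s ≠ 0 ∧ s ≠ -1
    · exact hb.reach h hM (fun k hk y hy => mul_mem (mul_mem hk hy) (inv_mem hk)) hs
        (fun t ht => (h1 t).mpr ht) hr
    · push Not at hs
      intro c hc
      by_cases e : c = 0
      · rw [e, xU_zero]; exact one_mem _
      · rw [hs c hc e, ← xU_inv]; exact inv_mem (hM r hr)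
  have h3 : ∀ g ∈ M, ent hb.pos g ∈ F := by
    intro g hg
    by_cases he : ent hb.pos g = 0
    · exact he ▸ F.zero_mem
    obtain ⟨u, hu, e⟩ := exists_pair h hb.pos (hMG hg) he
    have h4 : ∀ t, xU D K (th D) t ∈ cj M u ↔ t ∈ F := fun t => by
      rw [mem_cj, U_comm_th h hb.pos hu, h1]
    rcases pair_cases h hb.pos p (M := cj M u) he (by
      rw [mem_cj, ← mul_one (ent _ g), ← e]
      exact mul_mem (mul_mem hg (hM _ (th_lt hb.pos))) (inv_mem hg)) ((h4 1).mpr F.one_mem) with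
      ⟨F', -, a2, a3⟩ | ⟨rfl, a⟩ | ⟨rfl, -, a⟩
    · exact (h4 _).mp ((a3 _).mpr a2)
    · rcases exists_line hm with rfl | ⟨i, η, e₁, e₂, e₃, e₄, hl⟩
      · exact B2.ent_mem 2 (Or.inl rfl) hMG h2 (fun t => (h1 t).mp) (fun t ht => a t ((h4 t).mpr ht)) _ hg
      · exact hl.two h hMG hM h1 hg
    · rcases exists_line hm with rfl | ⟨i, η, e₁, e₂, e₃, e₄, hl⟩
      · exact B2.ent_mem 3 (Or.inr rfl) hMG h2 (fun t => (h1 t).mp) (fun t ht => a t ((h4 t).mpr ht)) _ hg
      · exact hl.three h hMG hM h1 (fun t ht => a t ((h4 t).mpr ht)) hg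
  refine ⟨F, hF, fun c => (h1 c).mp, fun r c hc => ?_, fun g hg i j => ?_⟩
  · by_cases hr : r < D.nroots
    · exact h2 r hr c hc
    · rw [xU_of_ge (not_lt.mp hr)]; exact one_mem _
  have := Fintype.ofFinite F
  obtain ⟨φ, hφ⟩ := exists_frob_sub p F
  have e := hb.glm_eq h hMG hM φ (fun g hg => by
    rw [hφ, Nat.card_eq_fintype_card]
    exact congrArg Subtype.val (FiniteField.pow_card (⟨_, h3 g hg⟩ : F))) hg
  rw [← hφ]
  have e' : (glm D φ g : Matrix D.Idx D.Idx K) = g := by rw [e]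
  exact congrFun (congrFun e' i) j

theorem exists_card_pow {E L : Type*} [Field E] [Field L] [Finite L] (f : E →+* L) :
    ∃ r, 1 ≤ r ∧ Nat.card L = Nat.card E ^ r := by
  let := f.toAlgebra
  have : Module.Finite E L := Module.Finite.of_finite
  exact ⟨Module.finrank E L, Module.finrank_pos, Module.natCard_eq_pow_finrank⟩

theorem exists_card_sub (p : ℕ) [Fact p.Prime] {a : ℕ} (ha : 1 ≤ a) (f : GaloisField p a →+* K)
    (F : Subfield K) [Finite F] (h : ∀ t : K, t ^ p ^ a = t → t ∈ F) :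
    ∃ r, 1 ≤ r ∧ Nat.card F = (p ^ a) ^ r := by
  have := Fintype.ofFinite (GaloisField p a)
  have hc := GaloisField.card p a (by omega)
  rw [← hc]
  refine exists_card_pow (f.codRestrict F fun x => h _ ?_)
  rw [← map_pow, ← hc, Nat.card_eq_fintype_card, FiniteField.pow_card]

theorem mem_of_pow_card (F : Subfield K) [Finite F] {t : K} (ht : t ^ Nat.card F = t) : t ∈ F := by
  have := Fintype.ofFinite F
  rw [Nat.card_eq_fintype_card] at ht
  obtain ⟨y, rfl⟩ := exists_eq_of_pow_card F.subtype ht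
  exact y.2

theorem exists_galois_hom [Fintype K] (p : ℕ) [Fact p.Prime] [CharP K p] {a r : ℕ} (ha : 1 ≤ a)
    (hK : Fintype.card K = (p ^ a) ^ r) : Nonempty (GaloisField p a →+* K) := by
  let := ZMod.algebra K p
  have h := FiniteField.pow_finrank_eq_card p K
  rw [hK, ← pow_mul] at h
  obtain ⟨f⟩ := FiniteField.nonempty_algHom_of_finrank_dvd (F := ZMod p) (K := GaloisField p a) (L := K) (by
    rw [GaloisField.finrank p (by omega), Nat.pow_right_injective (Fact.out : p.Prime).two_le h]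
    exact dvd_mul_right _ _)
  exact ⟨f⟩

theorem exists_pow_ne [Fintype K] {q r : ℕ} (hq : 1 < q) (hr : 1 < r) (hK : Fintype.card K = q ^ r) :
    ∃ t : K, t ^ q ≠ t := by
  classical
  by_contra hc
  push Not at hc
  have h1 := Polynomial.card_roots' (Polynomial.X ^ q - Polynomial.X : Polynomial K)
  rw [FiniteField.X_pow_card_sub_X_natDegree_eq K hq] at h1
  have h2 : (Finset.univ : Finset K).val ≤ (Polynomial.X ^ q - Polynomial.X : Polynomial K).roots :=
    (Multiset.le_iff_subset Finset.univ.nodup).mpr fun t _ => by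
      rw [Polynomial.mem_roots (FiniteField.X_pow_card_sub_X_ne_zero K hq)]; simp [hc t]
  have h3 := (Multiset.card_le_card h2).trans h1
  rw [Finset.card_val, Finset.card_univ, hK] at h3
  exact absurd (Nat.pow_lt_pow_right hq hr) (by simpa using h3)

end CfsgLib.BGL
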