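import Mathlib
import Cfsg.Agent.Lib.BGL.Main
import Cfsg.Agent.Lib.TwMult.Chev

/-!
# Overgroups of the subfield subgroup of a twisted group: the long root subgroups
-/

set_option autoImplicit false

namespace CfsgLib.BGL

open Matrix Cfsg.Lie Cfsg.Lie.ChevalleyDatum CfsgLib.RGD CfsgLib.Chev CfsgLib.Weyl CfsgLib.ChevAut
  CfsgLib.Lang CfsgLib.Twist CfsgLib.TwMult

variable {D : ChevalleyDatum} {K : Type*} [Field K]

/-- `s` is a root such that `θ + s` is a root -/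
def Spec (D : ChevalleyDatum) (i s : ℕ) : Prop :=
  let c := (D.commTerms (th D) s).headD (0, 0, 0, 0)
  D.commTerms (th D) s = [(c.1, c.2.1, 1, 1)] ∧ c.2.1 * c.2.1 = 1 ∧ s ≠ 0 ∧ D.nroots ≤ 2 * c.1 ∧
    c.1 < D.nroots ∧ refl D s c.1 = th D ∧ 1 ≤ rt D (refl D s s) i

instance (D : ChevalleyDatum) (i s : ℕ) : Decidable (Spec D i s) := by unfold Spec; infer_instance

/-- the certificate for the highest root -/
structure Top (D : ChevalleyDatum) (ρ : ℕ → ℕ) (ε : ℕ → ℤ) (i : ℕ) : Prop where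
  pos : 0 < D.nroots
  hi : i < D.rank
  fx : ρ (D.simple i) = D.simple i ∧ ρ (th D) = th D
  rtρ : ∀ r < D.nroots, rt D (ρ r) i = rt D r i ∧ (ρ r = r → ε r = 1)
  par : ∀ r < D.nroots, if 0 ≤ rt D r i then D.commTerms r (th D) = [] ∧ th D ≠ D.neg r else
    D.commTerms r 0 = [] ∧ 0 ≠ D.neg r ∧ D.nroots ≤ 2 * refl D (th D) r
  cases : ∀ s < D.nroots, ρ s = s → D.nroots ≤ 2 * s ∨ s = 0 ∨ D.commTerms (th D) s = [] ∨ Spec D i s
  opp : Spec D i (D.reflectRoot i 0)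

theorem exists_simple_mul {ι κ B : Type} [Fintype κ] [DecidableEq κ] [Finite ι] {Φ : RootSys ι κ} {G : Type*}
    [Group G] {S : StSys Φ K G} (T : Tw S B) (hS : Sharp S) {j : κ} (hj : T.ρ (Φ.simple j) = Φ.simple j) {u : G}
    (hu : u ∈ S.U) (hf : u ∈ T.Fix) : ∃ d, S.x (Φ.simple j) d ∈ T.Fix ∧
      ∃ a ∈ S.UU ({r | Φ.Pos r} \ {Φ.simple j}) ⊓ T.Fix, u = S.x (Φ.simple j) d * a := by
  have e : {Φ.simple j} ∪ {r | Φ.Pos r} \ {Φ.simple j} = {r | Φ.Pos r} := by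
    rw [Set.singleton_union, Set.insert_sdiff_singleton, Set.insert_eq_of_mem (Φ.pos_simple j)]
  obtain ⟨c, hc, a, ha, rfl⟩ := T.exists_mul_fix hS (Ψ₁ := {Φ.simple j}) (Ψ₂ := {r | Φ.Pos r} \ {Φ.simple j})
    (by rw [e]; exact fun _ h => h) (by rw [e]; exact Φ.closed_pos)
    (by rintro _ rfl _ rfl k hk; exact absurd hk (Φ.not_isSum_self _ _))
    (StSys.closed_diff_simple Φ.closed_pos (fun _ h => h) j) (by simp) (by rintro _ rfl; exact hj)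
    (fun r hr => ⟨T.pos_ρ hr.1, fun e => hr.2 (T.ρ.injective (e.trans hj.symm))⟩) (by rw [e]; exact hu) hf
  obtain ⟨d, rfl⟩ := mem_UU_singleton.1 hc.1
  exact ⟨d, hc.2, a, ha, rfl⟩

variable [Good D] {h : RtOK D} {B : Type}

theorem nU_acts (h : RtOK D) {s : ℕ} (hs : s < D.nroots) : ∃ w ∈ (rootSys h).W,
    (stSys h K).Acts (nU D K s 1) w ∧ ∀ r, (w r : ℕ) = refl D s r := by
  obtain ⟨w, hw, ha⟩ := (stSys h K).exists_acts_of_mem_N ((stSys h K).n_one_mem_N ⟨s, hs⟩)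
  refine ⟨w, hw, ha, fun r => ?_⟩
  obtain ⟨l, hl, e⟩ := ha.exists_conj_x r
  exact congrArg Fin.val ((stSys_nondeg h).root_eq_of_x_eq (s := ⟨_, refl_lt hs r.2⟩) (by simpa using hl)
    ((e 1).symm.trans (nU_conj_xU hs r.2 one_ne_zero 1)))

theorem glm_mem_UU (φ : K →+* K) {Ψ : Set (Fin D.nroots)} {u : GL D.Idx K} (hu : u ∈ (stSys h K).UU Ψ) :
    glm D φ u ∈ (stSys h K).UU Ψ :=
  ((stSys h K).UU_le_iff (K := ((stSys h K).UU Ψ).comap (glm D φ))).2 (fun r hr t => by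
    rw [Subgroup.mem_comap, stSys_x, glm_xU]; exact (stSys h K).x_mem_UU hr _) hu

/-- the elements of the twisted group over the fixed field -/
def MM (T : Tw (stSys h K) B) (φ : K →+* K) : Subgroup (GL D.Idx K) :=
  T.Fix ⊓ (glm D φ).eqLocus (MonoidHom.id _)

theorem mem_MM {T : Tw (stSys h K) B} {φ : K →+* K} {g : GL D.Idx K} :
    g ∈ MM T φ ↔ g ∈ T.Fix ∧ glm D φ g = g := Iff.rfl

/-- a twisting given on the root elements -/
structure TwD (T : Tw (stSys h K) B) (φ : K →+* K) (ρ : ℕ → ℕ) (ε : ℕ → ℤ) (i : ℕ) : Prop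
    extends Top D ρ ε i where
  σx : ∀ r < D.nroots, ∀ t, T.σ (xU D K r t) = xU D K (ρ r) (ε r * φ t)
  ρe : ∀ r, (T.ρ r : ℕ) = ρ r

/-- `z` parametrizes a conjugate of a long root subgroup in position `s` -/
def Fam (T : Tw (stSys h K) B) (φ : K →+* K) (z : K → GL D.Idx K) (s : ℕ) : Prop :=
  ∃ u ∈ (stSys h K).U ⊓ T.Fix, ∃ l : K, l ≠ 0 ∧ φ l = l ∧ ∀ t, z t = u * xU D K s (l * t) * u⁻¹

namespace TwD

variable {T : Tw (stSys h K) B} {φ : K →+* K} {ρ : ℕ → ℕ} {ε : ℕ → ℤ} {i : ℕ} (hT : TwD T φ ρ ε i)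
include hT

theorem x_fix {r : ℕ} (hr : r < D.nroots) (h1 : ρ r = r) {t : K} : xU D K r t ∈ T.Fix ↔ φ t = t :=
  xU_mem_Fix hT.σx hr h1 ((hT.rtρ r hr).2 h1)

theorem x_mem {r : ℕ} (hr : r < D.nroots) (h1 : ρ r = r) {t : K} (ht : φ t = t) : xU D K r t ∈ MM T φ :=
  ⟨(hT.x_fix hr h1).2 ht, by change glm D φ _ = _; rw [glm_xU, ht]; rfl⟩

theorem ρ_neg {r : ℕ} (hr : r < D.nroots) : ρ (D.neg r) = D.neg (ρ r) := by
  have := congrArg Fin.val (T.ρ_neg ⟨r, hr⟩)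
  rwa [hT.ρe, rootSys_neg, rootSys_neg, hT.ρe] at this

theorem nU_mem {r : ℕ} (hr : r < D.nroots) (h1 : ρ r = r) : nU D K r 1 ∈ MM T φ :=
  mul_mem (mul_mem (hT.x_mem hr h1 (map_one φ)) (hT.x_mem (neg_lt hr) (by rw [hT.ρ_neg hr, h1]) (by simp)))
    (hT.x_mem hr h1 (map_one φ))

theorem conj_fix {n : GL D.Idx K} (hn : n ∈ (stSys h K).N) (hf : n ∈ T.Fix) {w : Equiv.Perm (Fin D.nroots)}
    (hw : w ∈ (rootSys h).W) (ha : (stSys h K).Acts n w) {r : Fin D.nroots} (hr : ρ r = r) :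
    ρ (w r) = w r ∧ ∃ l : K, l ≠ 0 ∧ φ l = l ∧ ∀ t, n * xU D K r t * n⁻¹ = xU D K (w r) (l * t) := by
  have h1 := T.ρ_apply_of_mem_W1 (T.mem_W1_of_acts (sharp_stSys h K) hn hf hw ha) r
  rw [show T.ρ r = r from Fin.ext ((hT.ρe r).trans hr)] at h1
  have h2 : ρ (w r) = w r := by rw [← hT.ρe, h1]
  obtain ⟨l, hl, e⟩ := ha.exists_conj_x r
  refine ⟨h2, l, hl, (hT.x_fix (w r).2 h2).1 ?_, e⟩
  have := mul_mem (mul_mem hf ((hT.x_fix r.2 hr).2 (map_one φ))) (inv_mem hf)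
  rwa [show n * xU D K r 1 * n⁻¹ = _ from e 1, mul_one] at this

theorem exists_fam {g : GL D.Idx K} (hg : g ∈ T.Fix) :
    ∃ s < D.nroots, ρ s = s ∧ Fam T φ (fun t => g * xU D K (th D) t * g⁻¹) s := by
  obtain ⟨u, hu, n, hn, w, hw, ha, u', hu', rfl⟩ := T.bruhat_fix (sharp_stSys h K) hg
  obtain ⟨h1, l, h2, h3, h4⟩ := hT.conj_fix hn.1 hn.2 hw.1 ha (r := ⟨th D, th_lt hT.pos⟩) hT.fx.2
  refine ⟨_, (w _).2, h1, u, hu, l, h2, h3, fun t => ?_⟩
  rw [← h4]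
  conv_rhs => rw [← U_comm_th h hT.pos (stSys_U h (F := K) ▸ UU_Inv_le_U _ _ hu'.1) t]
  group

theorem eq_one_of_comm {v : GL D.Idx K} (hv : v ∈ (stSys h K).UU {r | rt D r i < 0}) {c : K} (hc : c ≠ 0)
    (e : Commute v (xU D K (th D) c)) : v = 1 := by
  have h1 : ∀ t, Commute v (xU D K 0 t) := fun t => Subgroup.mem_centralizer_singleton_iff.1
    (((stSys h K).UU_le_iff (K := Subgroup.centralizer {xU D K 0 t})).2 (fun r hr u => by
      have := hT.par r r.2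
      rw [if_neg (not_le.2 hr)] at this
      rw [Subgroup.mem_centralizer_singleton_iff, ← mul_inv_eq_iff_eq_mul]
      exact conj_xU_nil r.2 hT.pos this.2.1 this.1 u t) hv)
  have h2 : Commute v (nU D K (th D) c) := by
    rw [nU, neg_th hT.pos]; exact (e.mul_right (h1 _)).mul_right e
  have h3 : nU D K (th D) c * v * (nU D K (th D) c)⁻¹ ∈ (stSys h K).U :=
    ((stSys h K).UU_le_iff (K := (stSys h K).U.comap (MulAut.conj (nU D K (th D) c)).toMonoidHom)).2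
      (fun r hr u => by
        have := hT.par r r.2
        rw [if_neg (not_le.2 hr)] at this
        change nU D K (th D) c * xU D K r u * (nU D K (th D) c)⁻¹ ∈ (stSys h K).U
        rw [nU_conj_xU (th_lt hT.pos) r.2 hc]
        exact (stSys h K).x_mem_U (r := ⟨_, refl_lt (th_lt hT.pos) r.2⟩) ((pos_iff_le _).2 this.2.2) _) hv
  rw [← h2.eq, mul_inv_cancel_right] at h3
  exact (stSys_nondeg h).eq_one_of_mem_B_of_mem_V ((stSys h K).U_le_B h3) ((stSys h K).UU_mono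
    (fun r hr => (rootSys h).neg_of_coeff_neg (j := ⟨i, hT.hi⟩) hr) hv)

variable {H : Subgroup (GL D.Idx K)} (h1 : MM T φ ≤ H) (hU : ∀ u ∈ H, u ∈ (stSys h K).U → u ∈ MM T φ)
include h1 hU

theorem special {z : K → GL D.Idx K} (hz : ∀ t, φ t = t → z t ∈ H) {s : ℕ} (hs : s < D.nroots)
    (hρ : ρ s = s) (hf : Fam T φ z s) (hc : Spec D i s) {t : K} (ht : φ t = t) : z t ∈ MM T φ := by
  obtain ⟨u, hu, l, hl, hl', e⟩ := hf
  obtain ⟨c1, c2, c3, c4, c5, c6, c7⟩ := hc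
  set β := ((D.commTerms (th D) s).headD (0, 0, 0, 0)).1
  set a := ((D.commTerms (th D) s).headD (0, 0, 0, 0)).2.1
  have hS := sharp_stSys h K
  have hn := hT.nU_mem hs hρ
  obtain ⟨w, hw, ha, hw'⟩ := nU_acts (K := K) h hs
  set n := nU D K s 1
  have hw1 := T.mem_W1_of_acts hS ((stSys h K).n_one_mem_N ⟨s, hs⟩) hn.1 hw ha
  have k0 : ∀ r, rt D (w (T.ρ r)) i = rt D (w r) i := fun r => by
    rw [← T.ρ_apply_of_mem_W1 hw1, hT.ρe, (hT.rtρ _ (w r).2).1]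
  have k1 : ∀ r s k, (rootSys h).IsSum r s k → ∃ a b : ℕ, 0 < a ∧ 0 < b ∧
      rt D k i = a * rt D r i + b * rt D s i := fun r s k ⟨a, b, ha, hb, e⟩ => ⟨a, b, ha, hb, e ⟨i, hT.hi⟩⟩
  obtain ⟨u₁, hu₁, u₂, hu₂, rfl⟩ := T.exists_mul_fix hS
    (Ψ₁ := {r | (rootSys h).Pos r ∧ rt D (w r) i < 0}) (Ψ₂ := {r | (rootSys h).Pos r ∧ 0 ≤ rt D (w r) i})
    (by rintro r (hr | hr) <;> exact hr.1)
    (fun r hr s hs k hk => by
      have : (rootSys h).Pos k := hk.pos (by rcases hr with hr | hr <;> exact hr.1)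
        (by rcases hs with hs | hs <;> exact hs.1)
      exact (lt_or_ge _ _).imp (⟨this, ·⟩) (⟨this, ·⟩))
    (fun r hr s hs k hk => ⟨hk.pos hr.1 hs.1, by
      obtain ⟨a, b, ha, hb, e⟩ := k1 _ _ _ (hk.apply hw)
      rw [e]; nlinarith [hr.2, hs.2]⟩)
    (fun r hr s hs k hk => ⟨hk.pos hr.1 hs.1, by
      obtain ⟨a, b, ha, hb, e⟩ := k1 _ _ _ (hk.apply hw)
      rw [e]; have := hr.2; have := hs.2; positivity⟩)
    (Set.disjoint_left.2 fun r a b => not_le.2 a.2 b.2)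
    (fun r hr => ⟨T.pos_ρ hr.1, by rw [k0]; exact hr.2⟩) (fun r hr => ⟨T.pos_ρ hr.1, by rw [k0]; exact hr.2⟩)
    ((stSys h K).UU_mono (fun r hr => (lt_or_ge _ _).imp (⟨hr, ·⟩) (⟨hr, ·⟩)) hu.1) hu.2
  have p1 := ha.conj_mem_UU (Ψ' := {r | rt D r i < 0}) (fun r hr => hr.2) hu₁.1
  have p2 := ha.conj_mem_UU (Ψ' := {r | 0 ≤ rt D r i}) (fun r hr => hr.2) hu₂.1
  have q1 : (u₁ * u₂) * xU D K β (a * 1 * (l * 1)) * (u₁ * u₂)⁻¹ ∈ MM T φ := by
    refine hU _ ?_ (mul_mem (mul_mem hu.1 ((stSys h K).x_mem_U (r := ⟨β, c5⟩) ((pos_iff_le _).2 c4) _))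
      (inv_mem hu.1))
    have x1 := h1 (hT.x_mem (th_lt hT.pos) hT.fx.2 (map_one φ))
    have := mul_mem (inv_mem (hz 1 (map_one φ))) (mul_mem (mul_mem x1 (hz 1 (map_one φ))) (inv_mem x1))
    rw [e, ← U_comm_th h hT.pos (stSys_U h (F := K) ▸ hu.1) 1] at this
    rw [← inv_mul_eq_iff_eq_mul.2 (conj_xU_one (th_lt hT.pos) hs (by rwa [neg_th hT.pos]) c1 1 (l * 1))]
    convert this using 1; group
  obtain ⟨l', hl1, e1⟩ := ha.exists_conj_x ⟨β, c5⟩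
  have e2 : ∀ c, n * xU D K β c * n⁻¹ = xU D K (th D) (l' * c) := fun c => by
    rw [← c6, ← hw' ⟨β, c5⟩]; exact e1 c
  have e3 : ∀ c, (n * u₂ * n⁻¹) * xU D K (th D) c * (n * u₂ * n⁻¹)⁻¹ = xU D K (th D) c := fun c => by
    rw [mul_inv_eq_iff_eq_mul]
    exact Subgroup.mem_centralizer_singleton_iff.1
      (((stSys h K).UU_le_iff (K := Subgroup.centralizer {xU D K (th D) c})).2 (fun r hr u => by
      have := hT.par r r.2
      rw [if_pos (show 0 ≤ rt D r i from hr)] at this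
      rw [Subgroup.mem_centralizer_singleton_iff, ← mul_inv_eq_iff_eq_mul]
      exact conj_xU_nil r.2 (th_lt hT.pos) this.2 this.1 u c) p2)
  set c := l' * (a * 1 * (l * 1))
  have hc : c ≠ 0 := mul_ne_zero hl1 (by
    have : (a : K) ≠ 0 := left_ne_zero_of_mul_eq_one (b := (a : K)) (by exact_mod_cast congrArg (Int.cast : ℤ → K) c2)
    simp [this, hl])
  have q2 : (n * u₁ * n⁻¹) * xU D K (th D) c * (n * u₁ * n⁻¹)⁻¹ ∈ MM T φ := by
    rw [← e3, ← e2]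
    convert mul_mem (mul_mem hn q1) (inv_mem hn) using 1; group
  have q3 : n * u₁ * n⁻¹ ∈ T.Fix := mul_mem (mul_mem hn.1 hu₁.2) (inv_mem hn.1)
  set v := n * u₁ * n⁻¹
  have hc' : φ c = c := (hT.x_fix (th_lt hT.pos) hT.fx.2).1 (by
    convert mul_mem (mul_mem (inv_mem q3) q2.1) q3 using 1; group)
  have q4 : v ∈ MM T φ := ⟨q3, (inv_mul_eq_one.1 (hT.eq_one_of_comm (mul_mem (inv_mem p1) (glm_mem_UU φ p1))
    hc (by
      have := (mem_MM.1 q2).2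
      rw [map_mul, map_mul, map_inv, glm_xU, hc'] at this
      change _ * _ = _ * _
      rw [mul_assoc, mul_inv_eq_iff_eq_mul.1 this]; group))).symm⟩
  obtain ⟨l'', -, e4⟩ := ha.exists_conj_x ⟨s, hs⟩
  have q5 := (stSys h K).conj_mem_UU (Ψ' := {r | 1 ≤ rt D r i}) (fun r hr s hs => ⟨by
      rintro rfl
      have := (rootSys h).rt_neg r ⟨i, hT.hi⟩
      simp only [Set.mem_ofPred_eq, rootSys_rt] at hr hs this
      omega, fun k hk => by
      obtain ⟨a, b, ha, hb, e⟩ := k1 _ _ _ hk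
      simp only [Set.mem_ofPred_eq] at hr hs ⊢
      rw [e]; nlinarith⟩) p2 ((stSys h K).x_mem_UU (r := w ⟨s, hs⟩) (by rwa [Set.mem_ofPred_eq, hw']) (l'' * (l * t)))
  have e5 : z t = (n⁻¹ * v) * ((n * u₂ * n⁻¹) * (stSys h K).x (w ⟨s, hs⟩) (l'' * (l * t)) * (n * u₂ * n⁻¹)⁻¹) *
      (n⁻¹ * v)⁻¹ := by
    rw [← e4, e, stSys_x]; simp only [v]; group
  have q6 := mul_mem (inv_mem hn) q4
  have q7 := hU _ (by
    have := mul_mem (mul_mem (inv_mem (h1 q6)) (hz t ht)) (h1 q6)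
    rw [e5] at this
    convert this using 1; group) ((stSys h K).UU_le_U (fun r hr =>
      (rootSys h).pos_of_coeff_pos (j := ⟨i, hT.hi⟩) hr) q5)
  rw [e5]
  exact mul_mem (mul_mem q6 q7) (inv_mem q6)

theorem opposite {z : K → GL D.Idx K} (hz : ∀ t, φ t = t → z t ∈ H) (hf : Fam T φ z 0) {t : K}
    (ht : φ t = t) : z t ∈ MM T φ := by
  obtain ⟨u, hu, l, hl, hl', e⟩ := hf
  have hS := sharp_stSys h K
  let j : Fin D.rank := ⟨i, hT.hi⟩
  have hj : T.ρ ((rootSys h).simple j) = (rootSys h).simple j := Fin.ext ((hT.ρe _).trans hT.fx.1)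
  obtain ⟨d, hc, a, ha, rfl⟩ := exists_simple_mul T hS hj hu.1 hu.2
  have hc' := hT.x_mem (simple_lt hT.hi) hT.fx.1 ((hT.x_fix (simple_lt hT.hi) hT.fx.1).1 hc)
  have hn := hT.nU_mem (simple_lt hT.hi) hT.fx.1
  have p0 : ρ 0 = 0 := by rw [← neg_th hT.pos, hT.ρ_neg (th_lt hT.pos), hT.fx.2]
  obtain ⟨p1, l', p2, p3, p4⟩ := hT.conj_fix ((stSys h K).n_one_mem_N ((rootSys h).simple j)) hn.1
    ((rootSys h).s_mem_W j) ((stSys h K).acts_n_simple j one_ne_zero) (r := ⟨0, hT.pos⟩) p0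
  have hk := mul_mem hn (inv_mem hc')
  have p5 : nU D K (D.simple i) 1 * a * (nU D K (D.simple i) 1)⁻¹ ∈ (stSys h K).U :=
    (stSys h K).UU_mono Set.sdiff_subset ((stSys h K).n_conj_mem_U_diff j one_ne_zero ha.1)
  have p6 : ∀ t, nU D K (D.simple i) 1 * xU D K 0 t * (nU D K (D.simple i) 1)⁻¹ =
    xU D K (D.reflectRoot i 0) (l' * t) := p4
  have e' : ∀ t, z t = xU D K (D.simple i) d * a * xU D K 0 (l * t) * (xU D K (D.simple i) d * a)⁻¹ := e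
  have p7 : ρ (D.reflectRoot i 0) = D.reflectRoot i 0 := p1
  clear p1 p4 e hc
  generalize nU D K (D.simple i) 1 = n at *
  generalize xU D K (D.simple i) d = x at *
  have := hT.special h1 hU (z := fun t => n * x⁻¹ * z t * (n * x⁻¹)⁻¹)
    (fun t ht => mul_mem (mul_mem (h1 hk) (hz t ht)) (inv_mem (h1 hk))) (reflectRoot_lt hT.hi hT.pos) p7
    ⟨_, ⟨p5, T.Fix.mul_mem (T.Fix.mul_mem hn.1 ha.2) (T.Fix.inv_mem hn.1)⟩, l' * l, mul_ne_zero p2 hl, by rw [map_mul, p3, hl'],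
      fun t => by beta_reduce; rw [mul_assoc l', ← p6, e']; group⟩ hT.opp ht
  convert mul_mem (mul_mem (inv_mem hk) this) hk using 1
  group

theorem le_MM (h2 : H ≤ T.Fix) (hC : ∀ y ∈ D.group K, (∀ k ∈ MM T φ, ∀ t, φ t = t →
    Commute y (k * xU D K (th D) t * k⁻¹)) → y = 1) : H ≤ MM T φ := by
  have hx := fun t => hT.x_mem (t := t) (th_lt hT.pos) hT.fx.2
  have hG : ∀ g ∈ H, g ∈ D.group K := fun g hg => stSys_grp h (F := K) ▸ T.Fix_le_grp (h2 hg)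
  have key : ∀ m ∈ H, ∀ t, φ t = t → m * xU D K (th D) t * m⁻¹ ∈ MM T φ := by
    intro m hm t ht
    by_contra hc
    refine hc (hC _ (hG _ (mul_mem (mul_mem hm (h1 (hx t ht))) (inv_mem hm))) (fun k hk t' ht' => ?_) ▸
      one_mem _)
    have hg := mul_mem (inv_mem (h1 hk)) hm
    have hz : ∀ t, φ t = t → k⁻¹ * m * xU D K (th D) t * (k⁻¹ * m)⁻¹ ∈ H := fun t ht =>
      mul_mem (mul_mem hg (h1 (hx t ht))) (inv_mem hg)
    have hc' : k⁻¹ * m * xU D K (th D) t * (k⁻¹ * m)⁻¹ ∉ MM T φ := fun e => hc (by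
      convert mul_mem (mul_mem hk e) (inv_mem hk) using 1; group)
    obtain ⟨s, hs, hρ, hf⟩ := hT.exists_fam (h2 hg)
    by_cases h0 : s = 0
    · exact absurd (hT.opposite h1 hU hz (h0 ▸ hf) ht) hc'
    rcases hT.cases s hs hρ with a | a | a | a
    · obtain ⟨u, hu, l, -, -, e⟩ := hf
      refine absurd (hU _ (hz t ht) ?_) hc'
      rw [show k⁻¹ * m * xU D K (th D) t * (k⁻¹ * m)⁻¹ = _ from e t]
      exact mul_mem (mul_mem hu.1 ((stSys h K).x_mem_U (r := ⟨s, hs⟩) ((pos_iff_le _).2 a) _)) (inv_mem hu.1)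
    · exact absurd a h0
    · obtain ⟨u, hu, l, -, -, e⟩ := hf
      have e1 := conj_xU_nil (K := K) (th_lt hT.pos) hs (by rwa [neg_th hT.pos]) a t' (l * t)
      have e2 := U_comm_th h hT.pos (stSys_U h (F := K) ▸ hu.1) t'
      have e3 : m * xU D K (th D) t * m⁻¹ = k * (u * xU D K s (l * t) * u⁻¹) * k⁻¹ := by
        rw [← e t]; group
      rw [e3, ← e2]
      change _ * _ = _ * _
      conv_lhs => rw [← e1]
      group
    · exact absurd (hT.special h1 hU hz hs hρ hf a ht) hc'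
  intro m hm
  refine ⟨h2 hm, (inv_mul_eq_one.1 (hC _ (mul_mem (inv_mem (hG m hm)) (glm_mem φ (hG m hm)))
    fun k hk t ht => ?_)).symm⟩
  have := (mem_MM.1 (key _ (mul_mem hm (h1 hk)) t ht)).2
  rw [map_mul, map_mul, map_inv, map_mul, glm_xU, ht, (mem_MM.1 hk).2] at this
  change _ * _ = _ * _
  calc _ = m⁻¹ * (glm D φ m * k * xU D K (th D) t * (glm D φ m * k)⁻¹) * glm D φ m := by group
    _ = _ := by rw [this]; group

end TwD

end CfsgLib.BGL
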