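import Mathlib
import Cfsg.Agent.Lib.BGL.TwA
import Cfsg.Agent.Lib.RGD.Coef

/-!
# Overgroups of the subfield subgroup of a twisted group: the unipotent subgroup
-/

set_option autoImplicit false

namespace CfsgLib.BGL

open Cfsg.Lie Cfsg.Lie.ChevalleyDatum CfsgLib.RGD CfsgLib.Chev CfsgLib.Weyl CfsgLib.ChevAut
  CfsgLib.Lang CfsgLib.Twist CfsgLib.TwMult
open scoped commutatorElement

variable {D : ChevalleyDatum} {K : Type*} [Field K]

section Abstract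

variable {ι κ : Type} [Fintype κ] [DecidableEq κ] {Φ : RootSys ι κ} {G : Type*} [Group G] {S : StSys Φ K G}

variable (Φ) in
/-- the positive roots which are not below `k` -/
def Cs (k : ι) : Set ι := {s | Φ.Pos s ∧ ∃ j, Φ.rt k j < Φ.rt s j}

theorem cs_ideal (k r : ι) (hr : Φ.Pos r) (s : ι) (hs : s ∈ Cs Φ k) :
    s ≠ Φ.neg r ∧ ∀ l, Φ.IsSum r s l → l ∈ Cs Φ k :=
  ⟨Φ.ne_neg_of_pos hr hs.1, fun l hl => ⟨hl.pos hr hs.1, hs.2.imp fun j hj => by
    have := hl.coeff_le hr hs.1 j; have := hr j; omega⟩⟩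

theorem sum_mem_cs {k r s : ι} (hr : Φ.Pos r) (hs : Φ.Pos s) (h : ∃ j, Φ.rt k j < Φ.rt r j + Φ.rt s j) :
    s ≠ Φ.neg r ∧ ∀ l, Φ.IsSum r s l → l ∈ Cs Φ k :=
  ⟨Φ.ne_neg_of_pos hr hs, fun _ hl => ⟨hl.pos hr hs, h.imp fun j hj => hj.trans_le (hl.coeff_le hr hs j)⟩⟩

variable (S) in
/-- `g` is congruent to `x_k(c)` -/
def Cong (k : ι) (g : G) (c : K) : Prop := (S.x k c)⁻¹ * g ∈ S.UU (Cs Φ k)

theorem cong_zero {k : ι} {g : G} (hg : g ∈ S.UU (Cs Φ k)) : Cong S k g 0 := by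
  simpa [Cong, S.x_zero] using hg

theorem Cong.conj {k : ι} (hk : Φ.Pos k) {g u : G} {c : K} (h : Cong S k g c) (hu : u ∈ S.U) :
    Cong S k (u⁻¹ * g * u) c := by
  have h1 := S.comm_mem_UU_of_mem (r := k) (fun s hs => sum_mem_cs (k := k) hk hs
    ((Φ.exists_coeff_pos hs).imp fun j hj => by omega)) (cs_ideal k) hu c
  have := mul_mem (inv_mem h1) (S.inv_conj_mem_UU (cs_ideal k) hu h)
  rw [Cong]; convert this using 1; group

theorem Cong.mul {k : ι} (hk : Φ.Pos k) {a b : G} {c d : K} (h : Cong S k a c) (h' : Cong S k b d) :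
    Cong S k (a * b) (c + d) := by
  have := mul_mem (S.inv_conj_mem_UU (cs_ideal k) (S.x_mem_U hk d) h) h'
  rw [Cong, S.x_add]; convert this using 1; group

theorem Cong.unique [Finite ι] (hS : S.Nondeg) {k : ι} (hk : Φ.Pos k) {g : G} {c d : K} (h : Cong S k g c)
    (h' : Cong S k g d) : c = d := by
  have := mul_mem h (inv_mem h')
  rw [mul_inv_rev, inv_inv, mul_assoc, mul_inv_cancel_left, ← S.x_neg, ← S.x_add] at this
  linear_combination -hS.eq_zero_of_mem_UU (fun r hr s hs => (cs_ideal k r hr.1 s hs).2) (fun _ h => h.1) hk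
    (fun h => by obtain ⟨j, hj⟩ := h.2; omega) this

theorem cong_right {k : ι} (hk : Φ.Pos k) {α : Type*} (a : G) (g : α → G) (f : α → K) (L : List α)
    (h : ∀ b ∈ L, g b ∈ S.U ∧ Cong S k (a⁻¹ * (g b)⁻¹ * a * g b) (f b)) :
    Cong S k (a⁻¹ * (L.map g).prod⁻¹ * a * (L.map g).prod) (L.map f).sum := by
  induction L with
  | nil => exact cong_zero (by simp)
  | cons b L ih =>
    have := (ih fun c hc => h c (List.mem_cons_of_mem _ hc)).mul hk ((h b List.mem_cons_self).2.conj hk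
      (S.U.list_prod_mem (l := L.map g) fun x hx => by
        obtain ⟨c, hc, rfl⟩ := List.mem_map.1 hx; exact (h c (List.mem_cons_of_mem _ hc)).1))
    simp only [List.map_cons, List.prod_cons, List.sum_cons]
    rw [add_comm]; convert this using 1; group

theorem cong_left {k : ι} (hk : Φ.Pos k) {α : Type*} (b : G) (g : α → G) (f : α → K) (L : List α)
    (h : ∀ a ∈ L, g a ∈ S.U ∧ Cong S k ((g a)⁻¹ * b⁻¹ * g a * b) (f a)) :
    Cong S k ((L.map g).prod⁻¹ * b⁻¹ * (L.map g).prod * b) (L.map f).sum := by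
  induction L with
  | nil => exact cong_zero (by simp)
  | cons a L ih =>
    have := ((h a List.mem_cons_self).2.conj hk (S.U.list_prod_mem (l := L.map g) fun x hx => by
      obtain ⟨c, hc, rfl⟩ := List.mem_map.1 hx; exact (h c (List.mem_cons_of_mem _ hc)).1)).mul hk
      (ih fun c hc => h c (List.mem_cons_of_mem _ hc))
    simp only [List.map_cons, List.prod_cons, List.sum_cons]
    convert this using 1; group

/-- elements all of whose `M`-conjugates commute with `y` -/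
def cY (M : Subgroup G) (y : G) : Subgroup G where
  carrier := {z | ∀ k ∈ M, Commute y (k * z * k⁻¹)}
  mul_mem' {a b} ha hb k hk := by
    have := (ha k hk).mul_right (hb k hk)
    rwa [show k * a * k⁻¹ * (k * b * k⁻¹) = k * (a * b) * k⁻¹ by group] at this
  one_mem' k _ := by simp
  inv_mem' {a} ha k hk := by
    have := (ha k hk).inv_right
    rwa [show (k * a * k⁻¹)⁻¹ = k * a⁻¹ * k⁻¹ by group] at this

theorem conj_mem_cY {M : Subgroup G} {y k z : G} (hk : k ∈ M) (hz : z ∈ cY M y) : k * z * k⁻¹ ∈ cY M y :=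
  fun k' hk' => by
    have := hz _ (M.mul_mem hk' hk)
    rwa [show k' * k * z * (k' * k)⁻¹ = k' * (k * z * k⁻¹) * k'⁻¹ by group] at this

theorem eq_one_of_cY [Finite ι] (hS : Sharp S) {M : Subgroup G} {n : G} (hn : n ∈ S.N) (hn' : n ∈ M)
    (ha : S.Acts n (w0 Φ Set.univ)) {y : G} (hy : y ∈ S.grp)
    (h : ∀ i, ∃ u ∈ S.U, S.scoef i u ≠ 0 ∧ u ∈ cY M y) : y = 1 := by
  have h1 : y ∈ S.B := hS.nondeg.mem_B_of_conj_scoef hy fun i => by
    obtain ⟨u, hu, h1, h2⟩ := h i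
    refine ⟨u, hu, h1, ?_⟩
    have := (h2 1 M.one_mem).eq
    rw [one_mul, inv_one, mul_one] at this
    rw [this, mul_inv_cancel_right]; exact S.U_le_B hu
  have h2 : n⁻¹ * y * n ∈ S.B := hS.nondeg.mem_B_of_conj_scoef
    (mul_mem (mul_mem (inv_mem (S.N_le_grp hn)) hy) (S.N_le_grp hn)) fun i => by
    obtain ⟨u, hu, h1, h2⟩ := h i
    refine ⟨u, hu, h1, ?_⟩
    rw [show n⁻¹ * y * n * u * (n⁻¹ * y * n)⁻¹ = n⁻¹ * (y * (n * u * n⁻¹)) * y⁻¹ * n by group, (h2 n hn').eq]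
    simpa [mul_assoc] using S.U_le_B hu
  obtain ⟨u, hu, a, ha', e⟩ := S.mem_B_iff.1 h2
  have h3 : y ∈ S.H := hS.nondeg.B_inf_V_sup_H ▸ ⟨h1, by
    rw [show y = (n * u * n⁻¹) * (n * a * n⁻¹) by rw [← mul_inv_eq_iff_eq_mul] at e; rw [← e]; group]
    exact Subgroup.mul_mem_sup (IsTw.conj_U_of_w0 ha hu) (S.N_conj_mem_H hn ha')⟩
  obtain ⟨l, -, hl⟩ := S.acts_of_mem_H h3
  refine hS.faithful y h3 fun i t => ?_
  obtain ⟨u, hu, h4, h5⟩ := h i
  have h6 := (h5 1 M.one_mem).eq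
  rw [one_mul, inv_one, mul_one] at h6
  have := hS.nondeg.scoef_conj i hl hu
  rw [h6, mul_inv_cancel_right, eq_comm, mul_eq_right₀ h4] at this
  rw [hl, this, one_mul, Equiv.Perm.one_apply]

end Abstract

/-- the coefficient of `x_k` in a commutator -/
def cf (D : ChevalleyDatum) (k r s : ℕ) : ℤ :=
  if ((D.commTerms r s).headD (0, 0, 0, 0)).1 = k then -((D.commTerms r s).headD (0, 0, 0, 0)).2.1 else 0

/-- the coefficients of `x_k` in the commutator of two orbit elements -/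
def CL (D : ChevalleyDatum) (k : ℕ) (A L : List (ℕ × ℤ × ℕ)) : List (ℤ × ℕ) :=
  L.map fun a => ((A.map fun b => cf D k b.1 a.1 * b.2.1).sum * a.2.1, a.2.2)

/-- the value of a list of coefficients -/
def val (φ : K →+* K) (C : List (ℤ × ℕ)) (t : K) : K := (C.map fun c => (c.1 : K) * φ^[c.2] t).sum

/-- positive roots -/
def PosN (D : ChevalleyDatum) (r : ℕ) : Prop := r < D.nroots ∧ D.nroots ≤ 2 * r

instance (D : ChevalleyDatum) (r : ℕ) : Decidable (PosN D r) := by unfold PosN; infer_instance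

/-- the certificate for one step of the ladder -/
def Step (D : ChevalleyDatum) (o : ℕ → ℕ) (m k : ℕ) (A L : List (ℕ × ℤ × ℕ)) : Prop :=
  PosN D k ∧ ∀ b ∈ A, PosN D b.1 ∧ (∀ a ∈ L, D.commTerms b.1 a.1 = [(k, -cf D k b.1 a.1, 1, 1)] ∨
    cf D k b.1 a.1 = 0 ∧ ∃ j < D.rank, rt D k j < rt D b.1 j + rt D a.1 j) ∧
    ∀ s < D.nroots, D.nroots ≤ 2 * s → m < o s → ∃ j < D.rank, rt D k j < rt D b.1 j + rt D s j

instance (D : ChevalleyDatum) (o : ℕ → ℕ) (m k : ℕ) (A L : List (ℕ × ℤ × ℕ)) : Decidable (Step D o m k A L) := by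
  unfold Step; infer_instance

/-- the certificate for an element with non-zero coefficient at a fundamental root -/
def Gen (D : ChevalleyDatum) (ρ : ℕ → ℕ) (j : ℕ) (P : List ℕ) (c : ℕ) (A : List (ℕ × ℤ × ℕ)) : Prop :=
  (∀ s ∈ P, s < D.nroots ∧ ρ s = s) ∧ (P.foldr (refl D) (th D) = D.simple j ∨ c < D.nroots ∧ ρ c ≠ c ∧
    (∀ a ∈ A, PosN D a.1 ∧ P.foldr (refl D) (th D) ≠ D.neg a.1 ∧
      let e := (D.commTerms a.1 (P.foldr (refl D) (th D))).headD (0, 0, 0, 0)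
      D.commTerms a.1 (P.foldr (refl D) (th D)) = [(e.1, e.2.1, 1, 1)] ∧ PosN D e.1) ∧
    (A.map fun a => cf D (D.simple j) a.1 (P.foldr (refl D) (th D)) * a.2.1).sum ^ 2 = 1)

instance (D : ChevalleyDatum) (ρ : ℕ → ℕ) (j : ℕ) (P : List ℕ) (c : ℕ) (A : List (ℕ × ℤ × ℕ)) :
    Decidable (Gen D ρ j P c A) := by
  unfold Gen; infer_instance

/-- the certificate for the ladder -/
structure Lad (D : ChevalleyDatum) (ρ o rep : ℕ → ℕ) (n m₀ : ℕ) (orb : ℕ → List (ℕ × ℤ × ℕ))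
    (st : ℕ → ℕ × ℕ) (pats : List (List (ℤ × ℕ))) (gn : ℕ → List ℕ × ℕ) : Prop where
  head : ∀ m < n, (orb (rep m)).head? = some (rep m, 1, 0) ∧
    ∀ a ∈ (orb (rep m)).tail, PosN D a.1 ∧ o a.1 = m ∧ a.1 ≠ rep m
  step : ∀ m < n, ρ (rep m) = rep m ∨ m = m₀ ∨ m < m₀ ∧ (st m).1 < D.nroots ∧
    Step D o m (st m).2 (orb (st m).1) (orb (rep m)) ∧ CL D (st m).2 (orb (st m).1) (orb (rep m)) ∈ pats
  gen : ∀ j < D.rank, Gen D ρ j (gn j).1 (gn j).2 (orb (gn j).2)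

variable [Good D] {h : RtOK D} {B : Type}

variable (D) in
/-- the element attached to an orbit -/
def Yo (φ : K →+* K) (L : List (ℕ × ℤ × ℕ)) (t : K) : GL D.Idx K :=
  (L.map fun a => xU D K a.1 (a.2.1 * φ^[a.2.2] t)).prod

theorem glm_Yo {φ : K →+* K} (L : List (ℕ × ℤ × ℕ)) {t : K} (ht : φ t = t) :
    glm D φ (Yo D φ L t) = Yo D φ L t := by
  simp only [Yo, map_list_prod, List.map_map, Function.comp_def, glm_xU, map_mul, map_intCast,
    Function.iterate_fixed ht, ht]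

omit [Good D] in
theorem PosN.pos {r : ℕ} (hr : PosN D r) : (rootSys h).Pos ⟨r, hr.1⟩ := (pos_iff_le _).2 hr.2

theorem PosN.x_mem {r : ℕ} (hr : PosN D r) (t : K) : xU D K r t ∈ (stSys h K).U :=
  (stSys h K).x_mem_U hr.pos t

theorem Step.cong {o : ℕ → ℕ} {m k : ℕ} {A L : List (ℕ × ℤ × ℕ)} (hs : Step D o m k A L)
    (hL : ∀ a ∈ L, PosN D a.1) (φ : K →+* K) (t : K) {u : GL D.Idx K}
    (hu : u ∈ (stSys h K).UU (lev (rootSys h) (fun r => o r) (m + 1))) :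
    Cong (stSys h K) ⟨k, hs.1.1⟩ ((Yo D φ L t * u)⁻¹ * (Yo D φ A 1)⁻¹ * (Yo D φ L t * u) * Yo D φ A 1)
      (val φ (CL D k A L) t) := by
  have hk := hs.1.pos (h := h)
  have h1 := cong_left (S := stSys h K) hk (Yo D φ A 1) (fun a : ℕ × ℤ × ℕ => xU D K a.1 (a.2.1 * φ^[a.2.2] t))
    _ L fun a ha => ⟨(hL a ha).x_mem _, cong_right hk _ (fun b : ℕ × ℤ × ℕ => xU D K b.1 (b.2.1 * φ^[b.2.2] 1))
      (fun b => (cf D k b.1 a.1 * b.2.1 : ℤ) * (a.2.1 * φ^[a.2.2] t)) A fun b hb => by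
        obtain ⟨p1, p2, -⟩ := hs.2 b hb
        refine ⟨p1.x_mem _, ?_⟩
        rcases p2 a ha with e | ⟨e, j, hj, e'⟩
        · have e' : a.1 ≠ D.neg b.1 := by
            have := p1.1; have := p1.2; have := (hL a ha).2; rw [neg_eq p1.1]; omega
          rw [comm_single p1.1 (hL a ha).1 e' e, Cong, Function.iterate_fixed (map_one φ)]
          simp [stSys_x]
        · rw [e, zero_mul, Int.cast_zero, zero_mul]
          have := sum_mem_cs (k := ⟨k, hs.1.1⟩) (p1.pos (h := h)) (hL a ha).pos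
            ⟨⟨j, hj⟩, by simp only [rootSys_rt]; exact e'⟩
          exact cong_zero ((stSys h K).comm_mem_UU (r := ⟨_, p1.1⟩) (s := ⟨_, (hL a ha).1⟩) this.1 this.2 _ _)⟩
  have h2 := cong_right (S := stSys h K) hk u (fun b : ℕ × ℤ × ℕ => xU D K b.1 (b.2.1 * φ^[b.2.2] 1))
    (fun _ => 0) A fun b hb => by
      obtain ⟨p1, -, p2⟩ := hs.2 b hb
      refine ⟨p1.x_mem _, cong_zero ((stSys h K).comm_mem_UU_of_mem (r := ⟨_, p1.1⟩) (fun s hs' => ?_)
        (fun s hs' => cs_ideal _ s hs'.1) hu _)⟩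
      obtain ⟨j, hj, e⟩ := p2 s s.2 ((pos_iff_le _).1 hs'.1) hs'.2
      exact sum_mem_cs p1.pos hs'.1 ⟨⟨j, hj⟩, by simp only [rootSys_rt]; exact e⟩
  have := (h1.conj hk ((stSys h K).UU_le_U (fun _ h => h.1) hu)).mul hk h2
  convert this using 1
  · simp only [Yo]; group
  · simp only [List.sum_map_mul_right]
    simp [val, CL, Function.comp_def, mul_assoc]

namespace TwD

variable {T : Tw (stSys h K) B} {φ : K →+* K} {ρ : ℕ → ℕ} {ε : ℕ → ℤ} {i : ℕ} (hT : TwD T φ ρ ε i)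
  {o : ℕ → ℕ} {rep : ℕ → Fin D.nroots} {n m₀ : ℕ} {orb : ℕ → List (ℕ × ℤ × ℕ)} {st : ℕ → ℕ × ℕ}
  {pats : List (List (ℤ × ℕ))} {gn : ℕ → List ℕ × ℕ} (hL : Lad D ρ o (fun m => rep m) n m₀ orb st pats gn)
  (hY : ∀ r < D.nroots, ∀ t, (ρ r = r → φ t = t) → Yo D φ (orb r) t ∈ T.Fix)
include hT hL hY

theorem eq_one (hN : ∃ n ∈ (stSys h K).N, n ∈ MM T φ ∧ (stSys h K).Acts n (w0 (rootSys h) Set.univ))
    (y : GL D.Idx K) (hy : y ∈ D.group K)
    (hc : ∀ k ∈ MM T φ, ∀ t, φ t = t → Commute y (k * xU D K (th D) t * k⁻¹)) : y = 1 := by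
  obtain ⟨n, h1, h2, h3⟩ := hN
  have hS := stSys_nondeg (F := K) h
  refine eq_one_of_cY (sharp_stSys h K) h1 h2 h3 (stSys_grp h (F := K) ▸ hy) fun j => ?_
  obtain ⟨p1, p2⟩ := hL.gen j j.2
  have k1 : ∀ P : List ℕ, (∀ s ∈ P, s < D.nroots ∧ ρ s = s) → P.foldr (refl D) (th D) < D.nroots ∧
      xU D K (P.foldr (refl D) (th D)) 1 ∈ cY (MM T φ) y := by
    intro P hP
    induction P with
    | nil => exact ⟨th_lt hT.pos, fun k hk => hc k hk 1 (map_one φ)⟩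
    | cons s P ih =>
      obtain ⟨a1, a2⟩ := ih fun s hs => hP s (List.mem_cons_of_mem _ hs)
      obtain ⟨a3, a4⟩ := hP s List.mem_cons_self
      have := conj_mem_cY (hT.nU_mem a3 a4) a2
      rw [nU_conj_xU a3 a1 one_ne_zero, _root_.one_zpow, mul_one] at this
      exact ⟨refl_lt a3 a1, xU_unit_mem (eta_mul_self a3 a1) this⟩
  obtain ⟨a1, a2⟩ := k1 _ p1
  rcases p2 with e | ⟨b1, b2, b3, b4⟩
  · rw [e] at a2
    exact ⟨_, (stSys h K).x_mem_U ((rootSys h).pos_simple j) 1, by rw [hS.scoef_x_self]; exact one_ne_zero, a2⟩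
  generalize (gn j).1.foldr (refl D) (th D) = β at *
  have k2 : ∀ A : List (ℕ × ℤ × ℕ), (∀ a ∈ A, PosN D a.1 ∧ β ≠ D.neg a.1 ∧
      let e := (D.commTerms a.1 β).headD (0, 0, 0, 0)
      D.commTerms a.1 β = [(e.1, e.2.1, 1, 1)] ∧ PosN D e.1) → ∃ u ∈ (stSys h K).U,
      Yo D φ A 1 * xU D K β 1 * (Yo D φ A 1)⁻¹ = xU D K β 1 * u ∧
      (stSys h K).scoef j u = -(A.map fun a => cf D (D.simple j) a.1 β * a.2.1).sum := by
    intro A hA
    induction A with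
    | nil => exact ⟨1, one_mem _, by simp [Yo], by simp [hS.scoef_one]⟩
    | cons a A ih =>
      obtain ⟨u, c1, c2, c3⟩ := ih fun s hs => hA s (List.mem_cons_of_mem _ hs)
      obtain ⟨d1, d2, d3, d4⟩ := hA a List.mem_cons_self
      have d5 := d1.x_mem (h := h) (a.2.1 * φ^[a.2.2] (1 : K))
      have d6 := conj_xU_one (K := K) d1.1 a1 d2 d3 (a.2.1 * φ^[a.2.2] (1 : K)) 1
      refine ⟨_, mul_mem (d4.x_mem _) (mul_mem (mul_mem d5 c1) (inv_mem d5)), by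
        rw [← mul_assoc, ← d6, Yo, List.map_cons, List.prod_cons, ← Yo,
          show ∀ x y z : GL D.Idx K, x * y * z * (x * y)⁻¹ = x * (y * z * y⁻¹) * x⁻¹ by intros; group, c2]
        group, ?_⟩
      rw [hS.scoef_mul j (d4.x_mem _) (mul_mem (mul_mem d5 c1) (inv_mem d5)), hS.scoef_conj_U j d5 c1, c3,
        List.map_cons, List.sum_cons, cf, Function.iterate_fixed (map_one φ)]
      split_ifs with e
      · rw [e, ← rootSys_simple h, ← stSys_x h, hS.scoef_x_self]; push_cast; ring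
      · rw [← stSys_x h ⟨_, d4.1⟩, hS.scoef_x_of_ne d4.pos fun e' => e (congrArg Fin.val e')]; push_cast; ring
  obtain ⟨u, c1, c2, c3⟩ := k2 _ b3
  refine ⟨u, c1, ?_, ?_⟩
  · rw [c3, neg_ne_zero]
    exact fun e => by simpa [e] using congrArg (Int.cast : ℤ → K) b4
  · rw [eq_inv_mul_of_mul_eq c2.symm]
    exact mul_mem (inv_mem a2) (conj_mem_cY ⟨hY _ b1 1 fun _ => map_one φ, glm_Yo _ (map_one φ)⟩ a2)

variable (hW : IsTw T T.Fix) (hF : Filt T n (fun r => o r) rep)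
include hW hF

theorem strip {m : ℕ} (hm : m < n) {u : GL D.Idx K} (hu : u ∈ (stSys h K).UU (lev (rootSys h) (fun r => o r) m))
    (hf : u ∈ T.Fix) : ∃ c, (ρ (rep m) = rep m → φ c = c) ∧
      Yo D φ (orb (rep m)) c ∈ (stSys h K).UU {r | (rootSys h).Pos r ∧ o r = m} ∧
      (Yo D φ (orb (rep m)) c)⁻¹ * u ∈ (stSys h K).UU (lev (rootSys h) (fun r => o r) (m + 1)) := by
  have h1 := co_spec (hF.closed m) (fun _ h => h.1) (rep m) hu
  set c := co (stSys h K) (lev (rootSys h) (fun r => o r) m) (rep m) u with hc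
  have h2 : ρ (rep m) = rep m → φ c = c := fun e => by
    have e' : T.ρ (rep m) = rep m := Fin.ext ((hT.ρe _).trans e)
    have := T.σ_mem_UU hW.sharp (Ψ' := lev (rootSys h) (fun r => o r) m \ {rep m}) (fun s hs =>
      ⟨⟨T.pos_ρ hs.1.1, hs.1.2.trans (hF.ρ s hs.1.1).ge⟩, fun e => hs.2 (T.ρ.injective (e.trans e'.symm))⟩) h1
    rw [T.σ_mul _ (inv_mem (x_mem_grp _ _ _)) _ hf.1, T.σ_inv (x_mem_grp _ _ _), hf.2, stSys_x,
      hT.σx _ (rep m).2, e, (hT.rtρ _ (rep m).2).2 e, Int.cast_one, one_mul] at this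
    exact (co_eq hW.nondeg (hF.closed_diff (hF.o_rep m hm)) (fun _ h => h.1) (hF.pos m hm) this).symm
  obtain ⟨p1, p2⟩ := hL.head m hm
  have e : Yo D φ (orb (rep m)) c = xU D K (rep m) c * Yo D φ (orb (rep m)).tail c := by
    conv_lhs => rw [← List.cons_head?_tail p1]
    simp [Yo]
  have h3 : Yo D φ (orb (rep m)).tail c ∈ (stSys h K).UU ({r | (rootSys h).Pos r ∧ o r = m} \ {rep m}) :=
    Subgroup.list_prod_mem _ fun x hx => by
      obtain ⟨a, ha, rfl⟩ := List.mem_map.1 hx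
      exact (stSys h K).x_mem_UU (r := ⟨_, (p2 a ha).1.1⟩)
        (by exact ⟨⟨(p2 a ha).1.pos, (p2 a ha).2.1⟩, fun e => (p2 a ha).2.2 (congrArg Fin.val e)⟩) _
  refine ⟨c, h2, e ▸ mul_mem ((stSys h K).x_mem_UU (by exact ⟨hF.pos m hm, hF.o_rep m hm⟩) _)
    ((stSys h K).UU_mono Set.sdiff_subset h3), hF.mem_succ hW (mul_mem (inv_mem (hY _ (rep m).2 c h2)) hf) ?_⟩
  rw [e, mul_inv_rev, mul_assoc]
  exact mul_mem (inv_mem ((stSys h K).UU_mono (fun r hr => by exact ⟨⟨hr.1.1, hr.1.2.ge⟩, hr.2⟩) h3)) h1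

theorem ladder (hP : ∀ C ∈ pats, ∀ t, φ (val φ C t) = val φ C t → φ t = t) {H : Subgroup (GL D.Idx K)}
    (h1 : MM T φ ≤ H) (h2 : H ≤ T.Fix)
    (h3 : ∀ g ∈ H, g ∈ (stSys h K).UU {r | (rootSys h).Pos r ∧ o r = m₀} → g ∈ MM T φ) :
    ∀ u ∈ H, u ∈ (stSys h K).U → u ∈ MM T φ := by
  have key : ∀ (H : Subgroup (GL D.Idx K)) (a : ℕ), MM T φ ≤ H → H ≤ T.Fix → (∀ m < n, a ≤ m → ∀ c, φ c ≠ c →
      ρ (rep m) ≠ rep m → (∀ u ∈ H, u ∈ (stSys h K).UU (lev (rootSys h) (fun r => o r) (m + 1)) → u ∈ MM T φ) →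
      ∀ u ∈ (stSys h K).UU (lev (rootSys h) (fun r => o r) (m + 1)), Yo D φ (orb (rep m)) c * u ∈ H →
      Yo D φ (orb (rep m)) c ∈ (stSys h K).UU {r | (rootSys h).Pos r ∧ o r = m} →
      Yo D φ (orb (rep m)) c * u ∈ MM T φ) →
      ∀ d m, m + d = n → a ≤ m → ∀ u ∈ H, u ∈ (stSys h K).UU (lev (rootSys h) (fun r => o r) m) → u ∈ MM T φ := by
    intro H a h1 h2 h3 d
    induction d with
    | zero =>
      rintro m e - u - hu
      rw [show m = n from e, Set.eq_empty_of_forall_notMem (s := lev _ _ _) fun r hr => (hF.lt r hr.1).not_ge hr.2,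
        StSys.UU_empty, Subgroup.mem_bot] at hu
      exact hu ▸ one_mem _
    | succ d ih =>
      intro m e hm u hu hu'
      obtain ⟨c, p1, p2, p3⟩ := hT.strip hL hY hW hF (m := m) (by omega) hu' (h2 hu)
      have ih' := ih (m + 1) (by omega) (by omega)
      by_cases hc : φ c = c
      · have p4 : Yo D φ (orb (rep m)) c ∈ MM T φ := ⟨hY _ (rep m).2 c p1, glm_Yo _ hc⟩
        exact (mul_mem_cancel_left (inv_mem p4)).1 (ih' _ (mul_mem (inv_mem (h1 p4)) hu) p3)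
      · simpa using h3 m (by omega) hm c hc (fun e => hc (p1 e)) ih' _ p3 (by simpa using hu) p2
  intro u hu hu'
  refine key H 0 h1 h2 (fun m hm _ c hc hρ ih v hv p1 p2 => ?_) n 0 (zero_add n) le_rfl u hu
    ((stSys h K).UU_mono (fun r hr => by exact ⟨hr, Nat.zero_le _⟩) hu')
  have p3 := hY _ (rep m).2 c fun e => absurd e hρ
  rcases hL.step m hm with e | rfl | ⟨-, a1, a2, a3⟩
  · exact absurd e hρ
  · have := key T.Fix (m + 1) inf_le_left le_rfl (fun m' hm' hm'' _ _ hρ' => by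
      rcases hL.step m' hm' with e | e | e
      exacts [absurd e hρ', by omega, by omega]) (n - (m + 1)) (m + 1) (by omega) le_rfl v
      ((mul_mem_cancel_left p3).1 (h2 p1)) hv
    exact mul_mem (h3 _ ((mul_mem_cancel_right (h1 this)).1 p1) p2) this
  · have hk : Yo D φ (orb (st m).1) 1 ∈ MM T φ := ⟨hY _ a1 1 fun _ => map_one φ, glm_Yo _ (map_one φ)⟩
    have q1 := a2.cong (h := h) (fun a ha => by
      rw [← List.cons_head?_tail (hL.head m hm).1] at ha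
      rcases List.mem_cons.1 ha with rfl | ha
      exacts [⟨(rep m).2, (pos_iff_le _).1 (hF.pos m hm)⟩, ((hL.head m hm).2 a ha).1]) φ c hv
    have q2 := inv_mem (hF.comm_mem (inv_mem (show Yo D φ (orb (st m).1) 1 ∈ (stSys h K).U from
      Subgroup.list_prod_mem _ fun x hx => by
        obtain ⟨a, ha, rfl⟩ := List.mem_map.1 hx
        exact (a2.2 a ha).1.x_mem _)) (inv_mem (mul_mem ((stSys h K).UU_mono (fun r hr => by exact ⟨hr.1, hr.2.ge⟩) p2)
          ((stSys h K).UU_mono (lev_mono _ (Nat.le_succ m)) hv))))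
    rw [commutatorElement_inv, commutatorElement_def, inv_inv, inv_inv] at q2
    have q3 := (mem_MM.1 (ih _ (mul_mem (mul_mem (mul_mem (inv_mem p1) (inv_mem (h1 hk))) p1) (h1 hk)) q2)).2
    have q4 := glm_mem_UU φ q1
    rw [map_mul, map_inv, q3, stSys_x, glm_xU] at q4
    exact absurd (hP _ a3 c (Cong.unique (stSys_nondeg h) a2.1.pos q4 q1)) hc

theorem dichotomy (hP : ∀ C ∈ pats, ∀ t, φ (val φ C t) = val φ C t → φ t = t)
    (hN : ∀ b, ∃ n ∈ (stSys h K).N, n ∈ MM T φ ∧ (stSys h K).Acts n (T.sw b)) {H : Subgroup (GL D.Idx K)}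
    (h1 : MM T φ ≤ H) (h2 : H ≤ T.Fix) : H ≤ MM T φ ∨ ∀ w ∈ T.W1, ∀ Ψ,
      (∀ r, (rootSys h).Pos r → o r = m₀ → w r ∈ Ψ) → ∃ g ∈ H, g ∉ MM T φ ∧ g ∈ (stSys h K).UU Ψ := by
  have k : ∀ w ∈ T.W1, ∃ n ∈ (stSys h K).N, n ∈ MM T φ ∧ (stSys h K).Acts n w := fun w hw =>
    T.W1_induction (p := fun w => ∃ n ∈ (stSys h K).N, n ∈ MM T φ ∧ (stSys h K).Acts n w)
      ⟨1, one_mem _, one_mem _, acts_one⟩ (fun v _ b _ ⟨n, k1, k2, k3⟩ => by
        obtain ⟨n', k4, k5, k6⟩ := hN b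
        exact ⟨_, mul_mem k1 k4, mul_mem k2 k5, acts_mul' (T.sw_mem b).1 k3 k6⟩) hw
  by_cases h3 : ∀ g ∈ H, g ∈ (stSys h K).UU {r | (rootSys h).Pos r ∧ o r = m₀} → g ∈ MM T φ
  · exact Or.inl (hT.le_MM h1 (hT.ladder hL hY hW hF hP h1 h2 h3) h2 (hT.eq_one hL hY (k _ T.w0_univ_mem)))
  push Not at h3
  obtain ⟨g, p1, p2, p3⟩ := h3
  refine Or.inr fun w hw Ψ hΨ => ?_
  obtain ⟨n, -, k2, k3⟩ := k w hw
  exact ⟨_, mul_mem (mul_mem (h1 k2) p1) (inv_mem (h1 k2)), fun e => p3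
    ((mul_mem_cancel_left k2).1 ((mul_mem_cancel_right (inv_mem k2)).1 e)),
    k3.conj_mem_UU (fun r hr => hΨ r hr.1 hr.2) p2⟩

end TwD

end CfsgLib.BGL
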