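import Mathlib
import Cfsg.Agent.Lib.BGL.TwB
import Cfsg.Agent.Lib.TwMult.E6
import Cfsg.Agent.Lib.TwMult.D4

/-!
# The subfield subgroups of `²E₆(q)` and `³D₄(q)` are maximal
-/

set_option autoImplicit false
set_option Elab.async false

namespace CfsgLib.BGL

open Cfsg.Lie Cfsg.Lie.ChevalleyDatum CfsgLib.RGD CfsgLib.Chev CfsgLib.Weyl CfsgLib.ChevAut
  CfsgLib.Lang CfsgLib.Twist CfsgLib.TwMult CfsgLib.Stein
open scoped MatrixGroups

variable {K : Type*} [Field K]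

theorem sl2_top [Fintype K] (p : ℕ) [Fact p.Prime] [CharP K p] {a d : ℕ} (ha : 1 ≤ a) (hd : d.Prime)
    (hK : Fintype.card K = (p ^ a) ^ d) {φ : K →+* K} (hφ : ∀ t, φ t = t ^ p ^ a) {G : Type*} [Group G]
    (χ : SL(2, K) →* G) {H M : Subgroup G} (hM : ∀ t, φ t = t → χ (slX t) ∈ M ∧ χ (slY t) ∈ M) (h1 : M ≤ H)
    {s : K} (h2 : χ (slX s) ∈ H) (h3 : χ (slX s) ∉ M) (t : K) : χ (slX t) ∈ H ∧ χ (slY t) ∈ H := by
  have h4 : φ s ≠ s := fun e => h3 (hM s e).1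
  have hW : slW ∈ H.comap χ := slW_eq (F := K) ▸ mul_mem (mul_mem (h1 (hM 1 (map_one φ)).1)
    (h1 (hM _ (by simp)).2)) (h1 (hM 1 (map_one φ)).1)
  have h5 : slY (-s) ∈ H.comap χ := slW_conj_slX s ▸ mul_mem (mul_mem hW h2) (inv_mem hW)
  have h6 : -s ∉ φ.eqLocusField (RingHom.id K) := fun e => h4 (by simpa using neg_mem e)
  rcases sl2_cases p (H.comap χ) (γ := s) (by rintro rfl; exact h4 (map_zero φ)) h2 (h1 (hM 1 (map_one φ)).2)
    with ⟨F, hF, a1, a2, a3⟩ | ⟨-, a⟩ | ⟨-, -, a⟩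
  · obtain ⟨f⟩ := exists_galois_hom p ha hK
    obtain ⟨r, -, e⟩ := exists_card_sub p ha f F fun t ht => a2 t (h1 (hM t ((hφ t).trans ht)).2)
    obtain ⟨m, -, e'⟩ := exists_card_pow F.subtype
    rw [e, Nat.card_eq_fintype_card, hK, ← pow_mul (p ^ a)] at e'
    rcases (Nat.dvd_prime hd).mp ⟨m, Nat.pow_right_injective
      (Nat.one_lt_pow (by omega) (Fact.out : p.Prime).one_lt) e'⟩ with rfl | rfl
    · have := Fintype.ofFinite F
      rw [pow_one, Nat.card_eq_fintype_card] at e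
      exact absurd (by rw [hφ, ← e]; exact congrArg Subtype.val (FiniteField.pow_card (⟨s, a1⟩ : F))) h4
    · exact a3 t (mem_of_pow_card F (by rw [e, ← hK, FiniteField.pow_card]))
  · exact absurd (mem_of_sq_eq _ (a _ h5)) h6
  · exact absurd (mem_of_cube_eq _ (a _ h5)) h6

theorem σ_nprod {ι κ B : Type} [Fintype κ] [DecidableEq κ] {Φ : RootSys ι κ} {G : Type*} [Group G]
    {S : StSys Φ K G} (T : Tw S B) (L : List κ) : T.σ (S.nprod L) = S.nprod (L.map T.π) := by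
  induction L with
  | nil => exact T.σ_one
  | cons i L ih =>
    rw [List.map_cons, S.nprod_cons, S.nprod_cons, T.σ_mul _ (S.n_mem_grp _ _) _ (S.N_le_grp (S.nprod_mem_N L)),
      T.σ_n, map_one, ih]

variable {D : ChevalleyDatum} [Good D] {h : RtOK D} {B : Type} {T : Tw (stSys h K) B} {φ : K →+* K}

theorem exists_n_MM {b : B} (L : List (Fin D.rank)) (h1 : (rootSys h).wprod L = T.sw b)
    (h2 : (stSys h K).nprod (L.map T.π) = (stSys h K).nprod L) :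
    ∃ n ∈ (stSys h K).N, n ∈ MM T φ ∧ (stSys h K).Acts n (T.sw b) :=
  ⟨_, (stSys h K).nprod_mem_N L, ⟨⟨(stSys h K).N_le_grp ((stSys h K).nprod_mem_N L), (σ_nprod T L).trans h2⟩,
    glm_nprod h φ L⟩, h1 ▸ (stSys h K).acts_nprod L⟩

theorem eq_MM {q : ℕ} (hφ : ∀ t, φ t = t ^ q) {M : Subgroup (GL D.Idx K)} (hM : ∀ g : GL D.Idx K, g ∈ M ↔
    g ∈ T.Fix ∧ ∀ i j, (g : Matrix D.Idx D.Idx K) i j ^ q = (g : Matrix D.Idx D.Idx K) i j) : M = MM T φ := by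
  ext g
  rw [hM, mem_MM, ← Units.val_inj, glm_val, ← Matrix.ext_iff]
  simp only [Matrix.map_apply, hφ]

theorem commute_nil {r s : ℕ} (hr : r < D.nroots) (hs : s < D.nroots) (h : s ≠ D.neg r ∧ D.commTerms r s = [])
    (t u : K) : xU D K r t * xU D K s u = xU D K s u * xU D K r t :=
  mul_inv_eq_iff_eq_mul.1 (conj_xU_nil hr hs h.1 h.2 t u)

/-- orbits of an involution -/
def orb2 (ρ : ℕ → ℕ) (ε : ℕ → ℤ) (r : ℕ) : List (ℕ × ℤ × ℕ) :=
  if ρ r = r then [(r, 1, 0)] else [(r, 1, 0), (ρ r, ε r, 1)]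

/-- orbits of a triality -/
def orb3 (ρ : ℕ → ℕ) (ε : ℕ → ℤ) (r : ℕ) : List (ℕ × ℤ × ℕ) :=
  if ρ r = r then [(r, 1, 0)] else [(r, 1, 0), (ρ r, ε r, 1), (ρ (ρ r), ε (ρ r) * ε r, 2)]

theorem TwD.Yo2 {ρ : ℕ → ℕ} {ε : ℕ → ℤ} {i : ℕ} (hT : TwD T φ ρ ε i) (hφ : ∀ t, φ (φ t) = t)
    (hc : ∀ r < D.nroots, ρ r = r ∨ ρ r < D.nroots ∧ ρ (ρ r) = r ∧ ε (ρ r) * ε r = 1 ∧ ρ r ≠ D.neg r ∧
      D.commTerms r (ρ r) = []) :
    ∀ r < D.nroots, ∀ t, (ρ r = r → φ t = t) → Yo D φ (orb2 ρ ε r) t ∈ T.Fix := by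
  intro r hr t ht
  rw [orb2]
  split_ifs with e
  · simpa [Yo] using (hT.x_fix hr e).2 (ht e)
  obtain ⟨a1, a2, a3, a4⟩ := (hc r hr).resolve_left e
  have k : ∀ r t, xU D K r t ∈ (stSys h K).grp := fun r t => (stSys_grp h (F := K)).symm ▸ xU_mem_group r t
  simp only [Yo, List.map_cons, List.map_nil, List.prod_cons, List.prod_nil, mul_one, Int.cast_one, one_mul,
    Function.iterate_zero, Function.iterate_one, id]
  refine ⟨mul_mem (k _ _) (k _ _), ?_⟩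
  rw [T.σ_mul _ (k _ _) _ (k _ _), hT.σx r hr, hT.σx _ a1, a2, map_mul, map_intCast, hφ, ← mul_assoc,
    ← Int.cast_mul, a3, Int.cast_one, one_mul, commute_nil hr a1 a4]

theorem TwD.Yo3 {ρ : ℕ → ℕ} {ε : ℕ → ℤ} {i : ℕ} (hT : TwD T φ ρ ε i) (hφ : ∀ t, φ (φ (φ t)) = t)
    (hc : ∀ r < D.nroots, ρ r = r ∨ ρ r < D.nroots ∧ ρ (ρ r) < D.nroots ∧ ρ (ρ (ρ r)) = r ∧
      ε (ρ (ρ r)) * (ε (ρ r) * ε r) = 1 ∧ (ρ r ≠ D.neg r ∧ D.commTerms r (ρ r) = []) ∧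
      ρ (ρ r) ≠ D.neg r ∧ D.commTerms r (ρ (ρ r)) = []) :
    ∀ r < D.nroots, ∀ t, (ρ r = r → φ t = t) → Yo D φ (orb3 ρ ε r) t ∈ T.Fix := by
  intro r hr t ht
  rw [orb3]
  split_ifs with e
  · simpa [Yo] using (hT.x_fix hr e).2 (ht e)
  obtain ⟨a1, a2, a3, a4, a5, a6⟩ := (hc r hr).resolve_left e
  have k : ∀ r t, xU D K r t ∈ (stSys h K).grp := fun r t => (stSys_grp h (F := K)).symm ▸ xU_mem_group r t
  simp only [Yo, List.map_cons, List.map_nil, List.prod_cons, List.prod_nil, mul_one, Int.cast_one, one_mul,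
    Function.iterate_zero, Function.iterate_succ, id, Function.comp]
  refine ⟨mul_mem (k _ _) (mul_mem (k _ _) (k _ _)), ?_⟩
  rw [T.σ_mul _ (k _ _) _ (mul_mem (k _ _) (k _ _)), T.σ_mul _ (k _ _) _ (k _ _), hT.σx r hr, hT.σx _ a1,
    hT.σx _ a2, a3, map_mul, map_mul, map_intCast, map_intCast, hφ, ← mul_assoc (_ : K), ← mul_assoc (_ : K),
    ← Int.cast_mul, ← Int.cast_mul, a4, Int.cast_one, one_mul, ← commute_nil hr a2 a6, ← mul_assoc,
    ← commute_nil hr a1 a5, mul_assoc]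

section E6

theorem topE6 : Top chevE6 rhoE6 epsE6 1 := by constructor <;> decide +kernel

theorem twDE6 (φ : K →+* K) : TwD (twE6 φ) φ rhoE6 epsE6 1 :=
  ⟨topE6, fun _ => twE6_σ_x φ, show ∀ r, (symE6.ρ r : ℕ) = rhoE6 r by decide +kernel⟩

theorem ladE6 : Lad chevE6 rhoE6 oE6 (fun m => repE6 m) 24 20 (orb2 rhoE6 epsE6)
    ([(0, 0), (0, 0), (37, 38), (39, 40), (0, 0), (39, 41), (46, 48), (0, 0), (46, 49), (36, 49), (0, 0), (46, 52),
      (42, 52), (0, 0), (0, 0), (39, 54), (0, 0), (37, 55), (0, 0), (56, 66)].getD · (0, 0))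
    [[(1, 0), (0, 1)], [(-1, 0), (0, 1)]]
    ([([0, 18], 64), ([1], 0), ([0, 6], 68), ([2, 25], 0), ([0, 6], 66), ([0, 18], 54)].getD · ([], 0)) := by
  constructor <;> decide +kernel

theorem wprodE6 : ∀ b : Fin 4, (rootSys rtOKE6).wprod ((([[1], [3], [2, 4], [0, 5]] : List (List (Fin 6))).getD b
    []).map ndE6) = symE6.sw b := fun b => Equiv.ext fun r => Fin.ext (by
  rw [swE6]; revert b r; decide +kernel)

theorem maxE6 [Fintype K] (p : ℕ) [Fact p.Prime] [CharP K p] {a : ℕ} (ha : 1 ≤ a)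
    (hK : Fintype.card K = (p ^ a) ^ 2) (hφ : ∀ t, φ t = t ^ p ^ a) :
    MM (twE6 φ) φ ≠ twistedE6 K (p ^ a) ∧ ∀ H, MM (twE6 φ) φ ≤ H → H ≤ twistedE6 K (p ^ a) →
      H = MM (twE6 φ) φ ∨ H = twistedE6 K (p ^ a) := by
  have hφ2 := frob2 hφ hK
  have hS := sharp_stSys rtOKE6 K
  have hF := eq_FixE6 hφ hφ2
  have hT := twDE6 φ
  obtain ⟨π0, π1, π2, π3, π4, π5⟩ := piE6
  refine ⟨fun e => ?_, fun H h1 h2 => ?_⟩
  · obtain ⟨t, ht⟩ := exists_pow_ne (Nat.one_lt_pow (by omega) (Fact.out : p.Prime).one_lt) one_lt_two hK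
    have := (mem_MM.1 (e ▸ x2_mem_E6 hφ (r := e6p1) (s := e6p6) (by simp) t)).2
    rw [map_mul, glm_xU, glm_xU] at this
    exact ht (hφ t ▸ (hS.x2_inj (r := rtE6 56) (s := rtE6 36) (by decide) this).1)
  refine (hT.dichotomy ladE6 (hT.Yo2 hφ2 (by decide +kernel)) (hF ▸ isTwE6 hφ hφ2) (filtE6 φ) (by simp [val])
    (fun b => exists_n_MM _ (wprodE6 b) ?_) h1 (hF ▸ h2)).imp (le_antisymm · h1) fun h3 => le_antisymm h2 ?_
  · fin_cases b <;> simp [twE6, mkTw, π0, π1, π2, π3, π4, π5, StSys.nprod]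
    exacts [(orthE6_24.n_commute 1 1).eq.symm, (orthE6_05.n_commute 1 1).eq.symm]
  have hs := hasSL2_stSys rtOKE6 K
  have key : ∀ {i j : Fin chevE6.rank} {b : Fin 4} (l : List (Fin 4)), symE6.π i = j → symE6.π j = i →
      Orth (rootSys rtOKE6) i j → (∀ r, r ∈ posJ (rootSys rtOKE6) (symE6.J b) ↔ r = (rootSys rtOKE6).simple i ∨
      r = (rootSys rtOKE6).simple j) → (∀ r : Fin chevE6.nroots, chevE6.nroots ≤ 2 * r → oE6 r = 20 →
      app tSwE6 l r = chevE6.simple i ∨ app tSwE6 l r = chevE6.simple j) → ∀ t,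
      xU chevE6 K (chevE6.simple i) t * xU chevE6 K (chevE6.simple j) (φ t) ∈ H ∧
      xU chevE6 K (chevE6.neg (chevE6.simple i)) t * xU chevE6 K (chevE6.neg (chevE6.simple j)) (φ t) ∈ H := by
    intro i j b l a1 a2 a3 a4 a5 t
    obtain ⟨g, b1, b2, b3⟩ := h3 _ (symE6.pw_mem_W1 l) _ fun r hr e => (a4 _).2
      ((a5 r ((pos_iff_le r).1 hr) e).imp (fun e => Fin.ext ((pw_val _ swE6 l r).trans e))
        fun e => Fin.ext ((pw_val _ swE6 l r).trans e))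
    obtain ⟨s, rfl⟩ := ((twE6 φ).mem_pair a1 a2 a3 hφ2 hS a4).1 ⟨b3, hF ▸ h2 b1⟩
    have := sl2_top p ha Nat.prime_two hK hφ (mul2 _ _ (hs.commute a3 (RingHom.id K) φ)) (M := MM (twE6 φ) φ)
      (s := s) (fun t ht => by
        simp only [mul2_apply, hs.emb_x, hs.emb_y]
        exact ⟨⟨(twE6 φ).pair_pos_fix a1 a2 a3 hφ2 t, by simp [MonoidHom.eqLocus, stSys_x, glm_xU, ht]⟩,
          ⟨(twE6 φ).pair_neg_fix a1 a2 a3 hφ2 t, by simp [MonoidHom.eqLocus, stSys_x, glm_xU, ht]⟩⟩) h1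
      (by simp only [mul2_apply, hs.emb_x]; exact b1) (by simp only [mul2_apply, hs.emb_x]; exact b2) t
    simp only [mul2_apply, hs.emb_x, hs.emb_y] at this
    exact this
  have k1 := key [2, 1, 2, 0, 1, 2, 3] π0 π5 orthE6_05 posJE6_3' (by decide +kernel)
  have k2 := key [3, 1, 2, 0, 1, 2, 3] π2 π4 orthE6_24 posJE6_2' (by decide +kernel)
  refine gen_le ?_
  rintro _ (⟨t, ht, r, hr, rfl⟩ | ⟨t, ⟨r, s⟩, hr, rfl⟩) <;>
    simp only [wordU, List.map_cons, List.map_nil, List.prod_cons, List.prod_nil, mul_one, ← hφ]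
  · exact h1 (hT.x_mem (by revert r; decide +kernel) (by revert r; decide +kernel) ((hφ t).trans ht))
  · simp only [List.mem_cons, List.not_mem_nil, or_false, Prod.mk.injEq] at hr
    rcases hr with ⟨rfl, rfl⟩ | ⟨rfl, rfl⟩ | ⟨rfl, rfl⟩ | ⟨rfl, rfl⟩
    exacts [(k1 t).1, (k1 t).2, (k2 t).1, (k2 t).2]

end E6

section D4

theorem topD4 : Top chevD4 rhoD4a epsD4a 1 := by constructor <;> decide +kernel

theorem twDD4 (φ : K →+* K) : TwD (twD4 φ) φ rhoD4a epsD4a 1 := ⟨topD4, fun _ => twD4_σ_x φ, rhoD4_eq⟩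

theorem ladD4 : Lad chevD4 rhoD4a oD4 (fun m => repD4 m) 6 3 (orb3 rhoD4a epsD4a)
    ([(0, 0), (14, 15), (18, 20)].getD · (0, 0)) [[(1, 0), (0, 1), (0, 2)], [(1, 0), (1, 1), (0, 2)]]
    ([([0, 9], 19), ([1], 0), ([0, 9], 16), ([0, 9], 15)].getD · ([], 0)) := by
  constructor <;> decide +kernel

theorem wprodD4 : ∀ b : Fin 2, (rootSys rtOKD4).wprod ((([[1], [0, 2, 3]] : List (List (Fin 4))).getD b
    []).map ndD4) = symD4.sw b := fun b => Equiv.ext fun r => Fin.ext (by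
  rw [swD4]; revert b r; decide +kernel)

theorem maxD4 [Fintype K] (p : ℕ) [Fact p.Prime] [CharP K p] {a : ℕ} (ha : 1 ≤ a)
    (hK : Fintype.card K = (p ^ a) ^ 3) (hφ : ∀ t, φ t = t ^ p ^ a) :
    MM (twD4 φ) φ ≠ twistedD4 K (p ^ a) ∧ ∀ H, MM (twD4 φ) φ ≤ H → H ≤ twistedD4 K (p ^ a) →
      H = MM (twD4 φ) φ ∨ H = twistedD4 K (p ^ a) := by
  have hφ3 := frob3 hφ hK
  have hS := sharp_stSys rtOKD4 K
  have hF := eq_FixD4 hφ hφ3
  have hT := twDD4 φ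
  obtain ⟨π0, π1, π2, π3⟩ := piD4
  refine ⟨fun e => ?_, fun H h1 h2 => ?_⟩
  · obtain ⟨t, ht⟩ := exists_pow_ne (Nat.one_lt_pow (by omega) (Fact.out : p.Prime).one_lt) (by decide) hK
    have := (mem_MM.1 (e ▸ x3_mem_D4 hφ (r := d4p1) (s := d4p3) (k := d4p4) (by simp) t)).2
    rw [map_mul, map_mul, glm_xU, glm_xU, glm_xU] at this
    exact ht (hφ t ▸ (Tw.x3_inj orthD4_02 orthD4_03 orthD4_23 hS this).1)
  refine (hT.dichotomy ladD4 (hT.Yo3 hφ3 (by decide +kernel)) (hF ▸ isTwD4 hφ hφ3) (filtD4 φ) ?_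
    (fun b => exists_n_MM _ (wprodD4 b) ?_) h1 (hF ▸ h2)).imp (le_antisymm · h1) fun h3 => le_antisymm h2 ?_
  · simp only [List.forall_mem_cons, val]
    refine ⟨by simp, fun t e => ?_, by simp⟩
    have e' : φ (φ t) = t := by
      simp at e
      linear_combination e
    rw [← e', hφ3, e']
  · fin_cases b <;> simp [twD4, mkTw, π0, π1, π2, π3, StSys.nprod]
    rw [← (orthD4_03.n_commute 1 1).eq, ← mul_assoc, ← (orthD4_02.n_commute 1 1).eq, mul_assoc]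
  have hs := hasSL2_stSys rtOKD4 K
  obtain ⟨g, b1, b2, b3⟩ := h3 _ (symD4.pw_mem_W1 [0, 1]) (posJ (rootSys rtOKD4) (symD4.J 1)) fun r hr e => by
    rw [posJD4_1, pw_val _ swD4]
    rw [pos_iff_le] at hr
    revert r; decide +kernel
  obtain ⟨s, rfl⟩ := ((twD4 φ).mem_triple π0 π2 π3 orthD4_02 orthD4_03 orthD4_23 hφ3 hS posJD4_1').1
    ⟨b3, hF ▸ h2 b1⟩
  have a4 : ∀ x y, Commute (mul2 _ _ (hs.commute orthD4_02 (RingHom.id K) φ) x) (emb _ (ndD4 3) (φ.comp φ) y) :=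
    fun _ _ => (hs.commute orthD4_03 _ _ _ _).mul_left (hs.commute orthD4_23 _ _ _ _)
  have k := sl2_top p ha Nat.prime_three hK hφ (mul2 _ _ a4) (M := MM (twD4 φ) φ) (s := s) (fun t ht => by
      simp only [mul2_apply, hs.emb_x, hs.emb_y]
      exact ⟨⟨(twD4 φ).triple_pos_fix π0 π2 π3 orthD4_02 orthD4_03 hφ3 t, by
        simp [MonoidHom.eqLocus, stSys_x, glm_xU, ht]⟩, ⟨(twD4 φ).triple_neg_fix π0 π2 π3 orthD4_02 orthD4_03 hφ3 t,
        by simp [MonoidHom.eqLocus, stSys_x, glm_xU, ht]⟩⟩) h1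
    (by simp only [mul2_apply, hs.emb_x]; exact b1) (by simp only [mul2_apply, hs.emb_x]; exact b2)
  simp only [mul2_apply, hs.emb_x, hs.emb_y] at k
  refine gen_le ?_
  rintro _ (⟨t, ht, r, hr, rfl⟩ | ⟨t, ⟨r, s, l⟩, hr, rfl⟩) <;>
    simp only [wordU, List.map_cons, List.map_nil, List.prod_cons, List.prod_nil, mul_one, sq, pow_mul, ← hφ,
      ← mul_assoc]
  · exact h1 (hT.x_mem (by revert r; decide +kernel) (by revert r; decide +kernel) ((hφ t).trans ht))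
  · simp only [List.mem_cons, List.not_mem_nil, or_false, Prod.mk.injEq] at hr
    rcases hr with ⟨rfl, rfl, rfl⟩ | ⟨rfl, rfl, rfl⟩
    exacts [(k t).1, (k t).2]

end D4

end CfsgLib.BGL
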